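import Cfsg.Agent.Lib.Bic.Str

/-!
An automorphism of odd prime order inverted by an automorphism whose square is inner, acting on a
`2`-group of sectional rank at most three.
-/

set_option autoImplicit false
set_option linter.style.haveILetI false
set_option linter.unusedVariables false
set_option linter.unusedSectionVars false

namespace Cfsg.Agent.Bic

open Subgroup Cfsg.Agent.Ess Cfsg.Agent.Fus
open Cfsg.Agent.Fus2 (HomOn img)
open scoped commutatorElement

universe u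

variable {X : Type u} [Group X]

theorem four_cases {e f z : X} (he : e ^ 2 = 1) (hf : f ^ 2 = 1) (h : Commute f e)
    (hz : z ∈ zpowers f ⊔ zpowers e) : z = 1 ∨ z = e ∨ z = f ∨ z = f * e := by
  obtain ⟨k, n, hn, rfl⟩ := (mem_zpowers_sup_iff
    (mem_normalizer_of_commute (commute_zpowers h))).1 hz
  have h1 : f ^ k = 1 ∨ f ^ k = f :=
    or_iff_not_imp_left.2 (eq_of_mem_zpowers_two hf (zpow_mem_zpowers f k))
  have h2 : n = 1 ∨ n = e := or_iff_not_imp_left.2 (eq_of_mem_zpowers_two he hn)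
  rcases h1 with h1 | h1 <;> rcases h2 with h2 | h2 <;> simp [h1, h2]

theorem exists_inverted [Finite X] {A T : Subgroup (MulAut X)} (h : EssData 2 A T)
    (hi : (Inn X).relIndex T = 2) : ∃ (q : ℕ) (α β : MulAut X), q.Prime ∧ q ≠ 2 ∧ α ^ q = 1 ∧
      α ≠ 1 ∧ β ∈ T ∧ β ∉ Inn X ∧ β * α * β⁻¹ = α⁻¹ ∧ β ^ 2 ∈ Inn X := by
  classical
  have hsq : ∀ t ∈ T, t ^ 2 ∈ Inn X := fun t ht =>
    pow_mem_of_relIndex_dvd h.isPGroup h.inn hi.dvd ht
  obtain ⟨t, ht, hti⟩ := h.ne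
  obtain ⟨γ, -, H⟩ := h.se
  let π := QuotientGroup.mk' (Inn X)
  have hπ : ∀ s, π s = 1 ↔ s ∈ Inn X := fun s => QuotientGroup.eq_one_iff s
  have hI : IsPGroup 2 (Inn X) := h.isPGroup.to_le h.inn
  set b := t * (γ * t * γ⁻¹) with hb
  have h2 : π t * π t = 1 := by rw [← sq, ← map_pow, hπ]; exact hsq t ht
  have h3 : π t * π b * (π t)⁻¹ = (π b)⁻¹ := by
    have : (π t)⁻¹ = π t := inv_eq_of_mul_eq_one_right h2
    simp only [hb, map_mul, map_inv, mul_inv_rev, inv_inv, this, ← mul_assoc, h2, one_mul]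
  have h4 : ∀ s ∈ zpowers b, π t * π s * (π t)⁻¹ = (π s)⁻¹ := by
    rintro _ ⟨k, rfl⟩
    simp only [map_zpow]
    rw [← conj_zpow, h3, inv_zpow]
  have hnp : ¬ IsPGroup 2 (zpowers b) := fun hp => by
    refine H t ht t ht hti hti ?_
    have h5 : IsPGroup 2 (zpowers (π t) ⊔ (zpowers b).map π : Subgroup _) :=
      IsPGroup.to_sup_of_normal_right' (isPGroup_zpowers_of_pow (k := 1) (by rwa [pow_one, sq]))
        (hp.map π) (zpowers_le.2 (mem_normalizer_of_conj_mem (by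
          rintro _ ⟨s, hs, rfl⟩
          rw [h4 s hs]; exact inv_mem ⟨s, hs, rfl⟩)))
    refine (h5.comap_of_ker_isPGroup π (by rwa [QuotientGroup.ker_mk'])).to_le
      ((closure_le _).2 ?_)
    have ht' : π t ∈ zpowers (π t) ⊔ (zpowers b).map π := mem_sup_left (mem_zpowers _)
    rintro _ (rfl | rfl)
    · exact ht'
    · have := mul_mem (inv_mem ht') (mem_sup_right ⟨b, mem_zpowers b, rfl⟩)
      rwa [hb, map_mul, inv_mul_cancel_left] at this
  obtain ⟨s, hs, hso, hs1⟩ : ∃ s ∈ zpowers b, (orderOf s).Coprime 2 ∧ s ≠ 1 := by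
    by_contra hc
    push Not at hc
    exact hnp (isPGroup_of_forall_coprime hc)
  have hq := Nat.minFac_prime (fun e => hs1 (orderOf_eq_one_iff.1 e))
  set q := (orderOf s).minFac
  have hq2 : q ≠ 2 := fun e => by
    have := Nat.Coprime.eq_one_of_dvd hso.symm (e ▸ Nat.minFac_dvd _)
    omega
  set α := s ^ (orderOf s / q)
  have hα : orderOf α = q := orderOf_pow_orderOf_div (orderOf_pos s).ne' (Nat.minFac_dvd _)
  have hα' : π t * π α * (π t)⁻¹ = (π α)⁻¹ := h4 α (pow_mem hs _)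
  have key : ∀ a : MulAut X, π t * π a * (π t)⁻¹ = (π a)⁻¹ → ∀ z, π z = π t →
      π (a * z * a) = π t := fun a ha z hz => by
    rw [map_mul, map_mul, hz, mul_assoc, ← inv_mul_cancel_right (π t * π a) (π t), ha]; simp
  let σ : Equiv.Perm {z : MulAut X // π z = π t} :=
    { toFun := fun z => ⟨α * z * α, key α hα' z z.2⟩
      invFun := fun z => ⟨α⁻¹ * z * α⁻¹, key α⁻¹ (by
        rw [map_inv, ← conj_inv, hα']) z z.2⟩
      left_inv := fun z => Subtype.ext (by simp [mul_assoc])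
      right_inv := fun z => Subtype.ext (by simp [mul_assoc]) }
  have hσ : ∀ (n : ℕ) z, ((σ ^ n) z : MulAut X) = α ^ n * z * α ^ n := fun n z => by
    induction n with
    | zero => simp
    | succ n ih =>
      rw [pow_succ', Equiv.Perm.mul_apply]
      show α * ((σ ^ n) z : MulAut X) * α = _
      rw [ih, pow_succ' α n]; nth_rw 2 [← pow_succ' α n]; rw [pow_succ]; simp only [mul_assoc]
  have hαq : α ^ q = 1 := hα ▸ pow_orderOf_eq_one α
  haveI := Fact.mk hq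
  haveI := Fintype.ofFinite {z : MulAut X // π z = π t}
  have hc : Nat.card {z : MulAut X // π z = π t} = Nat.card (Inn X) :=
    Nat.card_congr
      { toFun := fun z => ⟨t⁻¹ * z, by rw [← hπ, map_mul, z.2]; simp⟩
        invFun := fun n => ⟨t * n, by rw [map_mul, (hπ _).2 n.2, mul_one]⟩
        left_inv := fun y => by simp
        right_inv := fun n => by simp }
  obtain ⟨z, hz⟩ := Equiv.Perm.exists_fixed_point_of_prime (p := q) (n := 1) (σ := σ) (by
    obtain ⟨k, hk⟩ := IsPGroup.iff_card.1 hI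
    rw [← Nat.card_eq_fintype_card, hc, hk]
    exact fun e => hq2 ((Nat.prime_dvd_prime_iff_eq hq Nat.prime_two).1 (hq.dvd_of_dvd_pow e)))
    (Equiv.ext fun z => Subtype.ext (by rw [hσ, pow_one, hαq]; simp))
  have hz' : α * z * α = z := congrArg Subtype.val hz
  have hzT : (z : MulAut X) ∈ T := by
    have : t⁻¹ * z ∈ Inn X := by rw [← hπ, map_mul, z.2]; simp
    simpa using T.mul_mem ht (h.inn this)
  refine ⟨q, α, z, hq, hq2, hαq, fun e => hq.ne_one (by rw [← hα, e, orderOf_one]), hzT,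
    fun e => hti (by rw [← hπ, ← z.2, hπ]; exact e), ?_, hsq _ hzT⟩
  rw [eq_inv_iff_mul_eq_one, mul_eq_one_comm, ← mul_assoc, ← mul_assoc, hz', mul_inv_cancel]

theorem eq_one_of_fix [Finite X] {K : Subgroup X} {α : MulAut X} (hK : ∀ z ∈ K, α z ∈ K)
    (hc : ∀ a ∈ K, ∀ b ∈ K, Commute a b) (h : K ≤ closure {y | ∃ z ∈ K, z⁻¹ * α z = y})
    {z : X} (hz : z ∈ K) (e : α z = z) : z = 1 := by
  let f : K →* K :=
    { toFun := fun a => ⟨(a : X)⁻¹ * α a, mul_mem (inv_mem a.2) (hK a a.2)⟩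
      map_one' := by simp
      map_mul' := fun a b => Subtype.ext (by
        simp only [coe_mul, map_mul, mul_inv_rev]
        rw [mul_assoc, ← mul_assoc (a : X)⁻¹, ← mul_assoc (b : X)⁻¹,
          (hc _ (inv_mem b.2) _ (mul_mem (inv_mem a.2) (hK a a.2))).eq, mul_assoc]) }
  have h1 : Function.Surjective f := fun b => by
    have : closure {y | ∃ z ∈ K, z⁻¹ * α z = y} ≤ f.range.map K.subtype := (closure_le _).2 (by
      rintro _ ⟨z, hz, rfl⟩
      exact ⟨_, ⟨⟨z, hz⟩, rfl⟩, rfl⟩)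
    obtain ⟨_, ⟨a, rfl⟩, e⟩ := this (h b.2)
    exact ⟨a, Subtype.ext e⟩
  exact congrArg Subtype.val ((injective_iff_map_eq_one f).1 (Finite.injective_iff_surjective.2 h1)
    ⟨z, hz⟩ (Subtype.ext (by simp [f, e])))

theorem apply_eq_of_sq {α : MulAut X} {q : ℕ} (hq : Odd q) (hα : α ^ q = 1) {z : X}
    (h : α (α z) = z) : α z = z := by
  obtain ⟨k, rfl⟩ := hq
  have h1 : ∀ n : ℕ, (α ^ (2 * n)) z = z := fun n => by
    induction n with
    | zero => rfl
    | succ n ih => rw [mul_add, pow_add, MulAut.mul_apply, mul_one, sq, MulAut.mul_apply, h, ih]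
  have h2 := congrArg (fun β : MulAut X => β z) hα
  simpa only [pow_succ', MulAut.mul_apply, h1, MulAut.one_apply] using h2

theorem four_group [Finite X] [Nontrivial X] (he : ∀ v : X, v ^ 2 = 1) (hc : Nat.card X ≤ 8)
    {a t : MulAut X} {I : Subgroup (MulAut X)} (hI : IsPGroup 2 I)
    (haI : ∀ i ∈ I, a⁻¹ * i * a ∈ I) (ht : t ^ 2 ∈ I) (hta : t * a * t⁻¹ = a⁻¹) {q : ℕ}
    (hq : Odd q) (ha : a ^ q = 1) (hg : closure {y | ∃ z ∈ (⊤ : Subgroup X), z⁻¹ * a z = y} = ⊤) :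
    (∀ i ∈ I, i = 1) ∧ ∃ v d : X, d = v⁻¹ * t v ∧ d ≠ 1 ∧ a d * d ≠ 1 ∧
      zpowers (a d) ⊔ zpowers d = ⊤ ∧ a (a d) = a d * d ∧ t (a d) = a d * d := by
  have hX : IsPGroup 2 X := fun v => ⟨1, by simpa using he v⟩
  have hinv : ∀ v : X, v⁻¹ = v := fun v => inv_eq_of_mul_eq_one_right (by rw [← sq, he])
  have hcm : ∀ v w : X, Commute v w := fun v w => by
    rw [Commute, SemiconjBy, ← hinv (v * w), mul_inv_rev, hinv, hinv]
  have fpf : ∀ v, a v = v → v = 1 := fun v => eq_one_of_fix (K := ⊤) (fun _ _ => trivial)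
    (fun v _ w _ => hcm v w) hg.ge trivial
  have hIt : ∀ i ∈ I, i = 1 := by
    let U : Subgroup X :=
      { carrier := {v | ∀ i ∈ I, i v = v}
        one_mem' := fun i _ => map_one i
        mul_mem' := fun hv hw i hi => by rw [map_mul, hv i hi, hw i hi]
        inv_mem' := fun hv i hi => by rw [map_inv, hv i hi] }
    have hU : Inv (zpowers a) U := inv_zpowers_iff.2 fun v hv i hi => by
      have := congrArg a (hv _ (haI i hi))
      simpa using this
    obtain ⟨v, -, hv, H⟩ := exists_triv_step hX hI (B := ⊥) (C := ⊤) (by simp) (inv_top _)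
      (inv_bot _)
    have hvU : v ∈ U := fun i hi => (inv_mul_eq_one.1 (mem_bot.1 (H i hi))).symm
    have h1 : ¬ Nat.card U ∣ 2 := fun e => hv (mem_bot.2 (fpf v (trivOn_bot_iff.1
      (trivOn_of_relIndex_dvd_two hU (inv_bot _) (by rwa [relIndex_bot_left]) (mem_zpowers a))
      v hvU)))
    have h2 : U.relIndex ⊤ ∣ 2 := by
      refine relIndex_dvd_of_le' (hX.to_subgroup ⊤) ?_
      obtain ⟨k, hk⟩ := IsPGroup.iff_card.1 (hX.to_subgroup U)
      have h3 : 2 ^ 2 ≤ Nat.card U := by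
        rw [hk] at h1 ⊢
        refine Nat.pow_le_pow_right two_pos ?_
        by_contra hk2
        exact h1 (by simpa using pow_dvd_pow 2 (by omega : k ≤ 1))
      have h4 := U.card_mul_index
      rw [relIndex_top_right]
      nlinarith
    have h3 := trivOn_of_relIndex_dvd_two (inv_top _) hU h2 (mem_zpowers a)
    have h4 : ⊤ ≤ U := hg.ge.trans ((closure_le _).2 (by rintro _ ⟨z, hz, rfl⟩; exact h3 z hz))
    exact fun i hi => MulEquiv.ext fun v => h4 (mem_top v) i hi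
  have htt : ∀ v, t (t v) = v := fun v => by
    have := congrArg (fun β : MulAut X => β v) (hIt _ ht)
    simpa [sq] using this
  have hU : ∀ u, t u = u → t (a u) = a u → u = 1 := fun u h1 h2 => by
    refine fpf u (apply_eq_of_sq hq ha ?_)
    have := congrArg (fun β : MulAut X => a (β (t u))) hta
    simp only [MulAut.mul_apply, MulAut.inv_apply_self, MulAut.apply_inv_self] at this
    rwa [h2, h1] at this
  let g : X →* X :=
    { toFun := fun v => v⁻¹ * t v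
      map_one' := by simp
      map_mul' := fun v w => by
        simp only [map_mul, hinv]
        rw [mul_assoc, ← mul_assoc w, (hcm w _).eq]; simp only [mul_assoc] }
  have hg' : ∀ v, t (g v) = g v := fun v => by
    show t (v⁻¹ * t v) = v⁻¹ * t v
    rw [map_mul, htt, hinv, (hcm v _).eq]
  have hk : g.ker = fixSub t := by
    ext v; rw [MonoidHom.mem_ker, mem_fixSub]; exact inv_mul_eq_one.trans eq_comm
  have h1 : (fixSub t).index ≤ Nat.card (fixSub t) := hk ▸ index_ker_le g fun v => hk ▸ hg' v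
  have h2 : Nat.card (fixSub t) ≤ (fixSub t).index := by
    refine Nat.card_le_card_of_injective
      (fun u : fixSub t => ((a u : X) : X ⧸ fixSub t)) fun u v e => ?_
    have := QuotientGroup.eq.1 e
    rw [← map_inv, ← map_mul] at this
    exact Subtype.ext (inv_mul_eq_one.1 (hU _ (mul_mem (inv_mem u.2) v.2) this))
  have h3 := (fixSub t).card_mul_index
  have h4 : 1 < Nat.card X := Finite.one_lt_card
  have h5 : (fixSub t).index = 2 := by
    rw [le_antisymm h2 h1] at h3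
    have : (fixSub t).index ≤ 2 := by nlinarith
    have : 1 < (fixSub t).index := by nlinarith
    omega
  have h6 : Nat.card X = 4 := by rw [← h3, le_antisymm h2 h1, h5]
  obtain ⟨v, hv⟩ : ∃ v, v ∉ fixSub t := by
    by_contra hc
    push Not at hc
    rw [(eq_top_iff' _).2 hc, index_top] at h5
    omega
  have hd : g v ≠ 1 := fun e => hv (hk ▸ e)
  have hd' : a (g v) ≠ g v := fun e => hd (fpf _ e)
  have hd1 : a (g v) ≠ 1 := fun e => hd (by simpa using e)
  have htop : zpowers (a (g v)) ⊔ zpowers (g v) = ⊤ := by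
    refine eq_top_of_card_eq _ ?_
    rw [h6, card_zpowers_sup (p := 2) (mem_normalizer_of_commute fun b _ => hcm _ b)
      (he _ ▸ one_mem _) (fun hc => hd' (eq_of_mem_zpowers_two (he _) hc hd1)),
      card_zpowers_eq (he _) hd]
  have h7 := fun z => four_cases (he _) (he _) (hcm _ _) (htop.ge (mem_top z))
  refine ⟨hIt, v, g v, rfl, hd, fun e => hd' (by rwa [mul_eq_one_iff_eq_inv, hinv] at e), htop,
    ?_, ?_⟩
  · rcases h7 (a (a (g v))) with e | e | e | e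
    · exact absurd (by simpa using e) hd
    · exact absurd (apply_eq_of_sq hq ha e) hd'
    · exact absurd (a.injective e) hd'
    · exact e
  · rcases h7 (t (a (g v))) with e | e | e | e
    · exact absurd (by simpa using e) hd
    · exact absurd (t.injective (e.trans (hg' v).symm)) hd'
    · exact absurd (hU _ (hg' v) e) hd
    · exact e

theorem exists_dat [Finite X] (hX : IsPGroup 2 X) (hr : SR 2 X) {α β : MulAut X} {q : ℕ}
    (hq : q.Prime) (hq2 : q ≠ 2) (hα : α ^ q = 1) (h1 : α ≠ 1) (hβ : β * α * β⁻¹ = α⁻¹)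
    (hβ2 : β ^ 2 ∈ Inn X) : ∃ (H : Subgroup X) (a₀ d : X), H.Normal ∧ (∀ z ∈ H, α z ∈ H) ∧
      (∀ z ∈ H, β z ∈ H) ∧ (∀ z, ∃ c, α c = c ∧ c⁻¹ * z ∈ H) ∧ a₀ ∈ H ∧ d = a₀⁻¹ * β a₀ ∧
      d ∉ phi 2 H ∧ α d * d ∉ phi 2 H ∧ zpowers (α d) ⊔ zpowers d = H ∧
      (α d * d)⁻¹ * α (α d) ∈ phi 2 H ∧ (α d * d)⁻¹ * β (α d) ∈ phi 2 H ∧
      (∀ g, ∀ z ∈ H, z⁻¹ * (g * z * g⁻¹) ∈ phi 2 H) ∧
      ((∀ a ∈ H, ∀ b ∈ H, Commute a b) → ∀ z ∈ H, α z = z → z = 1) := by
  haveI := Fact.mk hq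
  let H : Subgroup X := closure {y | ∃ z, z⁻¹ * α z = y}
  have hH : ∀ z, z⁻¹ * α z ∈ H := fun z => subset_closure ⟨z, rfl⟩
  have key : ∀ γ : MulAut X, (∀ z, γ (z⁻¹ * α z) ∈ H) → ∀ z ∈ H, γ z ∈ H := fun γ hγ z hz =>
    (closure_le (H.comap γ.toMonoidHom)).2 (by rintro _ ⟨z, rfl⟩; exact hγ z) hz
  haveI hHn : H.Normal := ⟨fun z hz g => key (MulAut.conj g) (fun z => by
    convert mul_mem (hH (z * g⁻¹)) (inv_mem (hH g⁻¹)) using 1
    simp [mul_assoc]) z hz⟩
  have hαH := key α fun z => by simpa using hH (α z)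
  have hβH := key β fun z => by
    have e := congrArg (fun γ : MulAut X => γ (β z)) hβ
    simp only [MulAut.mul_apply, MulAut.inv_apply_self] at e
    simpa [e] using inv_mem (hH (α⁻¹ (β z)))
  have hCH : ∀ z, ∃ c, α c = c ∧ c⁻¹ * z ∈ H := fun z => by
    obtain ⟨c, hc, e⟩ := exists_fixed_in_coset (q := q) (k := 1) (N := H) (by rwa [pow_one]) (by
      obtain ⟨k, hk⟩ := IsPGroup.iff_card.1 (hX.to_subgroup H)
      rw [hk]
      exact fun e => hq2 ((Nat.prime_dvd_prime_iff_eq hq Nat.prime_two).1 (hq.dvd_of_dvd_pow e)))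
      hαH (hH z)
    exact ⟨c, e, by simpa using inv_mem hc⟩
  have hHH : H ≤ closure {y | ∃ z ∈ H, z⁻¹ * α z = y} := closure_mono (by
    rintro _ ⟨z, rfl⟩
    obtain ⟨c, e, hc⟩ := hCH z
    exact ⟨_, hc, by simp [e, mul_assoc]⟩)
  have hA : Inv (stabSub H) H := fun _ h => h
  haveI : ((phi 2 H).subgroupOf H).Normal := normal_subgroupOf_of_phi_le le_rfl
  let σ := sec (stabSub H) H (phi 2 H) hA hA.phi
  let ι : X →* stabSub H := (MulAut.conj : X →* MulAut X).codRestrict _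
    fun g z hz => hHn.conj_mem z hz g
  have hne : ¬ H ≤ phi 2 H := fun e => h1 (MulEquiv.ext fun z => (inv_mul_eq_one.1 (mem_bot.1
    (nonGen_phi (hX.to_subgroup H) ⊥ bot_le (by rwa [bot_sup_eq]) (hH z)))).symm)
  haveI : Nontrivial (H ⧸ (phi 2 H).subgroupOf H) := by
    obtain ⟨z, hz, hz'⟩ := SetLike.not_le_iff_exists.1 hne
    exact ⟨⟨(⟨z, hz⟩ : H), 1, fun e => hz' ((QuotientGroup.eq_one_iff (⟨z, hz⟩ : H)).1 e)⟩⟩
  obtain ⟨g₀, hg₀⟩ := hβ2
  obtain ⟨hI, v, d, e0, e1, e2, e3, e4, e5⟩ := four_group (X := H ⧸ (phi 2 H).subgroupOf H)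
    (fun v => by
      obtain ⟨z, rfl⟩ := QuotientGroup.mk_surjective v
      exact (QuotientGroup.eq_one_iff (z ^ 2)).2 (pow_mem_phi z.2))
    (by rw [card_sec]; exact hr H _ le_rfl) (a := σ ⟨α, hαH⟩) (t := σ ⟨β, hβH⟩)
    (I := (σ.comp ι).range) (hX.of_surjective _ (MonoidHom.rangeRestrict_surjective _))
    (by
      rintro _ ⟨g, rfl⟩
      refine ⟨α⁻¹ g, ?_⟩
      simp only [MonoidHom.comp_apply, ← map_inv, ← map_mul]
      refine congrArg σ (Subtype.ext (MulEquiv.ext fun z => ?_))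
      show α⁻¹ g * z * (α⁻¹ g)⁻¹ = α⁻¹ (g * α z * g⁻¹)
      simp)
    ⟨g₀, by rw [← map_pow]; exact congrArg σ (Subtype.ext hg₀)⟩
    (by rw [← map_inv, ← map_inv, ← map_mul, ← map_mul]; exact congrArg σ (Subtype.ext hβ))
    (hq.odd_of_ne_two hq2) (by rw [← map_pow, ← map_one σ]; exact congrArg σ (Subtype.ext hα))
    (by
      refine eq_top_iff.2 fun v _ => ?_
      obtain ⟨⟨z, hz⟩, rfl⟩ := QuotientGroup.mk_surjective v
      have : closure {y | ∃ z ∈ H, z⁻¹ * α z = y} ≤ Subgroup.map H.subtype (Subgroup.comap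
          (QuotientGroup.mk' ((phi 2 H).subgroupOf H))
          (closure {y | ∃ z ∈ (⊤ : Subgroup _), z⁻¹ * σ ⟨α, hαH⟩ z = y})) :=
        (closure_le _).2 (by
          rintro _ ⟨z, hz, rfl⟩
          exact ⟨⟨_, hH z⟩, subset_closure ⟨(⟨z, hz⟩ : H), trivial, rfl⟩, rfl⟩)
      obtain ⟨w, hw, rfl⟩ := this (hHH hz)
      exact hw)
  obtain ⟨v, rfl⟩ := QuotientGroup.mk_surjective v
  have hdH : (v : X)⁻¹ * β v ∈ H := mul_mem (inv_mem v.2) (hβH v v.2)
  obtain rfl : d = ((⟨_, hdH⟩ : H) : H ⧸ (phi 2 H).subgroupOf H) := e0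
  refine ⟨H, v, _, hHn, hαH, hβH, hCH, v.2, rfl, fun e => e1 ((QuotientGroup.eq_one_iff _).2 e),
    fun e => e2 ((QuotientGroup.eq_one_iff (⟨_, mul_mem (hαH _ hdH) hdH⟩ : H)).2 e), ?_,
    mk_eq_mk_iff.1 (show ((⟨_, mul_mem (hαH _ hdH) hdH⟩ : H) : H ⧸ (phi 2 H).subgroupOf H) =
      (⟨_, hαH _ (hαH _ hdH)⟩ : H) from e4.symm),
    mk_eq_mk_iff.1 (show ((⟨_, mul_mem (hαH _ hdH) hdH⟩ : H) : H ⧸ (phi 2 H).subgroupOf H) =
      (⟨_, hβH _ (hαH _ hdH)⟩ : H) from e5.symm),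
    fun g => (sec_eq_one_iff hA hA.phi (ι g)).1 (hI _ ⟨g, rfl⟩),
    fun hc z hz => eq_one_of_fix hαH hc hHH hz⟩
  have hle : zpowers (α ((v : X)⁻¹ * β v)) ⊔ zpowers ((v : X)⁻¹ * β v) ≤ H :=
    sup_le (zpowers_le.2 (hαH _ hdH)) (zpowers_le.2 hdH)
  refine le_antisymm hle (nonGen_phi (hX.to_subgroup H) _ hle fun z hz => ?_)
  have h2 : ((zpowers (α ((v : X)⁻¹ * β v)) ⊔ zpowers ((v : X)⁻¹ * β v)).subgroupOf H).map
      (QuotientGroup.mk' ((phi 2 H).subgroupOf H)) = ⊤ :=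
    eq_top_iff.2 (e3.ge.trans (sup_le
      (zpowers_le.2 ⟨⟨_, hαH _ hdH⟩, mem_sup_left (mem_zpowers _), rfl⟩)
      (zpowers_le.2 ⟨⟨_, hdH⟩, mem_sup_right (mem_zpowers _), rfl⟩)))
  obtain ⟨w, hw, e⟩ := h2.ge (mem_top ((⟨z, hz⟩ : H) : H ⧸ (phi 2 H).subgroupOf H))
  have := mul_mem_sup (mem_subgroupOf.1 hw) (mk_eq_mk_iff.1
    (show (w : H ⧸ (phi 2 H).subgroupOf H) = (⟨z, hz⟩ : H) from e))
  rwa [mul_inv_cancel_left] at this

end Cfsg.Agent.Bic
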