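import Cfsg.Agent.Lib.Bic.Bl

/-!
Non-metacyclic bicyclic `2`-groups: the abelianization.
-/

set_option autoImplicit false
set_option linter.style.haveILetI false
set_option linter.unusedVariables false
set_option linter.unusedSectionVars false

namespace Cfsg.Agent.Bic

open Subgroup Cfsg.Agent.Ess
open scoped commutatorElement

universe u

variable {G : Type u} [Group G]

/-- The map to the abelianization. -/
abbrev ab : G →* Abelianization G := Abelianization.of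

theorem ab_eq_one {g : G} : ab g = 1 ↔ g ∈ commutator G := by
  rw [← Abelianization.ker_of]; rfl

theorem ab_eq_iff {g k : G} : ab g = ab k ↔ g * k⁻¹ ∈ commutator G := by
  rw [← ab_eq_one, map_mul, map_inv, mul_inv_eq_one]

/-- The subgroup `⟨y ^ n⟩ G'`. -/
def Mk (y : G) (n : ℤ) : Subgroup G := (zpowers (ab y ^ n)).comap ab

theorem mem_Mk {y g : G} {n : ℤ} : g ∈ Mk y n ↔ ∃ k : ℤ, ab g = ab y ^ (n * k) :=
  ⟨fun ⟨k, hk⟩ => ⟨k, by rw [zpow_mul]; exact hk.symm⟩,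
    fun ⟨k, hk⟩ => ⟨k, by rw [hk, zpow_mul]⟩⟩

theorem mem_Mk' {y g : G} {n : ℤ} :
    g ∈ Mk y n ↔ ∃ k : ℤ, ∃ w ∈ commutator G, g = w * y ^ (n * k) := by
  rw [mem_Mk]
  refine exists_congr fun k => ⟨fun h => ⟨g * (y ^ (n * k))⁻¹, ?_, by simp⟩, ?_⟩
  · rw [← ab_eq_iff, h, map_zpow]
  · rintro ⟨w, hw, rfl⟩
    rw [map_mul, ab_eq_one.2 hw, one_mul, map_zpow]

instance normal_Mk (y : G) (n : ℤ) : (Mk y n).Normal := by unfold Mk; infer_instance

theorem W_le_Mk (y : G) (n : ℤ) : commutator G ≤ Mk y n := fun g hg =>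
  mem_Mk.2 ⟨0, by rw [ab_eq_one.2 hg]; simp⟩

theorem pow_mem_Mk (y : G) (n : ℤ) : y ^ n ∈ Mk y n := mem_Mk.2 ⟨1, by simp⟩

theorem Mk_le (y : G) {m n : ℤ} (h : m ∣ n) : Mk y n ≤ Mk y m := fun g hg => by
  obtain ⟨k, hk⟩ := mem_Mk.1 hg
  obtain ⟨l, rfl⟩ := h
  exact mem_Mk.2 ⟨l * k, by rw [hk, mul_assoc]⟩

theorem Mk_le_of {y : G} {n : ℤ} {K : Subgroup G} (hW : commutator G ≤ K) (hy : y ^ n ∈ K) :
    Mk y n ≤ K := fun g hg => by
  obtain ⟨k, w, hw, rfl⟩ := mem_Mk'.1 hg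
  rw [zpow_mul]
  exact K.mul_mem (hW hw) (K.zpow_mem hy k)

theorem mem_of_mem_Mk (hG : IsPGroup 2 G) {y g : G} {n : ℤ} (hg : g ∈ Mk y n)
    (hg' : g ∉ Mk y (2 * n)) {K : Subgroup G} (hW : commutator G ≤ K) (hK : g ∈ K) :
    y ^ n ∈ K := by
  obtain ⟨k, w, hw, rfl⟩ := mem_Mk'.1 hg
  have hk : Odd k := by
    by_contra hk
    obtain ⟨l, rfl⟩ := (Int.not_odd_iff_even.1 hk).two_dvd
    exact hg' (mem_Mk'.2 ⟨l, w, hw, by congr 2; ring⟩)
  refine mem_of_zpow_odd hG hk ?_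
  rw [← zpow_mul]
  simpa using K.mul_mem (K.inv_mem (hW hw)) hK

theorem exists_gen {y : G} {K : Subgroup G} (hK : K ≤ Mk y 1) :
    ∃ g ∈ K, ∀ k ∈ K, ∃ n : ℤ, k * (g ^ n)⁻¹ ∈ commutator G := by
  have h1 : K.map ab ≤ zpowers (ab y ^ (1 : ℤ)) := map_le_iff_le_comap.2 hK
  haveI : IsCyclic (K.map ab) := isCyclic_of_le h1
  obtain ⟨⟨_, g, hg, rfl⟩, h⟩ := IsCyclic.exists_generator (α := K.map ab)
  refine ⟨g, hg, fun k hk => ?_⟩
  obtain ⟨n, hn⟩ := h ⟨ab k, k, hk, rfl⟩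
  exact ⟨n, by rw [← ab_eq_iff, map_zpow]; exact (congrArg Subtype.val hn).symm⟩

theorem exists_sq_mem (hG : IsPGroup 2 G) {g : G} {K : Subgroup G} (hg : g ∉ K) :
    ∃ k ∈ zpowers g, k ∉ K ∧ k ^ 2 ∈ K := by
  obtain ⟨n, hn⟩ := hG g
  have h1 : g ^ 2 ^ n ∈ K := hn ▸ K.one_mem
  clear hn
  induction n with
  | zero => exact absurd (by simpa using h1) hg
  | succ n ih =>
    by_cases h : g ^ 2 ^ n ∈ K
    · exact ih h
    · exact ⟨g ^ 2 ^ n, pow_mem (mem_zpowers g) _, h, by rwa [← pow_mul, ← pow_succ]⟩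

namespace BC

variable [Finite G] {x y : G} (h : BC x y)
include h

theorem top : zpowers x ⊔ zpowers y = ⊤ := sup_eq_top_of_gen h.gen

theorem comm_W {a b : G} (ha : a ∈ commutator G) (hb : b ∈ commutator G) : Commute a b := by
  haveI : (⁅zpowers x, zpowers y⁆ : Subgroup G).Normal :=
    Fit.normal_of_sup_eq_top h.top (normalizer_commutator_ge_left _ _)
      (normalizer_commutator_ge_right _ _)
  have h1 : commutator G ≤ ⁅zpowers x, zpowers y⁆ :=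
    commutator_le_of_gen (commutator_mem_commutator (mem_zpowers x) (mem_zpowers y)) h.top
  haveI := Fit.isMulCommutative_commutator_of_product (zpowers x) (zpowers y) fun g => by
    obtain ⟨i, j, rfl⟩ := h.gen g
    exact ⟨_, ⟨i, rfl⟩, _, ⟨j, rfl⟩, rfl⟩
  exact setLike_mul_comm (h1 ha) (h1 hb)

theorem ab_x_sq : ab x ^ 2 = ab y ^ 2 := by
  rw [← map_pow, ← map_pow, ab_eq_iff]; exact h.wW

theorem x_sq_mem : x ^ 2 ∈ Mk y 2 := mem_Mk.2 ⟨1, by rw [map_pow, h.ab_x_sq]; simp⟩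

theorem x_not_mem : x ∉ Mk y 1 := fun hx => by
  obtain ⟨k, w, hw, e⟩ := mem_Mk'.1 hx
  refine comm_not_mem_W1 h.hG h.nm h.top ?_
  have : ⁅x, y⁆ = ⁅w, y⁆ := by rw [e]; simp only [commutatorElement_def]; group
  rw [this]
  exact comm_mem_W1 hw y

theorem exists_odd {a : G} (ha : a ∉ Mk y 1) : ∃ i j : ℤ, Odd i ∧ a = x ^ i * y ^ j := by
  obtain ⟨i, j, rfl⟩ := h.gen a
  refine ⟨i, j, ?_, rfl⟩
  by_contra hi
  obtain ⟨l, rfl⟩ := (Int.not_odd_iff_even.1 hi).two_dvd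
  refine ha (mul_mem ?_ (zpow_mem (by simpa using pow_mem_Mk y 1) j))
  rw [zpow_mul]
  exact zpow_mem (by exact_mod_cast Mk_le y (one_dvd _) h.x_sq_mem) l

theorem gen_of_not_mem {a : G} (ha : a ∉ Mk y 1) : zpowers a ⊔ zpowers y = ⊤ := by
  obtain ⟨i, j, hi, rfl⟩ := h.exists_odd ha
  refine eq_top_iff.2 (h.top.ge.trans (sup_le (zpowers_le.2 (mem_of_zpow_odd h.hG hi ?_))
    le_sup_right))
  simpa using mul_mem_sup (mem_zpowers (x ^ i * y ^ j)) (zpow_mem_zpowers y (-j))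

theorem mul_mem_of_not_mem {a b : G} (ha : a ∉ Mk y 1) (hb : b ∉ Mk y 1) : a * b ∈ Mk y 1 := by
  obtain ⟨i, j, ⟨m, rfl⟩, rfl⟩ := h.exists_odd ha
  obtain ⟨k, l, ⟨n, rfl⟩, rfl⟩ := h.exists_odd hb
  refine mem_Mk.2 ⟨2 * (m + n + 1) + j + l, ?_⟩
  have e : ab x ^ (2 * (m + n + 1)) = ab y ^ (2 * (m + n + 1)) := by
    rw [zpow_mul, zpow_mul, zpow_ofNat, zpow_ofNat, h.ab_x_sq]
  simp only [map_mul, map_zpow, one_mul]
  rw [zpow_add (ab y), zpow_add (ab y), ← e, mul_mul_mul_comm, ← zpow_add, mul_assoc]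
  congr 2; ring

theorem inv_mul_mem_of_not_mem {a b : G} (ha : a ∉ Mk y 1) (hb : b ∉ Mk y 1) :
    a⁻¹ * b ∈ Mk y 1 := h.mul_mem_of_not_mem (fun e => ha (inv_mem_iff.1 e)) hb

theorem sq_mem (g : G) : g ^ 2 ∈ Mk y 2 := by
  obtain ⟨i, j, rfl⟩ := h.gen g
  refine mem_Mk.2 ⟨i + j, ?_⟩
  rw [map_pow, map_mul, map_zpow, map_zpow, mul_pow, ← zpow_natCast (ab x ^ i), ← zpow_mul,
    mul_comm i, zpow_mul, zpow_natCast, h.ab_x_sq, ← zpow_natCast, ← zpow_natCast, ← zpow_mul,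
    ← zpow_mul, ← zpow_add]
  congr 1; push_cast; ring

theorem phi_le_Mk (K : Subgroup G) : phi 2 K ≤ Mk y 2 :=
  phi_le_iff.2 ⟨fun g _ => h.sq_mem g, fun a _ b _ => W_le_Mk y 2 (comm_mem_W a b)⟩

theorem mem_W1_y {g : G} (hg : g ∈ zpowers y) (hW : g ∈ commutator G) : g ∈ W1 G :=
  mem_W1_of_zpowers h.hG h.nm (sup_comm (zpowers x) _ ▸ h.top) hg hW

theorem y_sq_not_mem : y ^ 2 ∉ commutator G := fun hy => by
  have hx : x ^ 2 ∈ commutator G := by simpa using mul_mem h.wW hy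
  exact h.wn (mul_mem (mem_W1_of_zpowers h.hG h.nm h.top (pow_mem (mem_zpowers x) 2) hx)
    (inv_mem (h.mem_W1_y (pow_mem (mem_zpowers y) 2) hy)))

theorem y_not_mem_W : y ∉ commutator G := fun hy => h.y_sq_not_mem (pow_mem hy 2)

theorem pow_not_mem_Mk {n : ℤ} (hn : y ^ n ∉ commutator G) : y ^ n ∉ Mk y (2 * n) := fun e => by
  obtain ⟨k, hk⟩ := mem_Mk.1 e
  refine hn (mem_of_zpow_odd h.hG (i := 1 - 2 * k) ⟨-k, by ring⟩ ?_)
  rw [← ab_eq_one, map_zpow, zpow_sub, zpow_one, map_zpow, ← zpow_mul, mul_inv_eq_one,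
    ← map_zpow, hk]
  congr 1; ring

theorem y_not_mem : y ∉ Mk y 2 := by
  simpa using h.pow_not_mem_Mk (n := 1) (by simpa using h.y_not_mem_W)

theorem y_sq_not_mem' : y ^ 2 ∉ Mk y 4 := by
  have := h.pow_not_mem_Mk (n := 2) (by exact_mod_cast h.y_sq_not_mem)
  rwa [zpow_ofNat] at this

theorem u_not_mem : x * y⁻¹ ∉ Mk y 1 := fun e =>
  h.x_not_mem (by simpa using mul_mem e (by simpa using pow_mem_Mk y 1 : y ∈ Mk y 1))

theorem u_sq_mem : (x * y⁻¹) ^ 2 ∈ commutator G := by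
  rw [← ab_eq_one, map_pow, map_mul, mul_pow, h.ab_x_sq, map_inv, inv_pow, mul_inv_cancel]

theorem sq_mem_W1' {a : G} (ha : a ∉ Mk y 1) (ha2 : a ^ 2 ∈ commutator G) : a ^ 2 ∈ W1 G :=
  mem_W1_of_zpowers h.hG h.nm (h.gen_of_not_mem ha) (pow_mem (mem_zpowers a) 2) ha2

theorem not_commute {a : G} (ha : a ∉ Mk y 1) : ¬ Commute a y := fun e =>
  comm_not_mem_W1 h.hG h.nm (h.gen_of_not_mem ha)
    (by rw [commutatorElement_eq_one_iff_commute.2 e]; exact one_mem _)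

theorem mem_two_of_commute {a b : G} (ha : a ∉ Mk y 1) (hb : b ∈ Mk y 1) (e : Commute a b) :
    b ∈ Mk y 2 := by
  by_contra hb'
  have h1 : y ∈ zpowers b ⊔ commutator G := by
    simpa using mem_of_mem_Mk h.hG hb (by simpa using hb') le_sup_right
      (mem_sup_left (mem_zpowers b))
  obtain ⟨k, w, hw, e1⟩ := (mem_zpowers_sup_iff (by rw [normalizer_eq_top]; trivial)).1 h1
  refine comm_not_mem_W1 h.hG h.nm (h.gen_of_not_mem ha) ?_
  have : ⁅a, y⁆ = b ^ k * ⁅a, w⁆ * (b ^ k)⁻¹ := by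
    rw [← e1]
    simp only [commutatorElement_def]
    rw [← mul_assoc a, (e.zpow_right k).eq]
    simp only [mul_inv_rev, mul_assoc]
  rw [this]
  exact normal_W1.conj_mem _ (comm_mem_W1' hw a) _

theorem index_frattini : (frattini G).index ≤ 2 ^ 2 := by
  have h1 : zpowers x ⊔ (zpowers y ⊔ frattini G) = ⊤ := by rw [← sup_assoc, h.top, top_sup_eq]
  have hW : commutator G ≤ zpowers y ⊔ frattini G :=
    (Fit.commutator_le_frattini h.hG).trans le_sup_right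
  haveI := normal_of_commutator_le' hW
  have h2 := relIndex_zpowers_sup_dvd (p := 2) (N := frattini G) (g := y)
    (by rw [normalizer_eq_top]; trivial) (Fit.pow_mem_frattini h.hG y)
  have h3 := relIndex_zpowers_sup_dvd (p := 2) (N := zpowers y ⊔ frattini G) (g := x)
    (by rw [normalizer_eq_top]; trivial) (mem_sup_right (Fit.pow_mem_frattini h.hG x))
  rw [h1, relIndex_top_right] at h3
  rw [← relIndex_mul_index (le_sup_right : frattini G ≤ zpowers y ⊔ frattini G), sq]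
  exact Nat.mul_le_mul (Nat.le_of_dvd two_pos h2) (Nat.le_of_dvd two_pos h3)

theorem isPGroup_aut : IsPGroup 2 (⊤ : Subgroup (MulAut G)) := by
  refine isPGroup_mulAut_of_not_irr h.hG h.index_frattini fun hI => ?_
  rcases hI.le_or (Inv.omg (inv_char ⊤ (commutator G)) comm_mem_W 2) with e | e
  · have h1 := e (mem_omg.2 h.u_sq_mem)
    have h2 : zpowers y ⊔ frattini G = ⊤ := eq_top_iff.2
      ((h.gen_of_not_mem h.u_not_mem).ge.trans (sup_le ((zpowers_le.2 h1).trans le_sup_right)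
        le_sup_left))
    exact hI.not_isCyclic h.hG h2
  · exact h.y_sq_not_mem (mem_omg.1 (e.ge (mem_top y)))

end BC

end Cfsg.Agent.Bic
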