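import Cfsg.Agent.Lib.Ess.Loc
import Cfsg.Agent.Lib.Ess.Meta2
import Cfsg.Agent.Lib.Fit.Solvable

/-!
Blackburn's criterion for metacyclic `2`-groups and the basic structure of a non-metacyclic
bicyclic `2`-group.
-/

set_option autoImplicit false
set_option linter.style.haveILetI false
set_option linter.unusedVariables false

namespace Cfsg.Agent.Bic

open Subgroup Cfsg.Agent.Ess
open scoped commutatorElement

universe u

variable {G : Type u} [Group G]

/-- `Φ(G') K₃(G)` for a `2`-group with abelian derived subgroup. -/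
def W1 (G : Type u) [Group G] : Subgroup G := mho 2 (commutator G) ⊔ ⁅commutator G, ⊤⁆

instance normal_W1 : (W1 G).Normal := by
  haveI : (mho 2 (commutator G)).Normal := normal_mho 2
  unfold W1; infer_instance

theorem comm_mem_W (a b : G) : ⁅a, b⁆ ∈ commutator G :=
  commutator_mem_commutator (mem_top a) (mem_top b)

theorem W1_le : W1 G ≤ commutator G :=
  sup_le mho_le (commutator_mono le_top le_rfl)

theorem sq_mem_W1 {w : G} (hw : w ∈ commutator G) : w ^ 2 ∈ W1 G :=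
  mem_sup_left (pow_mem_mho hw)

theorem comm_mem_W1 {w : G} (hw : w ∈ commutator G) (g : G) : ⁅w, g⁆ ∈ W1 G :=
  mem_sup_right (commutator_mem_commutator hw (mem_top g))

theorem comm_mem_W1' {w : G} (hw : w ∈ commutator G) (g : G) : ⁅g, w⁆ ∈ W1 G := by
  rw [← commutatorElement_inv]; exact inv_mem (comm_mem_W1 hw g)

theorem map_W1 {H : Type u} [Group H] (f : G →* H) (hf : Function.Surjective f) :
    (W1 G).map f = W1 H := by
  have h1 : (⊤ : Subgroup G).map f = ⊤ := map_top_of_surjective f hf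
  have h2 : (commutator G).map f = commutator H := by
    rw [commutator_def, commutator_def, map_commutator, h1]
  rw [W1, W1, Subgroup.map_sup, map_mho, map_commutator, h1, h2]

theorem commutator_le_of_sup {K B : Subgroup G} [K.Normal] {a b : G}
    (hB : ∀ z ∈ B, ∀ g, ⁅z, g⁆ ∈ K) (hab : ⁅a, b⁆ ∈ K)
    (h : zpowers b ⊔ (zpowers a ⊔ B) = ⊤) : commutator G ≤ K := by
  let π := QuotientGroup.mk' K
  have hπ : ∀ x y : G, ⁅x, y⁆ ∈ K ↔ Commute (π x) (π y) := fun x y => by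
    rw [← commutatorElement_eq_one_iff_commute, ← map_commutatorElement]
    exact (QuotientGroup.eq_one_iff _).symm
  have h' := congrArg (Subgroup.map π) h
  rw [Subgroup.map_sup, Subgroup.map_sup, MonoidHom.map_zpowers, MonoidHom.map_zpowers,
    map_top_of_surjective _ (QuotientGroup.mk'_surjective K)] at h'
  have key := comm_of_sup_eq_top (B := B.map π) (by
    rintro _ ⟨z, hz, rfl⟩
    rw [mem_center_iff]
    intro g
    obtain ⟨g, rfl⟩ := QuotientGroup.mk'_surjective K g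
    exact ((hπ z g).1 (hB z hz g)).symm.eq) ((hπ a b).1 hab) h'
  rw [commutator_def, commutator_le]
  exact fun x _ y _ => (hπ x y).2 (key _ _)

theorem commutator_le_of_gen {K : Subgroup G} [K.Normal] {a b : G} (hab : ⁅a, b⁆ ∈ K)
    (h : zpowers a ⊔ zpowers b = ⊤) : commutator G ≤ K :=
  commutator_le_of_sup (B := ⊥) (fun z hz g => by simp [mem_bot.1 hz]) hab
    (by rw [sup_bot_eq, sup_comm, h])

theorem normal_of_commutator_le' {K : Subgroup G} (h : commutator G ≤ K) : K.Normal :=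
  ⟨fun x hx g => by
    have := K.mul_mem (h (comm_mem_W g x)) hx
    simpa [commutatorElement_def] using this⟩

theorem normal_of_gen [Finite G] {K B : Subgroup G} {a b : G}
    (h : zpowers b ⊔ (zpowers a ⊔ B) = ⊤) (ha : ∀ x ∈ K, a * x * a⁻¹ ∈ K)
    (hb : ∀ x ∈ K, b * x * b⁻¹ ∈ K) (hB : ∀ z ∈ B, ∀ x ∈ K, z * x * z⁻¹ ∈ K) : K.Normal :=
  normalizer_eq_top_iff.1 (eq_top_iff.2 (h.ge.trans (sup_le
    (zpowers_le.2 (Fus.mem_normalizer_of_conj_mem hb))
    (sup_le (zpowers_le.2 (Fus.mem_normalizer_of_conj_mem ha))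
      fun z hz => Fus.mem_normalizer_of_conj_mem (hB z hz)))))

theorem W1_le_of_cyclic (hG : IsPGroup 2 G) {c : G} (hn : (zpowers c).Normal)
    (h : commutator G ≤ zpowers c) : W1 G ≤ zpowers (c ^ 2) := by
  refine sup_le (mho_le_iff.2 fun x hx => ?_) (commutator_le.2 fun x hx g _ => ?_)
  · obtain ⟨m, rfl⟩ := h hx
    exact ⟨m, by simp only; rw [← zpow_natCast, ← zpow_natCast, ← zpow_mul, ← zpow_mul, mul_comm]⟩
  · obtain ⟨m, rfl⟩ := h hx
    obtain ⟨i, hi⟩ := hG c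
    obtain ⟨j, hj⟩ := hG g
    obtain ⟨k, hk⟩ := exists_conj_eq_pow hi hj (hn.conj_mem c (mem_zpowers c) g)
    refine ⟨-(k * m), ?_⟩
    have : ⁅c ^ m, g⁆ = c ^ m * ((g * c * g⁻¹) ^ m)⁻¹ := by
      rw [conj_zpow]; simp [commutatorElement_def, mul_assoc]
    simp only
    rw [this, hk, ← zpow_natCast, ← zpow_natCast, ← zpow_mul, ← zpow_mul, ← zpow_sub]
    congr 1
    push_cast; ring

/-- Blackburn's criterion. -/
theorem W1_le_zpowers : ∀ (n : ℕ) (G : Type u) [Group G] [Finite G], Nat.card G = n →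
    IsPGroup 2 G → ∀ a b : G, (zpowers a ⊔ W1 G).Normal →
    zpowers b ⊔ (zpowers a ⊔ W1 G) = ⊤ → W1 G ≤ zpowers a := by
  intro n
  induction n using Nat.strong_induction_on with
  | _ n ih =>
  intro G _ _ hn hG a b hN htop
  by_cases h0 : W1 G = ⊥
  · rw [h0]; exact bot_le
  obtain ⟨z, hz, hz1, hzc⟩ := exists_mem_omZ_top hG h0
  obtain ⟨hz2, hzc⟩ := mem_omZ_top.1 hzc
  haveI hZ : (zpowers z).Normal := ⟨by
    rintro _ ⟨m, rfl⟩ g
    exact ⟨m, by simp only; rw [← ((hzc g).zpow_left m).eq]; simp⟩⟩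
  let π := QuotientGroup.mk' (zpowers z)
  have hπ := QuotientGroup.mk'_surjective (zpowers z)
  have e1 : (zpowers a ⊔ W1 G).map π = zpowers (π a) ⊔ W1 _ := by
    rw [Subgroup.map_sup, MonoidHom.map_zpowers, map_W1 π hπ]
  have hlt : Nat.card (G ⧸ zpowers z) < n := by
    rw [← hn, card_eq_card_quotient_mul_card_subgroup (zpowers z), card_zpowers_eq hz2 hz1]
    have := Nat.card_pos (α := G ⧸ zpowers z)
    omega
  have h1 := ih _ hlt (G ⧸ zpowers z) rfl (hG.to_quotient _) (π a) (π b)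
    (e1 ▸ hN.map π hπ) (by
      rw [← e1, ← MonoidHom.map_zpowers, ← Subgroup.map_sup, htop, map_top_of_surjective π hπ])
  have h2 : W1 G ≤ zpowers a ⊔ zpowers z := by
    rw [← map_W1 π hπ, ← MonoidHom.map_zpowers, map_le_iff_le_comap, comap_map_eq,
      QuotientGroup.ker_mk'] at h1
    exact h1
  have e2 : zpowers a ⊔ W1 G = zpowers a ⊔ zpowers z :=
    le_antisymm (sup_le le_sup_left h2) (sup_le_sup_left (zpowers_le.2 hz) _)
  rw [e2] at hN htop
  have hc : ⁅b, a⁆ ∈ zpowers a ⊔ zpowers z := by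
    have ha : a ∈ zpowers a ⊔ zpowers z := mem_sup_left (mem_zpowers a)
    exact mul_mem (hN.conj_mem a ha b) (inv_mem ha)
  obtain ⟨i, _, ⟨j, rfl⟩, e⟩ := (mem_zpowers_sup_iff (by
    rw [normalizer_eq_top]; trivial)).1 hc
  simp only at e
  set c := ⁅b, a⁆ with hcdef
  have hca : Commute c a := by
    rw [← e]; exact ((Commute.refl a).zpow_left i).mul_left ((hzc a).zpow_left j)
  have hcb : b * c * b⁻¹ = c ^ (i + 1) := by
    have h3 : b * a * b⁻¹ = c * a := by simp [hcdef, commutatorElement_def]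
    calc b * c * b⁻¹ = (b * a * b⁻¹) ^ i * z ^ j := by
          rw [← e, conj_zpow, mul_assoc (b * a ^ i), ← ((hzc b⁻¹).zpow_left j).eq]; group
      _ = c ^ (i + 1) := by rw [h3, hca.mul_zpow, mul_assoc, e, zpow_add_one]
  haveI hcn : (zpowers c).Normal := normal_of_gen htop (by
      rintro _ ⟨m, rfl⟩
      exact ⟨m, by simp only; rw [← (hca.zpow_left m).eq]; simp⟩) (by
      rintro _ ⟨m, rfl⟩
      exact ⟨(i + 1) * m, by simp only; rw [← conj_zpow, hcb, zpow_mul]⟩) (by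
      rintro _ ⟨k, rfl⟩ x hx
      simp only
      rw [((hzc x).zpow_left k).eq]; simpa using hx)
  have h4 : commutator G ≤ zpowers c := commutator_le_of_sup (B := zpowers z) (a := a) (b := b) (by
      rintro _ ⟨k, rfl⟩ g
      simp only
      rw [commutatorElement_eq_one_iff_commute.2 ((hzc g).zpow_left k)]; exact one_mem _)
    (by rw [← commutatorElement_inv]; exact inv_mem (mem_zpowers c)) htop
  refine (W1_le_of_cyclic hG hcn h4).trans (zpowers_le.2 ⟨i * 2, ?_⟩)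
  simp only
  rw [← e, ((hzc a).symm.zpow_zpow i j).mul_pow, ← zpow_natCast (z ^ j), ← zpow_mul, mul_comm j,
    zpow_mul z, zpow_natCast, hz2, one_zpow, mul_one, zpow_mul, zpow_ofNat]

theorem isMetacyclic_of_gen [Finite G] (hG : IsPGroup 2 G) {a b : G}
    (h : zpowers a ⊔ zpowers b = ⊤) (hW : commutator G ≤ zpowers a ⊔ W1 G) : IsMetacyclic G := by
  have h1 := W1_le_zpowers _ G rfl hG a b (normal_of_commutator_le' hW)
    (eq_top_iff.2 (h.ge.trans (sup_le (le_sup_left.trans le_sup_right) le_sup_left)))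
  rw [sup_eq_left.2 h1] at hW
  haveI := normal_of_commutator_le' hW
  refine ⟨zpowers a, this, inferInstance, ?_⟩
  have h' := congrArg (Subgroup.map (QuotientGroup.mk' (zpowers a))) h
  rw [Subgroup.map_sup, QuotientGroup.map_mk'_self, bot_sup_eq, MonoidHom.map_zpowers,
    map_top_of_surjective _ (QuotientGroup.mk'_surjective _)] at h'
  exact ⟨⟨_, fun x => h'.ge (mem_top x)⟩⟩

theorem mem_or_of_gen {a b : G} (h : zpowers a ⊔ zpowers b = ⊤) {g : G} (hg : g ∈ commutator G) :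
    g ∈ W1 G ∨ ⁅a, b⁆⁻¹ * g ∈ W1 G := by
  haveI : (zpowers ⁅a, b⁆ ⊔ W1 G).Normal := ⟨fun x hx k => by
    have hxW : x ∈ commutator G := (sup_le (zpowers_le.2 (comm_mem_W a b)) W1_le) hx
    have := mul_mem (mem_sup_right (comm_mem_W1' hxW k) : _ ∈ zpowers ⁅a, b⁆ ⊔ W1 G) hx
    simpa [commutatorElement_def] using this⟩
  have h1 := commutator_le_of_gen (K := zpowers ⁅a, b⁆ ⊔ W1 G) (mem_sup_left (mem_zpowers _)) h hg
  obtain ⟨i, n, hn, rfl⟩ := (mem_zpowers_sup_iff (by rw [normalizer_eq_top]; trivial)).1 h1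
  have h2 : ∀ k : ℤ, ⁅a, b⁆ ^ (2 * k) ∈ W1 G := fun k => by
    rw [zpow_mul]; exact zpow_mem (by exact_mod_cast sq_mem_W1 (comm_mem_W a b)) k
  rcases Int.even_or_odd' i with ⟨k, rfl | rfl⟩
  · exact Or.inl (mul_mem (h2 k) hn)
  · right
    rw [add_comm, zpow_add, zpow_one, ← mul_assoc, inv_mul_cancel_left]
    exact mul_mem (h2 k) hn

theorem inv_mul_mem_W1 {a b : G} (h : zpowers a ⊔ zpowers b = ⊤) {g k : G}
    (hg : g ∈ commutator G) (hk : k ∈ commutator G) (hg' : g ∉ W1 G) (hk' : k ∉ W1 G) :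
    g⁻¹ * k ∈ W1 G := by
  have h1 := (mem_or_of_gen h hg).resolve_left hg'
  have h2 := (mem_or_of_gen h hk).resolve_left hk'
  simpa only [mul_inv_rev, inv_inv, mul_assoc, mul_inv_cancel_left] using mul_mem (inv_mem h1) h2

section NM

variable [Finite G] (hG : IsPGroup 2 G) (hm : ¬ IsMetacyclic G) {a b : G}
  (h : zpowers a ⊔ zpowers b = ⊤)
include hG hm h

theorem comm_not_mem : ⁅a, b⁆ ∉ zpowers a ⊔ W1 G := fun hc =>
  hm (isMetacyclic_of_gen hG h fun g hg => by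
    rcases mem_or_of_gen h hg with h1 | h1
    · exact mem_sup_right h1
    · simpa only [mul_inv_cancel_left] using mul_mem hc (mem_sup_right h1))

theorem comm_not_mem_W1 : ⁅a, b⁆ ∉ W1 G := fun hc => comm_not_mem hG hm h (mem_sup_right hc)

theorem mem_W1_of_zpowers {g : G} (hg : g ∈ zpowers a) (hW : g ∈ commutator G) : g ∈ W1 G := by
  by_contra hc
  have := inv_mul_mem_W1 h hW (comm_mem_W a b) hc (comm_not_mem_W1 hG hm h)
  exact comm_not_mem hG hm h (by simpa using mul_mem (mem_sup_left hg) (mem_sup_right this))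

end NM

/-! ### Computations modulo `W1` -/

theorem q_comm (g h : G) (k : G ⧸ W1 G) : Commute ((⁅g, h⁆ : G) : G ⧸ W1 G) k := by
  obtain ⟨k, rfl⟩ := QuotientGroup.mk_surjective k
  rw [← commutatorElement_eq_one_iff_commute]
  exact (QuotientGroup.eq_one_iff ⁅⁅g, h⁆, k⁆).2 (comm_mem_W1 (comm_mem_W g h) k)

theorem comm_sq_mem_W1 (g h : G) : ⁅g ^ 2, h⁆ ∈ W1 G := by
  rw [← QuotientGroup.eq_one_iff]
  have h1 : ((⁅g ^ 2, h⁆ : G) : G ⧸ W1 G) = ⁅(g : G ⧸ W1 G) ^ 2, (h : G ⧸ W1 G)⁆ := rfl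
  rw [h1, comm_pow_left (q_comm g h _)]
  exact (QuotientGroup.eq_one_iff (⁅g, h⁆ ^ 2)).2 (sq_mem_W1 (comm_mem_W g h))

theorem q_sq_comm (g : G) (k : G ⧸ W1 G) : Commute ((g : G ⧸ W1 G) ^ 2) k := by
  obtain ⟨k, rfl⟩ := QuotientGroup.mk_surjective k
  rw [← commutatorElement_eq_one_iff_commute]
  exact (QuotientGroup.eq_one_iff ⁅g ^ 2, k⁆).2 (comm_sq_mem_W1 g k)

theorem q_mul_pow (g h : G) (n : ℕ) : ((g : G ⧸ W1 G) * h) ^ n =
    (g : G ⧸ W1 G) ^ n * (h : G ⧸ W1 G) ^ n * ((⁅h⁻¹, g⁻¹⁆ : G) : G ⧸ W1 G) ^ n.choose 2 :=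
  mul_pow_of_central (by
    have : ((⁅h⁻¹, g⁻¹⁆ : G) : G ⧸ W1 G) = ⁅(h : G ⧸ W1 G)⁻¹, (g : G ⧸ W1 G)⁻¹⁆ := rfl
    rw [this, commutatorElement_def]; group) (q_comm _ _ _) (q_comm _ _ _) n

theorem mem_zpowers_zpow_odd (hG : IsPGroup 2 G) (x : G) {i : ℤ} (hi : Odd i) :
    x ∈ zpowers (x ^ i) :=
  (hG x).elim fun _ hk => mem_of_zpow_mem_of_coprime hk
    (by rw [Nat.coprime_two_right]; exact Int.natAbs_odd.2 hi) (mem_zpowers _)

theorem mem_of_zpow_odd (hG : IsPGroup 2 G) {x : G} {i : ℤ} (hi : Odd i) {K : Subgroup G}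
    (h : x ^ i ∈ K) : x ∈ K := zpowers_le.2 h (mem_zpowers_zpow_odd hG x hi)

theorem sup_eq_top_of_gen {x y : G} (h : ∀ g : G, ∃ i j : ℤ, g = x ^ i * y ^ j) :
    zpowers x ⊔ zpowers y = ⊤ := eq_top_iff.2 fun g _ => by
  obtain ⟨i, j, rfl⟩ := h g
  exact mul_mem_sup ⟨i, rfl⟩ ⟨j, rfl⟩

/-- A non-metacyclic bicyclic `2`-group with normalized generators. -/
structure BC (x y : G) : Prop where
  hG : IsPGroup 2 G
  gen : ∀ g : G, ∃ i j : ℤ, g = x ^ i * y ^ j
  nm : ¬ IsMetacyclic G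
  wW : x ^ 2 * (y ^ 2)⁻¹ ∈ commutator G
  wn : x ^ 2 * (y ^ 2)⁻¹ ∉ W1 G

theorem exists_bic [Finite G] (hG : IsPGroup 2 G) (hm : ¬ IsMetacyclic G) {x y : G}
    (h : ∀ g : G, ∃ i j : ℤ, g = x ^ i * y ^ j) : ∃ x y : G, BC x y := by
  have htop := sup_eq_top_of_gen h
  have hc := comm_not_mem_W1 hG hm htop
  have hc' : ((⁅x, y⁆ : G) : G ⧸ W1 G) ≠ 1 := fun e => hc ((QuotientGroup.eq_one_iff _).1 e)
  obtain ⟨i, j, e⟩ := h ⁅x, y⁆
  have e' : ((⁅x, y⁆ : G) : G ⧸ W1 G) = (x : G ⧸ W1 G) ^ i * (y : G ⧸ W1 G) ^ j := by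
    rw [e]; rfl
  have hxy : ¬ Commute (x : G ⧸ W1 G) y := fun e => hc' (commutatorElement_eq_one_iff_commute.2 e)
  have hodd : ∀ (g k : G) (i : ℤ), Commute ((g : G ⧸ W1 G) ^ i) k → ¬ Commute (g : G ⧸ W1 G) k →
      ∃ i', i = 2 * i' := fun g k i h1 h2 => by
    rcases Int.even_or_odd' i with ⟨m, rfl | rfl⟩
    · exact ⟨m, rfl⟩
    · refine absurd ?_ h2
      have h3 : Commute ((g : G ⧸ W1 G) ^ (2 * m)) k := by
        rw [zpow_mul]; exact Commute.zpow_left (by exact_mod_cast q_sq_comm g k) m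
      have := h3.inv_left.mul_left h1
      rwa [zpow_add_one, inv_mul_cancel_left] at this
  obtain ⟨i, rfl⟩ := hodd x y i (by
    have := (q_comm x y y).mul_left ((Commute.refl (y : G ⧸ W1 G)).zpow_left (-j))
    rwa [e', zpow_neg, mul_inv_cancel_right] at this) hxy
  obtain ⟨j, rfl⟩ := hodd y x j (by
    have := ((Commute.refl (x : G ⧸ W1 G)).zpow_left (-(2 * i))).mul_left (q_comm x y x)
    rwa [e', zpow_neg, inv_mul_cancel_left] at this) (fun e => hxy e.symm)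
  have hij : Odd i ∧ Odd j := by
    have h0 : 0 < Int.gcd i j := Nat.pos_of_ne_zero fun h0 => by
      obtain ⟨rfl, rfl⟩ := Int.gcd_eq_zero_iff.1 h0
      exact hc' (by rw [e']; simp)
    obtain ⟨a, b, hab, ha, hb⟩ := Int.exists_gcd_one h0
    set k := Int.gcd i j
    have h1 := q_mul_pow (x ^ a) (y ^ b) (2 * k)
    have h2 : ((x ^ a : G) : G ⧸ W1 G) ^ (2 * k) * ((y ^ b : G) : G ⧸ W1 G) ^ (2 * k) =
        ((⁅x, y⁆ : G) : G ⧸ W1 G) := by
      rw [e', QuotientGroup.mk_zpow, QuotientGroup.mk_zpow, ← zpow_natCast, ← zpow_natCast,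
        ← zpow_mul, ← zpow_mul, ha, hb]
      congr 2 <;> (push_cast; ring)
    rw [h2] at h1
    have h3 : ((⁅(y ^ b)⁻¹, (x ^ a)⁻¹⁆ : G) : G ⧸ W1 G) ^ (2 * k).choose 2 ≠ 1 := fun e1 => by
      rw [e1, mul_one, ← QuotientGroup.mk_mul, ← QuotientGroup.mk_pow, QuotientGroup.eq] at h1
      have hW : (x ^ a * y ^ b) ^ (2 * k) ∈ commutator G := by
        simpa only [mul_inv_rev, inv_inv, mul_inv_cancel_left] using
          mul_mem (comm_mem_W x y) (inv_mem (W1_le h1))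
      have hgen : ∃ g, zpowers (x ^ a * y ^ b) ⊔ zpowers g = ⊤ := by
        by_cases ha : Odd a
        · refine ⟨y, eq_top_iff.2 (htop.ge.trans (sup_le (zpowers_le.2
            (mem_of_zpow_odd hG ha ?_)) le_sup_right))⟩
          simpa using mul_mem_sup (mem_zpowers (x ^ a * y ^ b)) (zpow_mem_zpowers y (-b))
        · have hb : Odd b := by
            by_contra hb
            rw [Int.not_odd_iff_even] at ha hb
            have := Int.dvd_coe_gcd ha.two_dvd hb.two_dvd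
            rw [hab] at this
            omega
          refine ⟨x, eq_top_iff.2 (htop.ge.trans (sup_le le_sup_right (zpowers_le.2
            (mem_of_zpow_odd hG hb ?_))))⟩
          rw [sup_comm]
          simpa using mul_mem_sup (zpow_mem_zpowers x (-a)) (mem_zpowers (x ^ a * y ^ b))
      obtain ⟨g, hg⟩ := hgen
      have := mem_W1_of_zpowers hG hm hg (pow_mem (mem_zpowers _) _) hW
      exact hc (by simpa using mul_mem this h1)
    have h4 : ¬ Commute ((y : G ⧸ W1 G) ^ b) ((x : G ⧸ W1 G) ^ a) := fun e1 => h3 (by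
      have : ((⁅(y ^ b)⁻¹, (x ^ a)⁻¹⁆ : G) : G ⧸ W1 G) = 1 :=
        commutatorElement_eq_one_iff_commute.2 e1.inv_inv
      rw [this, one_pow])
    have hk : Odd k := by
      by_contra hk
      obtain ⟨m, hm⟩ := Nat.not_odd_iff_even.1 hk
      refine h3 ?_
      have : (2 * k).choose 2 = 2 * (m * (2 * k - 1)) := by
        rw [Nat.choose_two_right, mul_assoc, Nat.mul_div_cancel_left _ two_pos, hm]; ring
      rw [this, pow_mul, ← QuotientGroup.mk_pow,
        (QuotientGroup.eq_one_iff _).2 (sq_mem_W1 (comm_mem_W _ _)), one_pow]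
    have ha' : Odd a := by
      by_contra ha
      obtain ⟨m, rfl⟩ := (Int.not_odd_iff_even.1 ha).two_dvd
      refine h4 (Commute.symm ?_)
      rw [zpow_mul]; exact Commute.zpow_left (by exact_mod_cast q_sq_comm x _) m
    have hb' : Odd b := by
      by_contra hb
      obtain ⟨m, rfl⟩ := (Int.not_odd_iff_even.1 hb).two_dvd
      refine h4 ?_
      rw [zpow_mul]; exact Commute.zpow_left (by exact_mod_cast q_sq_comm y _) m
    have hk' : Odd (k : ℤ) := by exact_mod_cast hk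
    exact ⟨ha ▸ ha'.mul hk', hb ▸ hb'.mul hk'⟩
  have e2 : (x ^ i) ^ 2 * ((y ^ (-j)) ^ 2)⁻¹ = ⁅x, y⁆ := by
    rw [e, ← zpow_natCast, ← zpow_natCast, ← zpow_mul, ← zpow_mul, ← zpow_neg]
    congr 2 <;> (push_cast; ring)
  refine ⟨x ^ i, y ^ (-j), hG, fun g => ?_, hm, e2 ▸ comm_mem_W x y, e2 ▸ hc⟩
  obtain ⟨a, b, rfl⟩ := h g
  obtain ⟨m, hm⟩ := mem_zpowers_zpow_odd hG x hij.1
  obtain ⟨n, hn⟩ := mem_zpowers_zpow_odd hG y hij.2.neg
  simp only at hm hn
  exact ⟨m * a, n * b, by rw [zpow_mul, zpow_mul, hm, hn]⟩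

end Cfsg.Agent.Bic
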