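import Cfsg.Agent.Lib.Ess.Loc
import Cfsg.Agent.Lib.Fus.BCGLO

/-!
A saturated `2`-fusion system generated by an automorphism of order three of a subgroup having
index two in its normalizer.
-/

set_option autoImplicit false
set_option linter.style.haveILetI false
set_option linter.unusedVariables false
set_option linter.unusedSectionVars false

namespace Cfsg.Agent.Bic

open Subgroup Cfsg.Agent.Ess Cfsg.Agent.Fus
open Cfsg.Agent.Fus2 (HomOn img afn M)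

universe u

variable {G : Type u} [Group G]

/-- The hypotheses of the construction. -/
structure Con (Q : Subgroup G) (α : MulAut Q) (t : G) : Prop where
  hG : IsPGroup 2 G
  three : α ^ 3 = 1
  ne : α ≠ 1
  tN : t ∈ normalizer (Q : Set G)
  tQ : t ∉ Q
  nor : ∀ g ∈ normalizer (Q : Set G), g ∈ Q ∨ t⁻¹ * g ∈ Q
  inv : conjAut Q t tN * α * (conjAut Q t tN)⁻¹ * α ∈ Inn Q
  small : ∀ R < Q, ∃ i : ℕ, ∃ s, (∀ z ∈ R, afn (α ^ i) z ≠ s) ∧
    ∀ z ∈ R, Commute s (afn (α ^ i) z)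

/-- The automizer of `Q`. -/
def autA {Q : Subgroup G} (α : MulAut Q) : Subgroup (MulAut Q) :=
  autInducedBy ⊤ Q ⊔ (zpowers α ⊔ Inn Q)

open Classical in
/-- The fusion system generated by `α`. -/
noncomputable def sys {Q : Subgroup G} (α : MulAut Q) : FusionSystem (⊤ : Subgroup G) :=
  genAut (univSystem ⊤) fun P => if h : Q = P then h ▸ autA α else ⊥

theorem conjAut_mem_autA {Q : Subgroup G} (α : MulAut Q) {g : G}
    (hg : g ∈ normalizer (Q : Set G)) : conjAut Q g hg ∈ autA α :=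
  mem_sup_left (conjAut_mem_autInducedBy (mem_top g) hg)

theorem M_sys {Q : Subgroup G} {α β : MulAut Q} (hβ : β ∈ autA α) : M (sys α) Q (afn β) :=
  (Fus2.mem_autGroup_iff le_top).1 (mem_autGroup_genAut (by simpa using hβ)
    (by rw [autGroup_univSystem le_top]; trivial))

theorem sys_cases [Finite G] {Q P : Subgroup G} {α : MulAut Q}
    (hP : ∀ k, (∀ x ∈ P, k * x * k⁻¹ ∈ Q) → ∀ z ∈ Q, ∃ x ∈ P, k * x * k⁻¹ = z) {f : G → G}
    (hf : M (sys α) P f) : (∃ g, ∀ x ∈ P, f x = g * x * g⁻¹) ∨ ∃ k g, ∃ β ∈ autA α,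
      (∀ x ∈ P, k * x * k⁻¹ ∈ Q) ∧ ∀ x ∈ P, f x = g * afn β (k * x * k⁻¹) * g⁻¹ := by
  have key := genAut_induction (C := fun φ => (∃ g, ∀ x : P, φ x = g * x * g⁻¹) ∨
      ∃ k g, ∃ β ∈ autA α, (∀ x ∈ P, k * x * k⁻¹ ∈ Q) ∧
        ∀ x : P, φ x = g * afn β (k * x * k⁻¹) * g⁻¹)
    (fun _ => Or.inl ⟨1, fun x => by simp⟩) (by
      rintro φ ψ s - - (⟨g, e⟩ | ⟨k, g, β, hβ, h1, e⟩) e'
      · exact Or.inl ⟨s * g, fun x => by rw [e', e]; group⟩
      · exact Or.inr ⟨k, s * g, β, hβ, h1, fun x => by rw [e', e]; group⟩) (by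
      intro φ ψ R γ _ hγ _ _ hC h e
      by_cases hR : Q = R
      · subst hR
        simp only [dite_true] at hγ
        have e' : ∀ x, ψ x = afn γ (φ x) := fun x => by rw [e, Fus2.afn_apply γ (h x)]
        rcases hC with ⟨g, e1⟩ | ⟨k, g, β, hβ, h1, e1⟩
        · exact Or.inr ⟨g, 1, γ, hγ, fun x hx => e1 ⟨x, hx⟩ ▸ h ⟨x, hx⟩,
            fun x => by rw [e', e1]; simp⟩
        · have hg : g ∈ normalizer (Q : Set G) := mem_normalizer_of_conj_mem fun z hz => by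
            obtain ⟨x, hx, e2⟩ := hP k h1 _ (Fus2.afn_mem β⁻¹ hz)
            have := h ⟨x, hx⟩
            rwa [e1, e2, Fus2.afn_afn_inv] at this
          refine Or.inr ⟨k, 1, γ * conjAut Q g hg * β,
            mul_mem (mul_mem hγ (conjAut_mem_autA α hg)) hβ, h1, fun x => ?_⟩
          rw [e', e1, Fus2.afn_mul, Fus2.afn_mul, Fus2.afn_conjAut hg (Fus2.afn_mem β (h1 x x.2))]
          simp
      · rw [dif_neg hR, mem_bot] at hγ
        subst hγ
        rwa [show ψ = φ from MonoidHom.ext e]) hf.toHom_mem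
  exact key.imp (fun ⟨g, e⟩ => ⟨g, fun x hx => e ⟨x, hx⟩⟩)
    fun ⟨k, g, β, hβ, h1, e⟩ => ⟨k, g, β, hβ, h1, fun x hx => e ⟨x, hx⟩⟩

theorem surj_of_card [Finite G] {Q P : Subgroup G} (hc : Nat.card Q ≤ Nat.card P) (k : G)
    (h : ∀ x ∈ P, k * x * k⁻¹ ∈ Q) (z : G) (hz : z ∈ Q) : ∃ x ∈ P, k * x * k⁻¹ = z := by
  have hM := Fus2.M_conj (univSystem (⊤ : Subgroup G)) (le_top : P ≤ ⊤) (mem_top k)
  exact hM.mem_img.1 ((hM.img_eq_of_le le_top h hc).ge hz)

namespace Con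

variable [Finite G] {Q : Subgroup G} {α : MulAut Q} {t : G} (h : Con Q α t)
include h

theorem eq_one {U : Subgroup (MulAut Q)} (hU : IsPGroup 2 U) {i : ℤ} (hi : α ^ i ∈ U) :
    α ^ i = 1 :=
  eq_one_of_isPGroup_of_coprime hU hi (Nat.Coprime.coprime_dvd_left (orderOf_dvd_of_pow_eq_one
    (pow_eq_one_of_mem_zpowers h.three (zpow_mem_zpowers α i))) (by decide))

theorem isPGroup_T : IsPGroup 2 (autInducedBy ⊤ Q) :=
  isPGroup_autInducedBy (h.hG.to_subgroup ⊤) Q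

theorem cases_T {τ : MulAut Q} (hτ : τ ∈ autInducedBy ⊤ Q) :
    τ ∈ Inn Q ∨ (conjAut Q t h.tN)⁻¹ * τ ∈ Inn Q := by
  obtain ⟨g, hg, rfl⟩ := mem_autInducedBy_iff'.1 hτ
  refine (h.nor g hg.2).imp (fun e => ⟨⟨g, e⟩, (conjAut_coe ⟨g, e⟩).symm⟩) fun e => ?_
  rw [← conjAut_inv, ← conjAut_mul]
  exact ⟨⟨_, e⟩, (conjAut_coe ⟨_, e⟩).symm⟩

theorem inv_zpow (i : ℤ) : conjAut Q t h.tN * α ^ i * (conjAut Q t h.tN)⁻¹ * α ^ i ∈ Inn Q := by
  have h1 := (QuotientGroup.eq_one_iff _).2 h.inv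
  rw [← QuotientGroup.eq_one_iff]
  simp only [QuotientGroup.mk_mul, QuotientGroup.mk_inv, QuotientGroup.mk_zpow] at h1 ⊢
  rw [← conj_zpow, eq_inv_of_mul_eq_one_left h1, _root_.inv_zpow, inv_mul_cancel]

theorem exists_eq {β : MulAut Q} (hβ : β ∈ autA α) :
    ∃ τ ∈ autInducedBy ⊤ Q, ∃ i : ℤ, β = τ * α ^ i := by
  have hK : ∀ κ, κ ∈ zpowers α ⊔ Inn Q ↔ ∃ i : ℤ, ∃ ι ∈ Inn Q, α ^ i * ι = κ := fun κ =>
    mem_zpowers_sup_iff (by rw [normalizer_eq_top]; trivial)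
  have ht : conjAut Q t h.tN ∈ normalizer ((zpowers α ⊔ Inn Q : Subgroup _) : Set (MulAut Q)) :=
    mem_normalizer_of_conj_mem fun κ hκ => by
      obtain ⟨i, ι, hι, rfl⟩ := (hK κ).1 hκ
      have := mul_mem (mul_mem (mem_sup_right (h.inv_zpow i))
        (mem_sup_left (zpow_mem_zpowers α (-i)))) (mem_sup_right
          (conj_mem_Inn (α := conjAut Q t h.tN) hι) : _ ∈ zpowers α ⊔ Inn Q)
      convert this using 1
      group
  obtain ⟨τ, hτ, κ, hκ, rfl⟩ := (Fus2.mem_sup_iff_of_le_normalizer fun τ hτ => by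
    rcases h.cases_T hτ with e | e
    · exact le_normalizer (mem_sup_right e)
    · simpa using mul_mem ht (le_normalizer (mem_sup_right e))).1 hβ
  obtain ⟨i, ι, hι, rfl⟩ := (hK κ).1 hκ
  exact ⟨τ * (α ^ i * ι * (α ^ i)⁻¹),
    mul_mem hτ (Inn_le_autInducedBy le_top (conj_mem_Inn hι)), i, by group⟩

theorem sylow : IsSylowIn 2 (autInducedBy ⊤ Q) (autA α) :=
  isSylowIn_of_maximal le_sup_left h.isPGroup_T fun B hB h1 h2 β hβ => by
    obtain ⟨τ, hτ, i, rfl⟩ := h.exists_eq (h2 hβ)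
    rwa [h.eq_one hB (by simpa using mul_mem (inv_mem (h1 hτ)) hβ), mul_one]

theorem mem_T {β : MulAut Q} (hβ : β ∈ autA α)
    (e : β * conjAut Q t h.tN * β⁻¹ ∈ autInducedBy ⊤ Q) : β ∈ autInducedBy ⊤ Q := by
  obtain ⟨τ, hτ, i, rfl⟩ := h.exists_eq hβ
  have ht := conjAut_mem_autInducedBy (mem_top t) h.tN
  have h1 := mul_mem (mul_mem (mul_mem (mul_mem (inv_mem hτ) e) hτ) (inv_mem ht))
    (inv_mem (Inn_le_autInducedBy le_top (h.inv_zpow (-i))))
  have h2 : α ^ (2 * i) = 1 := h.eq_one h.isPGroup_T (by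
    have h3 := mul_mem (mul_mem (mul_mem (inv_mem hτ) e) hτ) (inv_mem ht)
    have h4 := Inn_le_autInducedBy le_top (conj_mem_Inn (α := α ^ i) (h.inv_zpow (-i)))
    convert mul_mem (inv_mem h4) h3 using 1
    group)
  have h3 : α ^ (3 * i) = 1 := by rw [zpow_mul, zpow_ofNat, h.three, one_zpow]
  rw [show α ^ i = α ^ (3 * i) * (α ^ (2 * i))⁻¹ by group, h2, h3]
  simpa using hτ

theorem autGroup_eq : (sys α).autGroup Q = autA α := by
  refine le_antisymm (fun γ hγ => ?_) fun β hβ => (M_sys hβ).mem_autGroup fun _ _ => rfl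
  rcases sys_cases (surj_of_card le_rfl) ((Fus2.mem_autGroup_iff le_top).1 hγ) with
    ⟨g, e⟩ | ⟨k, g, β, hβ, h1, e⟩
  · exact mem_sup_left (Fus2.mem_autInducedBy_iff.2 ⟨g, trivial, e⟩)
  · have hk := mem_normalizer_of_conj_mem h1
    have hg : g ∈ normalizer (Q : Set G) := mem_normalizer_of_conj_mem fun z hz => by
      obtain ⟨x, hx, e2⟩ := surj_of_card le_rfl k h1 _ (Fus2.afn_mem β⁻¹ hz)
      have := Fus2.afn_mem γ hx
      rwa [e x hx, e2, Fus2.afn_afn_inv] at this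
    have : γ = conjAut Q g hg * β * conjAut Q k hk := Fus2.aut_ext fun x hx => by
      rw [e x hx, Fus2.afn_mul, Fus2.afn_mul, Fus2.afn_conjAut hk hx,
        Fus2.afn_conjAut hg (Fus2.afn_mem β (h1 x hx))]
    rw [this]
    exact mul_mem (mul_mem (conjAut_mem_autA α hg) hβ) (conjAut_mem_autA α hk)

theorem conj_top {f : G → G} (hf : M (sys α) ⊤ f) : ∃ g, ∀ x, f x = g * x * g⁻¹ := by
  rcases sys_cases (surj_of_card (card_le_of_le le_top)) hf with ⟨g, e⟩ | ⟨k, g, β, -, h1, -⟩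
  · exact ⟨g, fun x => e x trivial⟩
  · exact absurd (by simpa [mul_assoc] using h1 (k⁻¹ * t * k) trivial) h.tQ

theorem receptive : (sys α).IsReceptive Q := by
  refine Fus2.receptive_of le_top fun P f hf hi R hPR hR H => ?_
  have hc : Nat.card Q ≤ Nat.card P := by rw [← hi, hf.card_img]
  rcases sys_cases (surj_of_card hc) hf with ⟨g, e⟩ | ⟨k, g, β, hβ, h1, e⟩
  · exact ⟨_, Fus2.M_conj _ le_top (mem_top g), fun x hx => (e x hx).symm⟩
  have h2 := surj_of_card hc k h1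
  have hg : g ∈ normalizer (Q : Set G) := mem_normalizer_of_conj_mem fun z hz => by
    obtain ⟨x, hx, e2⟩ := h2 _ (Fus2.afn_mem β⁻¹ hz)
    have := hi.le (Fus2.mem_img_of_mem f hx)
    rwa [e x hx, e2, Fus2.afn_afn_inv] at this
  by_cases hβT : β ∈ autInducedBy ⊤ Q
  · obtain ⟨s, -, e1⟩ := Fus2.mem_autInducedBy_iff.1 hβT
    exact ⟨_, Fus2.M_conj _ le_top (mem_top (g * s * k)), fun x hx => by
      rw [e x hx, e1 _ (h1 x hx)]; group⟩
  refine ⟨f, hf.mono fun r hr => ?_, fun _ _ => rfl⟩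
  have hr' : k * r * k⁻¹ ∈ normalizer (Q : Set G) := mem_normalizer_of_conj_mem fun z hz => by
    obtain ⟨x, hx, rfl⟩ := h2 z hz
    have := h1 _ (((hR hr).2 x).1 hx)
    convert this using 1
    group
  rcases h.nor _ hr' with e1 | e1
  · obtain ⟨x, hx, e2⟩ := h2 _ e1
    rwa [← mul_left_cancel (mul_right_cancel e2)]
  refine absurd (h.mem_T hβ ?_) hβT
  obtain ⟨s, -, e2⟩ := H r hr
  have h3 : β * conjAut Q _ hr' * β⁻¹ ∈ autInducedBy ⊤ Q :=
    Fus2.mem_autInducedBy_iff.2 ⟨g⁻¹ * s * g, trivial, fun z hz => by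
      obtain ⟨x, hx, e3⟩ := h2 _ (Fus2.afn_mem β⁻¹ hz)
      have e4 := e2 x hx
      rw [e _ (((hR hr).2 x).1 hx), e x hx, e3, Fus2.afn_afn_inv] at e4
      rw [Fus2.afn_mul, Fus2.afn_mul, Fus2.afn_conjAut hr' (Fus2.afn_mem β⁻¹ hz), ← e3,
        show k * r * k⁻¹ * (k * x * k⁻¹) * (k * r * k⁻¹)⁻¹ = k * (r * x * r⁻¹) * k⁻¹ by group]
      calc _ = g⁻¹ * (g * afn β (k * (r * x * r⁻¹) * k⁻¹) * g⁻¹) * g := by group
        _ = _ := by rw [e4]; group⟩
  have h4 : (conjAut Q t h.tN)⁻¹ * conjAut Q _ hr' ∈ Inn Q := by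
    rw [← conjAut_inv, ← conjAut_mul]
    exact ⟨⟨_, e1⟩, (conjAut_coe ⟨_, e1⟩).symm⟩
  convert mul_mem h3 (inv_mem (Inn_le_autInducedBy le_top (conj_mem_Inn (α := β) h4))) using 1
  group

theorem saturated : (sys α).IsSaturated 2 := by
  have hS : IsPGroup 2 (⊤ : Subgroup G) := h.hG.to_subgroup ⊤
  refine isSaturated_of_family hS
    (ℋ := {P | P = ⊤ ∨ Nat.card P = Nat.card Q ∧ ∃ k, ∀ x ∈ P, k * x * k⁻¹ ∈ Q}) ?_ ?_ ?_ ?_
  · rintro P (rfl | ⟨hc, k, hk⟩) P' hP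
    · exact Or.inl (eq_of_isConj_top hP)
    refine Or.inr ⟨(isConj_card_eq hP).symm.trans hc, ?_⟩
    obtain ⟨f, hf, rfl⟩ := Fus2.isConj_iff.1 hP
    rcases sys_cases (surj_of_card hc.ge) hf with ⟨g, e⟩ | ⟨k, g, β, -, h1, e⟩
    · refine ⟨k * g⁻¹, fun z hz => ?_⟩
      obtain ⟨x, hx, rfl⟩ := hf.mem_img.1 hz
      rw [e x hx]
      convert hk x hx using 1
      group
    · refine ⟨g⁻¹, fun z hz => ?_⟩
      obtain ⟨x, hx, rfl⟩ := hf.mem_img.1 hz
      rw [e x hx]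
      simpa [mul_assoc] using Fus2.afn_mem β (h1 x hx)
  · rintro P (rfl | ⟨hc, k, hk⟩)
    · refine ⟨⊤, isConj_refl le_rfl, (isFullyAutomized_iff le_rfl).2 (isSylowIn_of_maximal
        (autInducedBy_le_autGroup le_rfl) (isPGroup_autInducedBy hS _) fun B _ _ hB β hβ => ?_),
        Fus2.receptive_of le_rfl fun P f hf hi R hPR _ _ => ⟨f, hf.mono ?_, fun _ _ => rfl⟩⟩
      · obtain ⟨g, e⟩ := h.conj_top ((Fus2.mem_autGroup_iff le_rfl).1 (hB hβ))
        exact Fus2.mem_autInducedBy_iff.2 ⟨g, trivial, fun x _ => e x⟩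
      · exact le_top.trans (Fus2.eq_of_le_of_card_le le_top (by rw [← hf.card_img, hi])).ge
    · have hM := Fus2.M_conj (sys α) (le_top : P ≤ ⊤) (mem_top k)
      exact ⟨Q, hM.img_eq_of_le le_top hk hc.ge ▸ hM.isConj,
        (isFullyAutomized_iff le_top).2 (h.autGroup_eq ▸ h.sylow), h.receptive⟩
  · refine fun E hE => genAut_le_of fun P _ β hβ => ?_
    by_cases hP : Q = P
    · subst hP
      have h1 : β ∈ autA α := by simpa using hβ.1
      exact (Fus2.Hom_subset_iff.1 (hE Q (Or.inr ⟨rfl, 1, by simp⟩)) _ (M_sys h1)).mem_autGroup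
        fun _ _ => rfl
    · have := (mem_inf.1 hβ).1
      rw [dif_neg hP, mem_bot] at this
      exact this ▸ one_mem _
  · intro P hP hn
    have hn1 : P ≠ ⊤ := fun e => hn (Or.inl e)
    have hk : ∀ k, ¬ ∀ x ∈ P, k * x * k⁻¹ ∈ Q := fun k hk => by
      have hM := Fus2.M_conj (sys α) (le_top : P ≤ ⊤) (mem_top k)
      have hlt : img P (fun x => k * x * k⁻¹) < Q := lt_of_le_of_ne (Fus2.img_le_iff.2 hk)
        fun e => hn (Or.inr ⟨by rw [← e, hM.card_img], k, hk⟩)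
      obtain ⟨i, s, h1, h2⟩ := h.small _ hlt
      have hM' := (M_sys (pow_mem (mem_sup_right (mem_sup_left (mem_zpowers α))) i)).mono hlt.le
      obtain ⟨z, hz, e⟩ := hM'.mem_img.1 (hP.2 _ (isConj_trans hM.isConj hM'.isConj)
        (show s ∈ _ from ⟨trivial, fun w hw => by
          obtain ⟨z, hz, rfl⟩ := hM'.mem_img.1 hw
          exact (h2 z hz).symm.eq⟩))
      exact h1 z hz e
    have hA : (sys α).autGroup P ≤ autInducedBy ⊤ P := fun β hβ => by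
      rcases sys_cases (fun k e => absurd e (hk k)) ((Fus2.mem_autGroup_iff le_top).1 hβ) with
        ⟨g, e⟩ | ⟨k, g, β, -, h1, -⟩
      · exact Fus2.mem_autInducedBy_iff.2 ⟨g, trivial, e⟩
      · exact absurd h1 (hk k)
    obtain ⟨g, -, hg, hgP⟩ := exists_mem_normalizer_not_mem hS (lt_top_iff_ne_top.2 hn1)
    refine ⟨P, isConj_refl le_top, fun e => hgP (mem_of_conjAut_mem_Inn le_top
      (IsCentric_centralizerIn_le hP) trivial hg (e ⟨conjAut_mem_autInducedBy (mem_top g) hg, ?_⟩))⟩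
    exact le_autCore le_rfl ((isPGroup_autInducedBy hS P).to_le hA) le_normalizer
      (conjAut_mem_autGroup le_top trivial hg)

theorem ne_inner : sys α ≠ innerFusionSystem ⊤ := fun e => by
  have h1 := M_sys (α := α) (mem_sup_right (mem_sup_left (mem_zpowers α)))
  rw [e, Fus2.M_inner_iff] at h1
  have h2 := h.eq_one h.isPGroup_T (i := 1) (by simpa using Fus2.mem_autInducedBy_iff.2 h1.2)
  exact h.ne (by simpa using h2)

end Con

end Cfsg.Agent.Bic
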