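import Cfsg.Agent.Lib.Bic.Str
import Cfsg.Agent.Lib.Bic.Cons

/-!
A non-metacyclic bicyclic `2`-group with cyclic derived subgroup is not fusion trivial.
-/

set_option autoImplicit false
set_option linter.style.haveILetI false
set_option linter.unusedVariables false
set_option linter.unusedSectionVars false

namespace Cfsg.Agent.Bic

open Subgroup Cfsg.Agent.Ess Cfsg.Agent.Fus Cfsg.Agent.TwoGrp QuaternionGroup
open Cfsg.Agent.Fus2 (HomOn img afn M)
open scoped commutatorElement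

universe u

variable {G : Type u} [Group G]

/-- An automorphism of order three of `Q₈`. -/
def rot : QuaternionGroup 2 → QuaternionGroup 2
  | .a i => if i = 0 then .a 0 else if i = 1 then .xa 0 else if i = 2 then .a 2 else .xa 2
  | .xa i => if i = 0 then .xa 1 else if i = 1 then .a 1 else if i = 2 then .xa 3 else .a 3

theorem rot_mul : ∀ x y, rot (x * y) = rot x * rot y := by decide

theorem rot_three : ∀ x, rot (rot (rot x)) = x := by decide

/-- Outer automorphisms of `Q₈`. -/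
def sw (e : ZMod 4) : QuaternionGroup 2 → QuaternionGroup 2
  | .a i => .a (e * i)
  | .xa i => .a 1 * .xa 0 * .a (e * i)

theorem sw_mul : ∀ e : ZMod 4, e = 1 ∨ e = -1 → ∀ x y, sw e (x * y) = sw e x * sw e y := by decide

theorem sw_rot : ∀ e : ZMod 4, e = 1 ∨ e = -1 → ∃ q, ∀ x,
    rot (sw e (rot x)) = q * sw e x * q⁻¹ := by decide

theorem q8_cases : ∀ q : QuaternionGroup 2, ∃ e, (e = 1 ∨ e = .a 1 * .a 1) ∧
    (q = e ∨ q = .a 1 * e ∨ q = .xa 0 * e ∨ q = .xa 0 * .a 1 * e) := by decide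

theorem q8_conj : ∀ q : QuaternionGroup 2,
    q * .xa 0 * q⁻¹ = .xa 0 ∨ q * .xa 0 * q⁻¹ = .a 1 * .a 1 * .xa 0 := by decide

theorem exists_con [Finite G] (hG : IsPGroup 2 G) {a d t s : G} {C : Subgroup G}
    (h1 : a ^ 2 = d ^ 2) (h2 : a * d * a⁻¹ = d⁻¹) (ha : ∀ c ∈ C, Commute a c)
    (hd : ∀ c ∈ C, Commute d c) (hC : ∀ c ∈ C, ∀ c' ∈ C, Commute c c') (h3 : d ^ 2 ∈ C)
    (h4 : d ∉ C) (h5 : a ∉ C) (h6 : a * d ∉ C) (hta : t * a * t⁻¹ = d * a)
    (htd : t * d * t⁻¹ = d ∨ t * d * t⁻¹ = d⁻¹) (htC : ∀ c ∈ C, t * c * t⁻¹ ∈ C)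
    (v1 : ∀ b, Commute a b → b ∈ zpowers a ⊔ zpowers d ⊔ C)
    (v2 : ∀ g (i : ℤ), ∀ c ∈ C, g * a * g⁻¹ = d ^ i * c ∨ g * a * g⁻¹ = a * d ^ i * c →
      g * a * g⁻¹ * a⁻¹ ∈ zpowers d)
    (s1 : ∀ (i : ℤ), ∀ c ∈ C, d ^ i * c ≠ s) (s2 : Commute s d) (s3 : ∀ c ∈ C, Commute s c) :
    ∃ (Q : Subgroup G) (α : MulAut Q) (t : G), Con Q α t := by
  have hda : d * a = a * d⁻¹ := by
    rw [← mul_inv_eq_iff_eq_mul.1 (show a * d⁻¹ * a⁻¹ = d by rw [← conj_inv, h2, inv_inv])]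
  have hd4 : d ^ (2 * 2) = 1 := by
    have : a * d ^ 2 * a⁻¹ = d ^ 2 := conj_eq_iff_commute.2 (ha _ h3)
    rw [← conj_pow, h2, inv_pow, inv_eq_iff_mul_eq_one] at this
    rw [pow_mul, sq, this]
  let f₀ := quatHom 2 d a hd4 (by rw [← sq, h1]) hda
  have fa : f₀ (.a 1) = d := by rw [quatHom_a, zp_one hd4]
  have fx : f₀ (.xa 0) = a := by rw [quatHom_xa, zp_zero, mul_one]
  have fq : ∀ q, ∃ k : ℤ, f₀ q = d ^ k ∨ f₀ q = a * d ^ k := fun q =>
    mem_range_quatHom.1 ⟨q, rfl⟩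
  have hcom : ∀ q, ∀ c ∈ C, Commute (f₀ q) c := fun q c hc => by
    obtain ⟨k, e | e⟩ := fq q <;> rw [e]
    exacts [(hd c hc).zpow_left k, (ha c hc).mul_left ((hd c hc).zpow_left k)]
  have he : ∀ e : QuaternionGroup 2, e = 1 ∨ e = .a 1 * .a 1 → f₀ e ∈ C := by
    rintro _ (rfl | rfl)
    · rw [map_one]; exact one_mem _
    · rwa [map_mul, fa, ← sq]
  have hrot : ∀ q, f₀ q ∈ C → rot q = q := fun q hq => by
    obtain ⟨e, h, rfl | rfl | rfl | rfl⟩ := q8_cases q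
    · rcases h with rfl | rfl <;> decide
    · exact absurd (by simpa [fa] using mul_mem hq (inv_mem (he e h))) h4
    · exact absurd (by simpa [fx] using mul_mem hq (inv_mem (he e h))) h5
    · have := mul_mem hq (inv_mem (he e h))
      simp only [map_mul, fa, fx, mul_inv_cancel_right] at this
      exact absurd this h6
  let f : QuaternionGroup 2 × C → G := fun p => f₀ p.1 * p.2
  have hf : HomOn ⊤ f := fun p _ q _ => by
    simp only [f, Prod.fst_mul, Prod.snd_mul, map_mul, coe_mul]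
    exact ((hcom q.1 _ p.2.2).mul_mul_mul_comm _ _)
  have hker : ∀ p, f p = 1 → rot p.1 = p.1 := fun p e =>
    hrot _ (by rw [eq_inv_of_mul_eq_one_left e]; exact inv_mem p.2.2)
  obtain ⟨α, hα⟩ := exists_ind hf (a := fun p => (rot p.1, p.2)) (b := fun p => (rot (rot p.1), p.2))
    (fun p _ q _ => Prod.ext (rot_mul _ _) rfl)
    (fun p _ q _ => Prod.ext (by simp only [Prod.fst_mul, rot_mul]) rfl) (fun _ _ => trivial)
    (fun _ _ => trivial) (fun p _ => Prod.ext (rot_three _) rfl)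
    (fun p _ => Prod.ext (rot_three _) rfl) (fun p _ e => by rwa [hker p e])
    (fun p _ e => by rwa [hker p e, hker p e])
  revert α
  set Q := img ⊤ f
  intro α hα
  have hα' : ∀ q (c : C), afn α (f₀ q * c) = f₀ (rot q) * c := fun q c => hα (q, c) trivial
  have hQ : ∀ z, z ∈ Q ↔ ∃ q, ∃ c : C, f₀ q * c = z := fun z => by
    rw [hf.mem_img]; simp [f]
  have hQ1 : ∀ q, f₀ q ∈ Q := fun q => (hQ _).2 ⟨q, 1, by simp⟩
  have hQ2 : C ≤ Q := fun c hc => (hQ _).2 ⟨1, ⟨c, hc⟩, by simp⟩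
  have v1' : ∀ b, Commute a b → b ∈ Q := fun b hb => sup_le (sup_le (zpowers_le.2 (fx ▸ hQ1 _))
    (zpowers_le.2 (fa ▸ hQ1 _))) hQ2 (v1 b hb)
  obtain ⟨ε, hε, hsw⟩ : ∃ ε : ZMod 4, (ε = 1 ∨ ε = -1) ∧ ∀ q, t * f₀ q * t⁻¹ = f₀ (sw ε q) := by
    obtain ⟨ε, hε, e⟩ : ∃ ε : ZMod 4, (ε = 1 ∨ ε = -1) ∧ t * d * t⁻¹ = f₀ (sw ε (.a 1)) := by
      rcases htd with e | e
      · exact ⟨1, Or.inl rfl, by rw [e, ← fa]; rfl⟩
      · exact ⟨-1, Or.inr rfl, by rw [e, ← fa, ← map_inv]; rfl⟩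
    have e' : t * a * t⁻¹ = f₀ (sw ε (.xa 0)) := by
      rw [hta, show sw ε (.xa 0) = .a 1 * .xa 0 by simp [sw], map_mul, fa, fx]
    have e1 : sw ε 1 = 1 := by rcases hε with rfl | rfl <;> decide
    refine ⟨ε, hε, fun q => ?_⟩
    obtain ⟨e, rfl | rfl, rfl | rfl | rfl | rfl⟩ := q8_cases q <;>
      simp only [sw_mul ε hε, map_mul, fa, fx, ← e, ← e', e1, map_one, conj_mul, mul_one,
        mul_inv_cancel]
  have htN : t ∈ normalizer (Q : Set G) := Fus.mem_normalizer_of_conj_mem fun z hz => by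
    obtain ⟨q, c, rfl⟩ := (hQ z).1 hz
    rw [← conj_mul, hsw]
    exact mul_mem (hQ1 _) (hQ2 (htC c c.2))
  have hdj : ∀ j : ℤ, d ^ j * a * (d ^ j)⁻¹ = d ^ (2 * j) * a := fun j => by
    have : a * (d ^ j)⁻¹ * a⁻¹ = d ^ j := by rw [← conj_inv, ← conj_zpow, h2]; simp
    rw [mul_assoc, mul_inv_eq_iff_eq_mul.1 this]; group
  refine ⟨Q, α, t, hG, Fus2.aut_ext fun z hz => ?_, fun e => h6 ?_, htN, fun e => h4 ?_,
    fun g hg => ?_, ?_, fun R hR => ?_⟩
  · obtain ⟨q, c, rfl⟩ := (hQ z).1 hz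
    rw [pow_succ, sq, Fus2.afn_mul, Fus2.afn_mul, hα', hα', hα', rot_three, Fus2.afn_one]
  · have := hα' (.a 1) 1
    rw [e, Fus2.afn_one, show rot (.a 1) = .xa 0 by decide, fa, fx] at this
    rwa [← mul_right_cancel this, ← sq]
  · obtain ⟨q, c, rfl⟩ := (hQ t).1 e
    rw [mul_inv_rev, mul_assoc (f₀ q), ← (ha c c.2).eq, ← fx] at hta
    simp only [mul_assoc, mul_inv_cancel_left] at hta
    rw [← mul_assoc, ← map_inv, ← map_mul, ← map_mul] at hta
    rcases q8_conj q with e | e <;> rw [e] at hta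
    · rw [right_eq_mul.1 hta]
      exact one_mem _
    · rw [map_mul, map_mul, fa] at hta
      rw [left_eq_mul.1 (mul_right_cancel hta).symm]
      exact one_mem _
  · obtain ⟨q, c, e⟩ := (hQ _).1 ((hg a).1 (fx ▸ hQ1 _))
    obtain ⟨k, hk⟩ := fq q
    obtain ⟨i, hi⟩ := v2 g k c c.2 (hk.imp (fun e1 => by rw [← e, e1]) fun e1 => by rw [← e, e1])
    simp only [eq_mul_inv_iff_mul_eq] at hi
    have hdQ : ∀ j : ℤ, d ^ j ∈ Q := fun j => zpow_mem (fa ▸ hQ1 _) j
    rcases Int.even_or_odd' i with ⟨j, rfl | rfl⟩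
    · left
      simpa using mul_mem (hdQ j) (v1' ((d ^ j)⁻¹ * g) (conj_eq_iff_commute.1 (by
        calc _ = (d ^ j)⁻¹ * (g * a * g⁻¹) * d ^ j := by group
          _ = a := by rw [← hi, ← hdj]; group)).symm)
    · right
      have := mul_mem ((inv_mem htN _).1 (hdQ j)) (v1' ((d ^ j * t)⁻¹ * g)
        (conj_eq_iff_commute.1 (by
          calc _ = t⁻¹ * ((d ^ j)⁻¹ * (g * a * g⁻¹) * d ^ j) * t := by group
            _ = t⁻¹ * (d * ((d ^ j)⁻¹ * (d ^ (2 * j) * a) * d ^ j)) * t := by rw [← hi]; group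
            _ = t⁻¹ * (d * a) * t := by rw [← hdj]; group
            _ = a := by rw [← hta]; group)).symm)
      convert this using 1
      group
  · obtain ⟨q₀, H⟩ := sw_rot ε hε
    have : α * conjAut Q t htN * α = MulAut.conj ⟨_, hQ1 q₀⟩ * conjAut Q t htN :=
      Fus2.aut_ext fun z hz => by
        obtain ⟨q, c, rfl⟩ := (hQ z).1 hz
        rw [← conjAut_coe, Fus2.afn_mul, Fus2.afn_mul, Fus2.afn_mul, hα',
          Fus2.afn_conjAut htN (mul_mem (hQ1 _) (hQ2 c.2)), Fus2.afn_conjAut htN hz,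
          Fus2.afn_conjAut _ ((htN _).1 hz), ← conj_mul (b := t), ← conj_mul (b := t), hsw, hsw,
          hα' _ ⟨_, htC c c.2⟩, H, ← conj_mul, conj_eq_iff_commute.2 (hcom q₀ _ (htC c c.2)),
          map_mul, map_mul, map_inv]
    have h7 : α⁻¹ * MulAut.conj ⟨_, hQ1 q₀⟩ * α⁻¹⁻¹ ∈ Inn Q := conj_mem_Inn ⟨_, rfl⟩
    rw [← mul_inv_eq_iff_eq_mul] at this
    rw [← this] at h7
    convert h7 using 1
    group
  · by_cases hCR : C ≤ R
    swap
    · obtain ⟨c, hc, hc'⟩ := SetLike.not_le_iff_exists.1 hCR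
      refine ⟨0, c, fun z hz e => hc' ?_, fun z hz => ?_⟩
      · rwa [← e, pow_zero, Fus2.afn_one]
      · obtain ⟨q, c', rfl⟩ := (hQ z).1 (hR.le hz)
        rw [pow_zero, Fus2.afn_one]
        exact (hcom q c hc).symm.mul_right (hC c hc c' c'.2)
    have hn : ¬ (a ∈ R ∧ d ∈ R) := fun e => hR.not_ge fun z hz => by
      obtain ⟨q, c, rfl⟩ := (hQ z).1 hz
      refine mul_mem ?_ (hCR c.2)
      obtain ⟨k, e1 | e1⟩ := fq q <;> rw [e1]
      exacts [zpow_mem e.2 k, mul_mem e.1 (zpow_mem e.2 k)]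
    obtain ⟨i, hi⟩ : ∃ i : ℕ, ∀ q, f₀ q ∈ R → ∃ k, rot^[i] q = .a k := by
      have key : ∀ q, f₀ q ∈ R → ∃ e : QuaternionGroup 2, (e = 1 ∨ e = .a 1 * .a 1) ∧
          (q = e ∨ (q = .a 1 * e ∧ d ∈ R) ∨ (q = .xa 0 * e ∧ a ∈ R) ∨
            (q = .xa 0 * .a 1 * e ∧ a * d ∈ R)) := fun q hq => by
        obtain ⟨e, h, h'⟩ := q8_cases q
        refine ⟨e, h, ?_⟩
        have := mul_mem hq (inv_mem (hCR (he e h)))
        rcases h' with rfl | rfl | rfl | rfl
        · exact Or.inl rfl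
        all_goals simp only [map_mul, fa, fx, mul_inv_cancel_right] at this
        exacts [Or.inr (Or.inl ⟨rfl, this⟩), Or.inr (Or.inr (Or.inl ⟨rfl, this⟩)),
          Or.inr (Or.inr (Or.inr ⟨rfl, this⟩))]
      by_cases haR : a ∈ R
      · refine ⟨2, fun q hq => ?_⟩
        obtain ⟨e, h, rfl | ⟨rfl, h'⟩ | ⟨rfl, h'⟩ | ⟨rfl, h'⟩⟩ := key q hq
        · rcases h with rfl | rfl <;> decide
        · exact absurd ⟨haR, h'⟩ hn
        · rcases h with rfl | rfl <;> decide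
        · exact absurd ⟨haR, by simpa using mul_mem (inv_mem haR) h'⟩ hn
      by_cases hdR : d ∈ R
      · refine ⟨0, fun q hq => ?_⟩
        obtain ⟨e, h, rfl | ⟨rfl, h'⟩ | ⟨rfl, h'⟩ | ⟨rfl, h'⟩⟩ := key q hq
        · rcases h with rfl | rfl <;> decide
        · rcases h with rfl | rfl <;> decide
        · exact absurd h' haR
        · exact absurd (by simpa using mul_mem h' (inv_mem hdR)) haR
      · refine ⟨1, fun q hq => ?_⟩
        obtain ⟨e, h, rfl | ⟨rfl, h'⟩ | ⟨rfl, h'⟩ | ⟨rfl, h'⟩⟩ := key q hq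
        · rcases h with rfl | rfl <;> decide
        · exact absurd h' hdR
        · exact absurd h' haR
        · rcases h with rfl | rfl <;> decide
    have key : ∀ z ∈ R, ∃ k : ℤ, ∃ c ∈ C, afn (α ^ i) z = d ^ k * c := fun z hz => by
      obtain ⟨q, c, rfl⟩ := (hQ z).1 (hR.le hz)
      obtain ⟨k, hk⟩ := hi q (by simpa using mul_mem hz (inv_mem (hCR c.2)))
      have h7 : ∀ n : ℕ, afn (α ^ n) (f₀ q * c) = f₀ (rot^[n] q) * c := fun n => by
        induction n with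
        | zero => rw [pow_zero, Fus2.afn_one]; rfl
        | succ n ih => rw [pow_succ', Fus2.afn_mul, ih, hα', Function.iterate_succ_apply']
      obtain ⟨l, hl⟩ := zp_mem_zpowers d k
      exact ⟨l, c, c.2, by rw [h7, hk, quatHom_a, ← hl]⟩
    refine ⟨i, s, fun z hz => ?_, fun z hz => ?_⟩ <;> obtain ⟨k, c, hc, e⟩ := key z hz <;> rw [e]
    exacts [s1 k c hc, (s2.zpow_right k).mul_right (s3 c hc)]

namespace BC

variable [Finite G] {x y : G} (h : BC x y) {c : G} {n : ℕ} (hc : zpowers c = commutator G)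
  (ho : orderOf c = 2 ^ (n + 1))
include h hc ho

theorem z_cases {e : G} (he : e ∈ commutator G) (he2 : e ^ 2 = 1) : e = 1 ∨ e = c ^ 2 ^ n :=
  eq_of_sq_eq_one ho (hc.ge he) (by rwa [← sq])

theorem z_sq : (c ^ 2 ^ n) ^ 2 = 1 := by rw [← pow_mul, ← pow_succ, ← ho, pow_orderOf_eq_one]

theorem z_ne : c ^ 2 ^ n ≠ 1 := pow_ne_one_of_lt_orderOf (by positivity)
    (ho ▸ Nat.pow_lt_pow_right one_lt_two n.lt_succ_self)

theorem z_mem (k : ℕ) : c ^ k ∈ commutator G := hc.le (pow_mem (mem_zpowers c) k)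

theorem commute_of_sq {e : G} (he : e ∈ commutator G) (he2 : e ^ 2 = 1) (g : G) : Commute g e := by
  rcases h.z_cases hc ho he he2 with rfl | rfl
  · exact Commute.one_right g
  · refine conj_eq_iff_commute.1 ((h.z_cases hc ho ((normal_of_commutator_le' le_rfl).conj_mem _ he g)
      (by rw [conj_pow, he2]; simp)).resolve_left fun e => h.z_ne hc ho (by simpa using e))

theorem inv_W' {a : G} (ha : a ∉ Mk y 1) (ha2 : a ^ 2 ∈ commutator G) {z : G}
    (hz : z ∈ commutator G) : a * z * a⁻¹ = z⁻¹ :=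
  h.inv_W ha ha2 (h.commute_of_sq hc ho ha2 (h.sq_sq ha ha2) y).symm hz

theorem commute_eight {g d : G} (hg : g ∈ Mk y 2) (hd : d ∈ commutator G) (hd8 : d ^ 8 = 1) :
    Commute g d := by
  refine h.commute_of_Mk hg hd (conj_eq_iff_commute.1 ?_)
  obtain ⟨j, hj⟩ := h.hG y
  obtain ⟨k, hk⟩ := exists_conj_eq_pow (ho ▸ pow_orderOf_eq_one c) hj
    (hc.ge ((normal_of_commutator_le' le_rfl).conj_mem _ (hc.le (mem_zpowers c)) y))
  have h1 : y * d * y⁻¹ = d ^ (1 + 2 * k) := by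
    obtain ⟨m, rfl⟩ := hc.ge hd
    simp only
    rw [← conj_zpow, hk, ← zpow_natCast, ← zpow_natCast, zpow_comm]
  obtain ⟨m, hm⟩ := Nat.even_mul_succ_self k
  calc y ^ (2 : ℤ) * d * (y ^ (2 : ℤ))⁻¹ = y * (y * d * y⁻¹) * y⁻¹ := by rw [zpow_two]; group
    _ = d ^ (1 + 8 * m) := by
      rw [h1, ← conj_pow, h1, ← pow_mul]; congr 1; nlinarith
    _ = d := by rw [pow_add, pow_mul, hd8]; simp

theorem con_A {a : G} (ha : a ∉ Mk y 1) (ha2 : a ^ 2 ∈ commutator G) (ha1 : a ^ 2 ≠ 1) :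
    ∃ (Q : Subgroup G) (α : MulAut Q) (t : G), Con Q α t := by
  have haz := (h.z_cases hc ho ha2 (h.sq_sq ha ha2)).resolve_left ha1
  obtain ⟨m, rfl⟩ : ∃ m, n = m + 1 := ⟨n - 1, by
    rcases n with _ | n
    · obtain ⟨k, hk⟩ := W1_le_of_cyclic h.hG (hc ▸ inferInstance) hc.ge (h.sq_mem_W1' ha ha2)
      refine absurd ?_ ha1
      have := h.z_sq hc ho
      rw [pow_zero, pow_one] at this
      rw [← hk, this]; simp
    · rfl⟩
  set d := c ^ 2 ^ m with hd
  have hdW : d ∈ commutator G := h.z_mem hc ho _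
  have hd2 : a ^ 2 = d ^ 2 := by rw [haz, ← pow_mul, ← pow_succ]
  have hd4 : (d ^ 2) ^ 2 = 1 := hd2 ▸ h.sq_sq ha ha2
  obtain ⟨t, ht⟩ := h.exists_conj ha ha2 hdW
  set C := centralizer {a} ⊓ Mk y 1
  have hC : ∀ b ∈ C, Commute a b := fun b hb => (mem_centralizer_singleton_iff.1 hb.1).symm
  have hC' : ∀ b ∈ Mk y 1, Commute a b → b ∈ C := fun b hb e =>
    ⟨mem_centralizer_singleton_iff.2 e.symm.eq, hb⟩
  have hC2 : ∀ b ∈ C, b ∈ Mk y 2 := fun b hb => h.mem_two_of_commute ha hb.2 (hC b hb)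
  have hd8 : ∀ b ∈ Mk y 2, Commute b d := fun b hb => h.commute_eight hc ho hb hdW
    (by rw [show 8 = 2 * 2 * 2 from rfl, pow_mul, pow_mul, hd4, one_pow])
  have hCW : ∀ b ∈ C, b ∈ commutator G → b ∈ zpowers d := fun b hb hW => by
    rcases h.z_cases hc ho hW ((h.commute_iff ha ha2 hW).1 (hC b hb)) with rfl | rfl
    · exact one_mem _
    · rw [← haz, hd2]; exact pow_mem (mem_zpowers d) 2
  obtain ⟨s, s1, s2, s3⟩ : ∃ s, (∀ (i : ℤ), ∀ b ∈ C, d ^ i * b ≠ s) ∧ Commute s d ∧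
      ∀ b ∈ C, Commute s b := by
    rcases m with _ | m
    · have hcd : d = c := by rw [hd, pow_zero, pow_one]
      have s1 : ∀ s ∉ Mk y 2, ∀ (i : ℤ), ∀ b ∈ C, d ^ i * b ≠ s := fun s hs i b hb e =>
        hs (e ▸ mul_mem (zpow_mem (W_le_Mk y 2 hdW) i) (hC2 b hb))
      have h1 : y * d * y⁻¹ * d⁻¹ ∈ commutator G := comm_mem_W y d
      rcases h.z_cases hc ho h1 (by
        rw [(h.comm_W ((normal_of_commutator_le' le_rfl).conj_mem _ hdW y) (inv_mem hdW)).mul_pow,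
          conj_pow, conj_eq_iff_commute.2 (h.commute_of_sq hc ho (pow_mem hdW 2) hd4 y), inv_pow,
          mul_inv_cancel]) with e | e
      · have h2 : Commute y d := conj_eq_iff_commute.1 (mul_inv_eq_one.1 e)
        refine ⟨y, s1 y h.y_not_mem, h2, fun b hb => ?_⟩
        obtain ⟨k, w, hw, rfl⟩ := mem_Mk'.1 (hC2 b hb)
        exact (commute_zpowers (hcd ▸ h2) w (hc.ge hw)).mul_right ((Commute.refl y).zpow_right _)
      · have h2 : y * d * y⁻¹ = d⁻¹ := by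
          rw [← haz, hd2, mul_inv_eq_iff_eq_mul] at e
          rw [e, eq_inv_iff_mul_eq_one, ← hd4, sq (d ^ 2), sq, mul_assoc]
        have h3 : ∀ w ∈ commutator G, y * w * y⁻¹ = w⁻¹ := fun w hw => by
          obtain ⟨k, rfl⟩ := hc.ge hw
          simp only
          rw [← conj_zpow, ← hcd, h2, _root_.inv_zpow]
        have h4 : Commute a (y ^ (2 : ℤ)) := conj_eq_iff_commute.1 (by
          have := h3 _ (comm_mem_W a y)
          calc a * y ^ (2 : ℤ) * a⁻¹ = ⁅a, y⁆ * (y * ⁅a, y⁆ * y⁻¹) * y ^ (2 : ℤ) := by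
                rw [zpow_two, commutatorElement_def]; group
            _ = _ := by rw [this, mul_inv_cancel, one_mul])
        refine ⟨y * a, s1 _ fun e => ha ?_, conj_eq_iff_commute.1 ?_, fun b hb => ?_⟩
        · simpa using mul_mem (inv_mem (by simpa using pow_mem_Mk y 1 : y ∈ Mk y 1))
            (Mk_le y (one_dvd _) e)
        · calc y * a * d * (y * a)⁻¹ = y * (a * d * a⁻¹) * y⁻¹ := by group
            _ = d := by rw [h.inv_W' hc ho ha ha2 hdW, h3 _ (inv_mem hdW), inv_inv]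
        · refine Commute.mul_left ?_ (hC b hb)
          obtain ⟨k, w, hw, rfl⟩ := mem_Mk'.1 (hC2 b hb)
          have h5 : Commute a w := by
            simpa [zpow_mul] using (hC _ hb).mul_right (h4.zpow_right k).inv_right
          exact (h.commute_of_sq hc ho hw ((h.commute_iff ha ha2 hw).1 h5) y).mul_right
            ((Commute.refl y).zpow_right _)
    · have h1 : (c ^ 2 ^ m) ^ 2 = d := by rw [hd, ← pow_mul, ← pow_succ]
      refine ⟨c ^ 2 ^ m, fun i b hb e => ha1 ?_, h.comm_W (h.z_mem hc ho _) hdW, fun b hb =>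
        (h.commute_eight hc ho (hC2 b hb) (h.z_mem hc ho _) ?_).symm⟩
      · have h2 : c ^ 2 ^ m ∈ zpowers d := e ▸ mul_mem (zpow_mem_zpowers d i) (hCW b hb (by
          rw [← eq_inv_mul_iff_mul_eq] at e
          exact e ▸ mul_mem (inv_mem (zpow_mem hdW i)) (h.z_mem hc ho _)))
        rw [hd2, ← h1, ← pow_mul]
        exact pow_eq_one_of_mem_zpowers (by rw [pow_mul, hd4]) h2
      · rw [show 8 = 2 * 2 * 2 from rfl, pow_mul, pow_mul, h1, hd4]
  refine exists_con h.hG hd2 (h.inv_W' hc ho ha ha2 hdW) hC (fun b hb => (hd8 b (hC2 b hb)).symm)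
    (fun b hb b' hb' => h.comm_B ha ha2 (hC b hb) (hC b' hb'))
    (hC' _ (W_le_Mk y 1 (pow_mem hdW 2)) (hd2 ▸ (Commute.refl a).pow_right 2))
    (fun e => ha1 (hd2 ▸ (h.commute_iff ha ha2 hdW).1 (hC d e))) (fun e => ha e.2)
    (fun e => ha (by simpa using (Mk y 1).mul_mem e.2 ((Mk y 1).inv_mem (W_le_Mk y 1 hdW)))) ht ?_
    (fun b hb => hC' _ ((normal_Mk y 1).conj_mem _ hb.2 t) ?_) (fun b hb => ?_) ?_ s1 s2 s3
  · have h1 : t * d * t⁻¹ * d⁻¹ ∈ commutator G := comm_mem_W t d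
    refine (h.z_cases hc ho h1 (by
        rw [(h.comm_W ((normal_of_commutator_le' le_rfl).conj_mem _ hdW t) (inv_mem hdW)).mul_pow,
          conj_pow, conj_eq_iff_commute.2 (h.commute_of_sq hc ho (pow_mem hdW 2) hd4 t), inv_pow,
          mul_inv_cancel])).imp mul_inv_eq_one.1 fun e => ?_
    rw [← haz, hd2, mul_inv_eq_iff_eq_mul] at e
    rw [e, eq_inv_iff_mul_eq_one, ← hd4, sq (d ^ 2), sq, mul_assoc]
  · have := (hd8 _ ((normal_Mk y 2).conj_mem _ (hC2 b hb) t)).symm.inv_left.mul_left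
      (ht ▸ (hC b hb).conj t)
    rwa [inv_mul_cancel_left] at this
  · by_cases hb' : b ∈ Mk y 1
    · exact mem_sup_right (hC' b hb' hb)
    · simpa using mul_mem_sup (mem_sup_left (mem_zpowers a) : a ∈ zpowers a ⊔ zpowers d)
        (hC' _ (h.inv_mul_mem_of_not_mem ha hb') ((Commute.refl a).inv_right.mul_right hb))
  · rintro g i b hb (e | e)
    · refine absurd ((normal_Mk y 1).mem_comm_iff.1 (show g⁻¹ * (g * a) ∈ _ from ?_)) ?_
      · exact (normal_Mk y 1).mem_comm (e ▸ mul_mem (zpow_mem (W_le_Mk y 1 hdW) i) hb.2)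
      · exact fun e1 => ha (by simpa using (normal_Mk y 1).mem_comm e1)
    · have e1 : g * a * g⁻¹ * a⁻¹ = (d ^ i)⁻¹ * b := by
        rw [e, mul_assoc, ← (hC b hb).inv_left.eq, ← mul_assoc,
          h.inv_W' hc ho ha ha2 (zpow_mem hdW i)]
      rw [e1]
      refine mul_mem (inv_mem (zpow_mem_zpowers d i)) (hCW b hb ?_)
      have e2 : g * a * g⁻¹ * a⁻¹ ∈ commutator G := comm_mem_W g a
      rw [e1] at e2
      simpa using mul_mem (zpow_mem hdW i) e2

theorem con_B (H : ∀ a ∉ Mk y 1, a ^ 2 ∈ commutator G → a ^ 2 = 1) :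
    ∃ (Q : Subgroup G) (α : MulAut Q) (t : G), Con Q α t := by
  have ha := h.u_not_mem
  have ha2 := h.u_sq_mem
  set a := x * y⁻¹
  have ha1 := H a ha ha2
  set z := c ^ 2 ^ n
  have hzW : z ∈ commutator G := h.z_mem hc ho _
  have hz2 : z ^ 2 = 1 := h.z_sq hc ho
  have hz1 : z ≠ 1 := h.z_ne hc ho
  have hz : ∀ g, Commute g z := h.commute_of_sq hc ho hzW hz2
  have hE : ∀ e ∈ commutator G, e ^ 2 = 1 → e ∈ zpowers z := fun e he he2 => by
    rcases h.z_cases hc ho he he2 with rfl | rfl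
    exacts [one_mem _, mem_zpowers _]
  obtain ⟨t, ht⟩ := h.exists_conj ha ha2 hzW
  obtain ⟨g, hg, hag, hg1, hB⟩ : ∃ g ∈ Mk y 1, Commute a g ∧ (g ∈ commutator G → g = 1) ∧
      ∀ b ∈ Mk y 1, Commute a b → b ∈ zpowers z ⊔ zpowers g := by
    obtain ⟨g, hg, hag, hB⟩ := h.exists_genB ha ha2
    by_cases hgW : g ∈ commutator G
    · refine ⟨1, one_mem _, Commute.one_right a, fun _ => rfl, fun b hb e => mem_sup_left ?_⟩
      obtain ⟨k, e', he, he2, rfl⟩ := hB b hb e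
      exact mul_mem (hE e' he he2) (zpow_mem (hE g hgW ((h.commute_iff ha ha2 hgW).1 hag)) k)
    · refine ⟨g, Mk_le y (one_dvd _) hg, hag, fun e => absurd e hgW, fun b hb e => ?_⟩
      obtain ⟨k, e', he, he2, rfl⟩ := hB b hb e
      exact mul_mem_sup (hE e' he he2) (zpow_mem_zpowers g k)
  have hgz : ∀ k : ℤ, g ^ k ≠ z := fun k e => by
    rcases Int.even_or_odd' k with ⟨k, rfl | rfl⟩
    · have e1 : (a * g ^ k) ^ 2 = z := by
        rw [(hag.zpow_right k).mul_pow, ha1, one_mul, ← e, ← zpow_natCast, ← zpow_mul, mul_comm]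
        rfl
      exact hz1 (e1 ▸ H _ (fun e2 => ha (by simpa using mul_mem e2 (inv_mem (zpow_mem hg k))))
        (e1 ▸ hzW))
    · rw [hg1 (mem_of_zpow_odd h.hG ⟨k, rfl⟩ (e ▸ hzW)), one_zpow] at e
      exact hz1 e.symm
  have haz : a * z ∉ Mk y 1 := fun e => ha (by simpa using mul_mem e (inv_mem (W_le_Mk y 1 hzW)))
  obtain ⟨g', hag', htg, h1, h2, h3, h4⟩ : ∃ g', Commute a g' ∧ Commute t g' ∧ z ∉ zpowers g' ∧
      a ∉ zpowers g' ∧ a * z ∉ zpowers g' ∧ g ∈ zpowers a ⊔ zpowers z ⊔ zpowers g' := by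
    have h1 : Commute a (t * g * t⁻¹) := by
      have := (hz _).symm.inv_left.mul_left (ht ▸ hag.conj t)
      rwa [inv_mul_cancel_left] at this
    rcases h.z_cases hc ho (comm_mem_W t g) ((h.commute_iff ha ha2 (comm_mem_W t g)).1
      (h1.mul_right hag.inv_right)) with e | e
    · exact ⟨g, hag, commutatorElement_eq_one_iff_commute.1 e, fun ⟨k, hk⟩ => hgz k hk,
        fun e => ha (zpowers_le.2 hg e), fun e => haz (zpowers_le.2 hg e),
        mem_sup_right (mem_zpowers g)⟩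
    · have hgW : g ∉ commutator G := fun e1 => hz1 (by
        rw [hg1 e1] at e
        exact e.symm.trans (by simp))
      have key : ∀ k : ℤ, (g * a) ^ k = g ^ k ∨ (Odd k ∧ (g * a) ^ k = a * g ^ k) := fun k => by
        rw [hag.symm.mul_zpow]
        rcases Int.even_or_odd' k with ⟨k, rfl | rfl⟩
        · left; rw [zpow_mul a, zpow_ofNat, ha1, one_zpow, mul_one]
        · right
          rw [zpow_add_one a, zpow_mul a, zpow_ofNat, ha1, one_zpow, one_mul]
          exact ⟨⟨k, rfl⟩, (hag.zpow_right _).symm.eq⟩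
      refine ⟨g * a, hag.mul_right (Commute.refl a), conj_eq_iff_commute.1 ?_, ?_, ?_, ?_, ?_⟩
      · rw [← conj_mul, ht, mul_inv_eq_iff_eq_mul.1 e, ← (hz g).eq, mul_assoc, ← mul_assoc z z,
          ← sq, hz2, one_mul]
      · rintro ⟨k, hk⟩
        rcases key k with e1 | ⟨-, e1⟩ <;> simp only [e1] at hk
        · exact hgz k hk
        · exact ha (by simpa [← hk] using mul_mem (W_le_Mk y 1 hzW) (inv_mem (zpow_mem hg k)))
      · rintro ⟨k, hk⟩
        rcases key k with e1 | ⟨hk', e1⟩ <;> simp only [e1] at hk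
        · exact ha (hk ▸ zpow_mem hg k)
        · exact hgW (mem_of_zpow_odd h.hG hk' (by rw [mul_eq_left.1 hk]; exact one_mem _))
      · rintro ⟨k, hk⟩
        rcases key k with e1 | ⟨hk', e1⟩ <;> simp only [e1] at hk
        · exact haz (hk ▸ zpow_mem hg k)
        · exact hgz k (mul_left_cancel hk)
      · simpa using mul_mem (mem_sup_right (mem_zpowers (g * a)))
          (inv_mem (mem_sup_left (mem_sup_left (mem_zpowers a)))
            : _ ∈ zpowers a ⊔ zpowers z ⊔ zpowers (g * a))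
  have hB' : ∀ b ∈ Mk y 1, Commute a b → b ∈ zpowers a ⊔ zpowers z ⊔ zpowers g' :=
    fun b hb e => sup_le (le_sup_right.trans le_sup_left) (zpowers_le.2 h4) (hB b hb e)
  refine exists_con h.hG (C := zpowers g') (s := a) (ha1.trans hz2.symm) ?_ (commute_zpowers hag')
    (commute_zpowers (hz g').symm) (fun b hb => commute_zpowers
      (commute_zpowers (Commute.refl g') b hb).symm) (hz2 ▸ one_mem _) h1 h2 h3 ht
    (Or.inl (conj_eq_iff_commute.2 (hz t)))
    (fun b hb => by rwa [conj_eq_iff_commute.2 (commute_zpowers htg b hb)]) (fun b hb => ?_)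
    (fun k i b hb e => hE _ (comm_mem_W k a) ((h.commute_iff ha ha2 (comm_mem_W k a)).1
      (Commute.mul_right ?_ (Commute.refl a).inv_right))) (fun i b hb e => ?_) (hz a)
    (commute_zpowers hag')
  · rw [conj_eq_iff_commute.2 (hz a), eq_inv_iff_mul_eq_one, ← sq, hz2]
  · by_cases hb' : b ∈ Mk y 1
    · exact hB' b hb' hb
    · simpa using mul_mem (mem_sup_left (mem_sup_left (mem_zpowers a)))
        (hB' _ (h.inv_mul_mem_of_not_mem ha hb') ((Commute.refl a).inv_right.mul_right hb))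
  · rcases e with e | e <;> rw [e]
    · exact ((hz a).zpow_right i).mul_right (commute_zpowers hag' b hb)
    · exact ((Commute.refl a).mul_right ((hz a).zpow_right i)).mul_right (commute_zpowers hag' b hb)
  · by_cases hi : z ^ i = 1
    · exact h2 (by rwa [← e, hi, one_mul])
    · rw [eq_of_mem_zpowers_two hz2 (zpow_mem_zpowers z i) hi] at e
      exact h3 (by rwa [← e, (hz b).symm.eq, mul_assoc, ← sq, hz2, mul_one])

omit hc ho in
theorem exists_ne_inner (hc : IsCyclic (commutator G)) :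
    ∃ F : FusionSystem (⊤ : Subgroup G), F.IsSaturated 2 ∧ F ≠ innerFusionSystem ⊤ := by
  obtain ⟨c, hc⟩ := (Subgroup.isCyclic_iff_exists_zpowers_eq_top _).1 hc
  obtain ⟨n, ho⟩ := IsPGroup.iff_orderOf.1 h.hG c
  obtain ⟨n, rfl⟩ : ∃ m, n = m + 1 := ⟨n - 1, by
    rcases n with _ | n
    · refine absurd ?_ h.wn
      have := hc.ge h.wW
      rw [orderOf_eq_one_iff.1 ho, zpowers_one_eq_bot, mem_bot] at this
      exact this ▸ one_mem _
    · rfl⟩
  obtain ⟨Q, α, t, D⟩ : ∃ (Q : Subgroup G) (α : MulAut Q) (t : G), Con Q α t := by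
    by_cases H : ∀ a ∉ Mk y 1, a ^ 2 ∈ commutator G → a ^ 2 = 1
    · exact h.con_B hc ho H
    · push Not at H
      obtain ⟨a, ha, ha2, ha1⟩ := H
      exact h.con_A hc ho ha ha2 ha1
  exact ⟨_, D.saturated, D.ne_inner⟩

end BC

end Cfsg.Agent.Bic
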