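import Cfsg.Agent.Lib.Bic.Aut
import Cfsg.Agent.Lib.Ess.Lvl

/-!
A non-metacyclic bicyclic `2`-group with non-cyclic derived subgroup is fusion trivial.
-/

set_option autoImplicit false
set_option linter.style.haveILetI false
set_option linter.unusedVariables false
set_option linter.unusedSectionVars false

namespace Cfsg.Agent.Bic

open Subgroup Cfsg.Agent.Ess Cfsg.Agent.Fus
open Cfsg.Agent.Fus2 (HomOn img afn)
open scoped commutatorElement

universe u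

variable {G : Type u} [Group G]

/-- The data attached to an essential subgroup `Q`. -/
structure Dat (Q H : Subgroup G) (α : MulAut Q) (t d a : G) : Prop where
  cen : ∀ g, (∀ z ∈ Q, Commute g z) → g ∈ Q
  nor : ∀ g ∈ normalizer (Q : Set G), g ∈ Q ∨ t⁻¹ * g ∈ Q
  fix2 : ∀ z ∈ Q, afn α (afn α z) = z → afn α z = z
  le : H ≤ Q
  mem : ∀ z ∈ H, afn α z ∈ H
  mem' : ∀ z ∈ H, afn α⁻¹ z ∈ H
  nH : ∀ g ∈ normalizer (Q : Set G), ∀ z ∈ H, g * z * g⁻¹ ∈ H
  ch : ∀ z ∈ Q, ∃ c ∈ Q, afn α c = c ∧ c⁻¹ * z ∈ H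
  dd : ∃ a₀ ∈ H, d = ⁅a₀, t⁆
  aa : afn α d = a
  dn : d ∉ phi 2 H
  gen : zpowers a ⊔ zpowers d = H
  φa : (a * d)⁻¹ * afn α a ∈ phi 2 H
  ta : (a * d)⁻¹ * (t * a * t⁻¹) ∈ phi 2 H
  triv : ∀ g ∈ Q, ∀ z ∈ H, z⁻¹ * (g * z * g⁻¹) ∈ phi 2 H
  fpf : (∀ a ∈ H, ∀ b ∈ H, Commute a b) → ∀ z ∈ H, afn α z = z → z = 1

theorem exists_Dat [Finite G] (hG : IsPGroup 2 G) (hr : SR 2 G) {F : FusionSystem (⊤ : Subgroup G)}
    (hF : F.IsSaturated 2) {Q : Subgroup G} (hQ : F.IsEssential 2 Q) :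
    ∃ H α t d a, Dat Q H α t d a := by
  have hS : IsPGroup 2 (⊤ : Subgroup G) := hG.to_subgroup ⊤
  have hi := relIndex_normalizerIn hS hF (hr.sub ⊤) hQ
  obtain ⟨q, α, β, hq, hq2, hα, h1, hβT, hβi, hβ, hβ2⟩ := exists_inverted (essData hS hF hQ)
    (by rw [relIndex_Inn_eq hQ.1, hi])
  obtain ⟨t, ht, rfl⟩ := mem_autInducedBy_iff'.1 hβT
  have htQ : t ∉ Q := fun e => hβi ((mem_iff_conjAut_mem_Inn hQ.1 ht.1 ht.2).2 e)
  obtain ⟨H, a₀, d, hn, h2, h3, h4, h5, h6, h7, -, h8, h9, h10, h11, h12⟩ :=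
    exists_dat (hG.to_subgroup Q) (hr.sub Q) hq hq2 hα h1 hβ hβ2
  have hnor : ∀ g ∈ normalizer (Q : Set G), g ∈ Q ∨ t⁻¹ * g ∈ Q := fun g hg => by
    have := (mul_mem_iff_of_index_two hi (a := ⟨t⁻¹, inv_mem ht⟩) (b := ⟨g, trivial, hg⟩)).2
    by_cases hgQ : g ∈ Q
    · exact Or.inl hgQ
    · exact Or.inr (this (iff_of_false (fun e => htQ (inv_mem_iff.1 e)) hgQ))
  have hm : ∀ z : Q, (z : G) ∈ H.map Q.subtype ↔ z ∈ H := fun z =>
    mem_map_iff_mem Q.subtype_injective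
  have hp : ∀ z : Q, (z : G) ∈ phi 2 (H.map Q.subtype) ↔ z ∈ phi 2 H := fun z => by
    rw [← map_phi]; exact mem_map_iff_mem Q.subtype_injective
  have hQH : ∀ g ∈ Q, ∀ z ∈ H.map Q.subtype, g * z * g⁻¹ ∈ H.map Q.subtype := by
    rintro g hg _ ⟨z, hz, rfl⟩
    exact (hm _).2 (hn.conj_mem z hz ⟨g, hg⟩)
  refine ⟨H.map Q.subtype, α, t, d, α d, fun g hg => IsCentric_centralizerIn_le hQ.1
    ⟨trivial, fun z hz => (hg z hz).symm.eq⟩, hnor, fun z hz e => ?_, map_subtype_le H, ?_, ?_,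
    fun g hg z hz => ?_, fun z hz => ?_, ⟨(a₀ : G)⁻¹, (hm a₀⁻¹).2 (inv_mem h5), ?_⟩,
    Fus2.afn_coe α d, fun e => h7 ((hp d).1 e), ?_, ?_, (hp _).2 h10, ?_, ?_⟩
  · rw [Fus2.afn_apply α hz, Fus2.afn_coe] at e
    rw [Fus2.afn_apply α hz]
    exact congrArg Subtype.val (apply_eq_of_sq (hq.odd_of_ne_two hq2) hα (Subtype.ext e))
  · rintro _ ⟨z, hz, rfl⟩
    rw [coe_subtype, Fus2.afn_coe]; exact (hm _).2 (h2 z hz)
  · rintro _ ⟨z, hz, rfl⟩
    rw [coe_subtype, Fus2.afn_coe]; exact (hm _).2 ((stabSub H).inv_mem h2 z hz)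
  · rcases hnor g hg with e | e
    · exact hQH g e z hz
    · obtain ⟨w, hw, e'⟩ := hQH _ e z hz
      have := (hm _).2 (h3 w hw)
      rw [coe_conjAut_apply, show (w : G) = _ from e'] at this
      simpa [mul_assoc] using this
  · obtain ⟨c, e, hc⟩ := h4 ⟨z, hz⟩
    exact ⟨c, c.2, by rw [Fus2.afn_coe, e], (hm _).2 hc⟩
  · rw [h6, ← inv_mul_conj_eq]; rfl
  · rw [← h8, Subgroup.map_sup, MonoidHom.map_zpowers, MonoidHom.map_zpowers]; rfl
  · rw [Fus2.afn_coe]; exact (hp _).2 h9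
  · rintro g hg _ ⟨z, hz, rfl⟩
    exact (hp _).2 (h11 ⟨g, hg⟩ z hz)
  · rintro hc _ ⟨z, hz, rfl⟩ e
    rw [coe_subtype, Fus2.afn_coe] at e
    exact congrArg Subtype.val (h12 (fun a ha b hb => Subtype.ext
      (hc _ ((hm a).2 ha) _ ((hm b).2 hb)).eq) z hz (Subtype.ext e))

theorem two_pow_dvd_choose (n : ℕ) : 2 ^ n ∣ (2 ^ (n + 1)).choose 2 := by
  rw [Nat.choose_two_right, pow_succ, mul_right_comm, Nat.mul_div_cancel _ two_pos]
  exact dvd_mul_right _ _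

namespace Dat

variable [Finite G] {x y : G} (h : BC x y) (hn : ¬ IsCyclic (commutator G)) {Q H : Subgroup G}
  {α : MulAut Q} {t d a : G} (D : Dat Q H α t d a)
include D

theorem dW : d ∈ commutator G := D.dd.elim fun _ e => e.2 ▸ comm_mem_W _ _

theorem dH : d ∈ H := D.gen.le (mem_sup_right (mem_zpowers d))

theorem aH : a ∈ H := D.gen.le (mem_sup_left (mem_zpowers a))

theorem le_of {K : Subgroup G} (ha : a ∈ K) (hd : d ∈ K) : H ≤ K :=
  D.gen.ge.trans (sup_le (zpowers_le.2 ha) (zpowers_le.2 hd))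

theorem commute_of {g z : G} (ha : Commute g a) (hd : Commute g d) (hz : z ∈ H) : Commute g z :=
  (mem_centralizer_singleton_iff.1 (D.le_of (K := centralizer {g})
    (mem_centralizer_singleton_iff.2 ha.symm.eq) (mem_centralizer_singleton_iff.2 hd.symm.eq) hz)).symm

theorem afn_pow_d (n : ℕ) : afn α (d ^ n) = a ^ n := by rw [afn_pow α (D.le D.dH), D.aa]

theorem d_ne : d ≠ 1 := fun e => D.dn (e ▸ one_mem _)

include h

theorem central {g k l : G} (hg : g ∈ H) (hk : k ∈ H) (hl : l ∈ H) : Commute ⁅g, k⁆ l := by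
  refine D.commute_of ?_ (h.comm_W (comm_mem_W _ _) D.dW) hl
  have := afn_commute α (D.le (comm_mem_of_mem (D.mem' g hg) (D.mem' k hk))) (D.le D.dH)
    (h.comm_W (comm_mem_W _ _) D.dW)
  rwa [afn_comm α (D.le (D.mem' g hg)) (D.le (D.mem' k hk)), Fus2.afn_afn_inv, Fus2.afn_afn_inv,
    D.aa] at this

theorem comm_mem {g k : G} (hg : g ∈ H) (hk : k ∈ H) : ⁅g, k⁆ ∈ zpowers ⁅a, d⁆ := by
  let a' : H := ⟨a, D.aH⟩
  let d' : H := ⟨d, D.dH⟩
  haveI : (zpowers ⁅a', d'⁆).Normal := ⟨by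
    rintro _ ⟨m, rfl⟩ l
    refine ⟨m, Subtype.ext ?_⟩
    have := ((D.central h D.aH D.dH l.2).zpow_left m).symm
    rw [coe_mul, coe_mul, coe_zpow, coe_inv]
    exact (conj_eq_iff_commute.2 this).symm⟩
  have h1 : zpowers a' ⊔ zpowers d' = ⊤ := map_injective H.subtype_injective (by
    rw [Subgroup.map_sup, MonoidHom.map_zpowers, MonoidHom.map_zpowers, ← MonoidHom.range_eq_map,
      range_subtype]
    exact D.gen)
  exact mem_zpowers_coe_iff.2
    (commutator_le_of_gen (mem_zpowers ⁅a', d'⁆) h1 (comm_mem_W ⟨g, hg⟩ ⟨k, hk⟩))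

theorem pw {M N : ℕ} (hc : ⁅a, d⁆ ^ M = 1) (h1 : M ∣ N.choose 2) (h2 : M ∣ N)
    (hd : (d ^ N) ^ 2 = 1) : HomOn H (fun z => z ^ N) ∧ (∀ p ∈ phi 2 H, p ^ N = 1) ∧
      (d ^ N ≠ 1 → a ^ N ≠ d ^ N) := by
  have h3 : ∀ K, M ∣ K → ∀ g ∈ H, ∀ k ∈ H, ⁅g, k⁆ ^ K = 1 := by
    rintro _ ⟨K, rfl⟩ g hg k hk
    rw [pow_mul, pow_eq_one_of_mem_zpowers hc (D.comm_mem h hg hk), one_pow]
  have hf : HomOn H (fun z => z ^ N) := fun g hg k hk =>
    mul_pow_of_class_two (D.central h (inv_mem hk) (inv_mem hg) hg)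
      (D.central h (inv_mem hk) (inv_mem hg) hk) (h3 _ h1 _ (inv_mem hk) _ (inv_mem hg))
  have ha : (a ^ N) ^ 2 = 1 := by
    rw [← D.afn_pow_d, ← afn_pow α (D.le (pow_mem D.dH N)), hd, afn_eq_one_iff]
  have had : Commute (a ^ N) (d ^ N) := by
    rw [← commutatorElement_eq_one_iff_commute, ← hf.map_comm D.aH D.dH]
    exact h3 _ h2 _ D.aH _ D.dH
  have h4 : ∀ z ∈ H, (z ^ N) ^ 2 = 1 := fun z hz => by
    have := HomOn.mem_of_sup (R := zpowers (a ^ N) ⊔ zpowers (d ^ N)) (D.gen.symm ▸ hf) (by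
      rintro _ ⟨k, rfl⟩
      exact mem_sup_left ⟨k, by simp only; rw [← zpow_natCast, ← zpow_natCast, zpow_comm]⟩) (by
      rintro _ ⟨k, rfl⟩
      exact mem_sup_right ⟨k, by simp only; rw [← zpow_natCast, ← zpow_natCast, zpow_comm]⟩)
      z (D.gen.ge hz)
    rcases four_cases hd ha had this with e | e | e | e <;> simp only [e]
    exacts [one_pow 2, hd, ha, by rw [had.mul_pow, ha, hd, one_mul]]
  have h5 : ∀ p ∈ phi 2 H, p ^ N = 1 := fun p hp => by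
    obtain ⟨z, hz, rfl⟩ := (phi_le_iff (D := hf.toHom.ker.map H.subtype)).2
      ⟨fun z hz => ⟨⟨z ^ 2, pow_mem hz 2⟩, by
        show (z ^ 2) ^ N = 1
        rw [← pow_mul, mul_comm, pow_mul, h4 z hz], rfl⟩,
      fun g hg k hk => ⟨⟨_, comm_mem_of_mem hg hk⟩, h3 _ h2 g hg k hk, rfl⟩⟩ hp
    exact hz
  refine ⟨hf, h5, fun hd1 e => hd1 ?_⟩
  have h6 := hf _ (mul_mem D.aH D.dH) _ (phi_le D.φa)
  simp only [mul_inv_cancel_left] at h6
  rw [h5 _ D.φa, mul_one, show (a * d) ^ N = a ^ N * d ^ N from hf _ D.aH _ D.dH, e, ← sq, hd,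
    ← afn_pow α (D.le D.aH), afn_eq_one_iff, ← D.afn_pow_d, afn_eq_one_iff] at h6
  exact h6

include hn

theorem case_one (ha : a ∉ Mk y 1) (h2 : a ^ 2 = d ^ 2) (h3 : a * d * a⁻¹ = d⁻¹)
    (hC : ∀ c ∈ Q, afn α c = c → Commute a c ∧ Commute c d) : False := by
  have ha2 : a ^ 2 ∈ commutator G := h2 ▸ pow_mem D.dW 2
  have hd4 : d ^ 4 = 1 := by rw [← h.sq_sq ha ha2, h2, ← pow_mul]
  have hB : ∀ b, Commute a b → b ∈ Q := by
    have key : ∀ b ∈ Mk y 1, Commute a b → b ∈ Q := fun b hb e => D.cen b fun z hz => by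
      obtain ⟨c, hc, e1, e2⟩ := D.ch z hz
      simpa using (h.comm_B ha ha2 e (hC c hc e1).1).mul_right (D.commute_of e.symm
        (h.commute_four (h.mem_four_of_commute hn ha ha2 hb e) D.dW hd4) e2)
    intro b e
    by_cases hb : b ∈ Mk y 1
    · exact key b hb e
    · simpa using mul_mem (D.le D.aH) (key _ (h.inv_mul_mem_of_not_mem ha hb)
        ((Commute.refl a).inv_right.mul_right e))
  have hH : ∀ z ∈ H, ∃ (i : ℤ), ∃ n ∈ zpowers d, a ^ i * n = z := fun z hz =>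
    (mem_zpowers_sup_iff (mem_normalizer_of_conj_mem (by
      rintro _ ⟨k, rfl⟩
      exact ⟨-k, by simp only; rw [← conj_zpow, h3]; simp⟩))).1 (D.gen.ge hz)
  refine h.not_E_le hn d fun e he => ?_
  obtain ⟨heW, he2⟩ := h.mem_E.1 he
  obtain ⟨s, hs⟩ := h.exists_conj ha ha2 heW
  have hae : Commute a e := (h.commute_iff ha ha2 heW).2 he2
  have hsq : (e * a) ^ 2 = a ^ 2 := by rw [hae.symm.mul_pow, he2, one_mul]
  have ha' : e * a ∉ Mk y 1 := fun e1 => ha (by simpa using mul_mem (inv_mem (W_le_Mk y 1 heW)) e1)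
  have hsB : ∀ b, Commute a b → s * b * s⁻¹ ∈ Q := fun b e1 =>
    hB _ (h.comm_B ha' (hsq ▸ ha2) (hae.symm.mul_left (Commute.refl a)) (hs ▸ e1.conj s))
  have hsd : s * d * s⁻¹ ∈ Q := by
    have h4 : s * d * s⁻¹ ∈ commutator G := (normal_of_commutator_le' le_rfl).conj_mem d D.dW s
    have h5 := hB _ ((h.commute_iff ha ha2 (mul_mem h4 (inv_mem D.dW))).2 (by
      rw [(h.comm_W h4 (inv_mem D.dW)).mul_pow, conj_pow, inv_pow, ← h2, ← conj_pow, hs, hsq,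
        mul_inv_cancel]))
    simpa using mul_mem h5 (D.le D.dH)
  have hsN : s ∈ normalizer (Q : Set G) := mem_normalizer_of_conj_mem fun z hz => by
    obtain ⟨c, hc, e1, e2⟩ := D.ch z hz
    obtain ⟨i, _, ⟨j, rfl⟩, e3⟩ := hH _ e2
    have := mul_mem (hsB _ ((hC c hc e1).1.mul_right ((Commute.refl a).zpow_right i)))
      (zpow_mem hsd j)
    rw [conj_zpow] at this
    convert this using 1
    rw [eq_inv_mul_iff_mul_eq] at e3
    rw [← e3]; group
  have heH : e ∈ H := by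
    have := H.mul_mem (D.nH s hsN a D.aH) (H.inv_mem D.aH)
    rwa [hs, mul_inv_cancel_right] at this
  obtain ⟨i, n, hn', rfl⟩ := hH e heH
  rcases Int.even_or_odd' i with ⟨k, rfl | rfl⟩
  · refine mul_mem ?_ hn'
    rw [zpow_mul, zpow_ofNat, h2]
    exact zpow_mem (pow_mem (mem_zpowers d) 2) k
  · refine absurd (mem_of_zpow_odd h.hG ⟨k, rfl⟩ (W_le_Mk y 1 ?_)) ha
    simpa using mul_mem heW (inv_mem (zpowers_le.2 D.dW hn'))

theorem case_two (hc : Commute a d) {N : ℕ} (hd1 : d ^ N ≠ 1) (hd : (d ^ N) ^ 2 = 1)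
    (ha : a ^ N ∈ Mk y 1) : False := by
  have hab : ∀ g ∈ H, ∀ k ∈ H, Commute g k := fun g hg k hk =>
    D.commute_of (D.commute_of (Commute.refl a) hc hg).symm
      (D.commute_of hc.symm (Commute.refl d) hg).symm hk
  obtain ⟨hf, hp, hne⟩ := D.pw h (M := 1) (by rw [pow_one, commutatorElement_eq_one_iff_commute.2 hc])
    (one_dvd _) (one_dvd N) hd
  have ha2 : (a ^ N) ^ 2 = 1 := by
    rw [← D.afn_pow_d, ← afn_pow α (D.le (pow_mem D.dH N)), hd, afn_eq_one_iff]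
  have hdE := h.mem_E.2 ⟨pow_mem D.dW N, hd⟩
  have haE := h.mem_E.2 ⟨h.mem_W_of_sq_eq_one hn ha ha2, ha2⟩
  have hE := h.E_eq hn hdE haE hd1 (by rwa [← D.afn_pow_d, Ne, afn_eq_one_iff]) (hne hd1)
  have hEH : omZ 2 (commutator G) ≤ H :=
    hE.ge.trans (sup_le (zpowers_le.2 (pow_mem D.aH N)) (zpowers_le.2 (pow_mem D.dH N)))
  set K := centralizer (omZ 2 (commutator G) : Set G)
  have hK : ∀ g, g ∈ K ↔ ∀ e ∈ omZ 2 (commutator G), Commute g e := fun g =>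
    forall₂_congr fun e _ => eq_comm
  have hcj : ∀ g z k, z ∈ H → k ∈ H → k⁻¹ * (g * z * g⁻¹) ∈ phi 2 H →
      g * z ^ N * g⁻¹ = k ^ N := fun g z k hz hk e => by
    have := hf _ hk _ (phi_le e)
    simp only [mul_inv_cancel_left, hp _ e, mul_one] at this
    rw [← this, conj_pow]
  have hQK : Q ≤ K := fun g hg => (hK g).2 fun e he => (commute_of_mem_zpowers_sup
    (conj_eq_iff_commute.1 (hcj g a a D.aH D.aH (D.triv g hg a D.aH))).symm
    (fun n hn => (commute_zpowers (conj_eq_iff_commute.1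
      (hcj g d d D.dH D.dH (D.triv g hg d D.dH))) n hn).symm) (hE.ge he)).symm
  have htK : t ∉ K := fun e => hd1 (by
    have h1 := hcj t a _ D.aH (mul_mem D.aH D.dH) D.ta
    rw [conj_eq_iff_commute.2 ((hK t).1 e _ haE), hc.mul_pow] at h1
    exact left_eq_mul.1 h1)
  have hKQ : K ≤ Q := by
    by_contra hlt
    obtain ⟨g, hg, hgN, hgQ⟩ := exists_mem_normalizer_not_mem (h.hG.to_subgroup K)
      (lt_of_le_not_ge hQK hlt)
    exact htK (by simpa using mul_mem hg (inv_mem (hQK ((D.nor g hgN).resolve_left hgQ))))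
  have h2K : Mk y 2 ≤ K := fun g hg => (hK g).2 fun e he => h.commute_E hg he.1 he.2.1
  have huK : x * y⁻¹ ∈ K := (hK _).2 fun e he =>
    (h.commute_iff h.u_not_mem h.u_sq_mem he.1).2 he.2.1
  have hK2 : ∀ g ∈ K, g ∈ Mk y 1 → g ∈ Mk y 2 := fun g hg hg1 => by
    by_contra hg2
    have := mem_of_mem_Mk h.hG hg1 (by simpa using hg2) ((W_le_Mk y 2).trans h2K) hg
    exact htK ((h.gen_of_not_mem h.u_not_mem).ge.trans
      (sup_le (zpowers_le.2 huK) (zpowers_le.2 (by simpa using this))) (mem_top t))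
  have hC : ∀ c ∈ Q, afn α c = c → c ∈ Mk y 2 → c = 1 := fun c hcQ e hc2 => by
    by_contra hc1
    obtain ⟨k, hk⟩ := h.hG c
    obtain ⟨n, h1, h2⟩ := exists_pow_prime_order hk hc1
    exact h1 (D.fpf hab _ (hEH (h.mem_E.2 ⟨h.mem_W_of_sq_eq_one hn
      (Mk_le y (one_dvd _) (pow_mem hc2 n)) h2, h2⟩)) (by rw [afn_pow α hcQ, e]))
  by_cases hC1 : ∀ c ∈ Q, afn α c = c → c = 1
  · have hQH : Q ≤ H := fun z hz => by
      obtain ⟨c, hc, e1, e2⟩ := D.ch z hz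
      simpa [hC1 c hc e1] using e2
    have hy : y ^ 2 ∈ Mk y 2 := by exact_mod_cast pow_mem_Mk y 2
    exact h.y_sq_not_mem' (h.mem_four_of_commute hn h.u_not_mem h.u_sq_mem
      (Mk_le y (one_dvd _) hy) (hab _ (hQH (hKQ huK)) _ (hQH (hKQ (h2K hy)))))
  push Not at hC1
  obtain ⟨c, hcQ, e, hc1⟩ := hC1
  have hc' : c ∉ Mk y 1 := fun e1 => hc1 (hC c hcQ e (hK2 c (hQK hcQ) e1))
  have hc2 : c ^ 2 = 1 := hC _ (pow_mem hcQ 2) (by rw [afn_pow α hcQ, e]) (h.sq_mem c)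
  have h1 : c * d * c⁻¹ = d⁻¹ :=
    h.inv_W hc' (hc2 ▸ one_mem _) (hc2 ▸ Commute.one_left y) D.dW
  have h2 : c * a * c⁻¹ = a⁻¹ := by
    have := congrArg (afn α) h1
    rwa [(Fus2.homOn_afn α).map_conj hcQ (D.le D.dH), afn_inv' α (D.le D.dH), e, D.aa] at this
  have h3 : ∀ z ∈ H, c * z * c⁻¹ = z⁻¹ := fun z hz =>
    HomOn.eq_on_sup (P := zpowers a) (Q := zpowers d) (f := fun z => c * z * c⁻¹)
      (g := fun z => z⁻¹) (Fus2.homOn_conj _ c) (fun g hg k hk => by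
        simp only
        rw [(hab g (D.gen.le hg) k (D.gen.le hk)).eq, mul_inv_rev])
      (by rintro _ ⟨k, rfl⟩; simp only; rw [← conj_zpow, h2, inv_zpow])
      (by rintro _ ⟨k, rfl⟩; simp only; rw [← conj_zpow, h1, inv_zpow]) z (D.gen.ge hz)
  have hH2 : H ≤ Mk y 2 := fun z hz => hK2 z (hQK (D.le hz)) (by
    by_contra hz1
    have h4 : (z * c) ^ 2 = 1 := by
      rw [show (z * c) ^ 2 = z * (c * z * c⁻¹) * c ^ 2 by simp only [sq]; group, h3 z hz, hc2]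
      simp
    have h5 := hEH (h.mem_E.2 ⟨h.mem_W_of_sq_eq_one hn (h.mul_mem_of_not_mem hz1 hc') h4, h4⟩)
    exact hc1 (D.fpf hab c (by simpa using mul_mem (inv_mem hz) h5) e))
  have h2H : Mk y 2 ≤ H := fun z hz => by
    obtain ⟨c, hc, e1, e2⟩ := D.ch z (hKQ (h2K hz))
    simpa [hC c hc e1 (by simpa using mul_mem hz (inv_mem (hH2 e2)))] using e2
  obtain ⟨a₀, ha₀, e0⟩ := D.dd
  refine D.dn (phi_mono h2H (h.W1_le_phi hn ?_))
  have : Mk y 2 ≤ cMod ⊤ (W1 G) := Mk_le_of (fun w hw => mem_cMod'.2 fun g _ => comm_mem_W1' hw g)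
    (mem_cMod'.2 fun g _ => by
      rw [← commutatorElement_inv, zpow_ofNat]; exact inv_mem (comm_sq_mem_W1 y g))
  rw [e0, ← commutatorElement_inv]
  exact inv_mem (mem_cMod'.1 (this (hH2 ha₀)) t trivial)

theorem pow_eq (hc : ⁅a, d⁆ ≠ 1) {n : ℕ} (hd1 : d ^ 2 ^ (n + 1) ≠ 1)
    (hd : (d ^ 2 ^ (n + 1)) ^ 2 = 1) : a ^ 2 ^ (n + 1) = d ^ 2 ^ (n + 1) := by
  by_contra hne
  have hE : ∀ g ∈ H, (g ^ 2 ^ (n + 1)) ^ 2 = 1 → g ^ 2 ^ (n + 1) ∈ omZ 2 (commutator G) :=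
    fun g hg e => h.mem_E.2 ⟨h.mem_W_of_sq_eq_one hn (by
      rw [pow_succ, pow_mul]; exact Mk_le y (one_dvd _) (h.sq_mem _)) e, e⟩
  have ha2 : (a ^ 2 ^ (n + 1)) ^ 2 = 1 := by
    rw [← D.afn_pow_d, ← afn_pow α (D.le (pow_mem D.dH _)), hd, afn_eq_one_iff]
  obtain ⟨k, hk⟩ := IsPGroup.iff_orderOf.1 h.hG ⁅a, d⁆
  obtain ⟨k, rfl⟩ : ∃ m, k = m + 1 := ⟨k - 1, by
    rcases k with _ | k
    · exact absurd (orderOf_eq_one_iff.1 hk) hc
    · rfl⟩
  set z := ⁅a, d⁆ ^ 2 ^ k with hz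
  have hz2 : z ^ 2 = 1 := by rw [← pow_mul, ← pow_succ, ← hk, pow_orderOf_eq_one]
  have hz1 : z ≠ 1 := pow_ne_one_of_lt_orderOf (by positivity)
    (hk ▸ Nat.pow_lt_pow_right one_lt_two k.lt_succ_self)
  have hcQ := D.le (comm_mem_of_mem D.aH D.dH)
  have hφz : afn α z = z := by
    refine (eq_of_sq_eq_one hk ?_ ?_).resolve_left fun e => hz1 ((afn_eq_one_iff α).1 e)
    · rw [hz, afn_pow α hcQ, afn_comm α (D.le D.aH) (D.le D.dH)]
      exact pow_mem (D.comm_mem h (D.mem _ D.aH) (D.mem _ D.dH)) _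
    · rw [← sq, ← afn_pow α (pow_mem hcQ _), hz2, afn_eq_one_iff]
  have hdE := hE d D.dH hd
  have haE := hE a D.aH ha2
  have hφ := D.afn_pow_d (2 ^ (n + 1))
  have hdQ := D.le (pow_mem D.dH (2 ^ (n + 1)))
  have haQ := D.le (pow_mem D.aH (2 ^ (n + 1)))
  rcases four_cases hd ha2 (haE.2.2 _ hdE.1) ((h.E_eq hn hdE haE hd1
    (by rwa [← hφ, Ne, afn_eq_one_iff]) hne).ge
    (h.mem_E.2 ⟨pow_mem (comm_mem_W a d) _, hz2⟩)) with e | e | e | e
  · exact hz1 e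
  · exact hne (by rw [← hφ, ← e, hφz])
  · exact hne (Fus2.afn_injective α (by rw [hφ, ← e, hφz]))
  · rw [← hz] at e
    rw [e, afn_mul' α haQ hdQ, hφ, (haE.2.2 _ hdE.1).eq] at hφz
    exact hne (hφ.symm.trans (D.fix2 _ hdQ (by rw [hφ, mul_right_cancel hφz])))

theorem false : False := by
  obtain ⟨n, ho⟩ := IsPGroup.iff_orderOf.1 h.hG d
  obtain ⟨n, rfl⟩ : ∃ m, n = m + 1 := ⟨n - 1, by
    rcases n with _ | n
    · exact absurd (orderOf_eq_one_iff.1 ho) D.d_ne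
    · rfl⟩
  have hd : (d ^ 2 ^ n) ^ 2 = 1 := by rw [← pow_mul, ← pow_succ, ← ho, pow_orderOf_eq_one]
  have hd1 : d ^ 2 ^ n ≠ 1 := pow_ne_one_of_lt_orderOf (by positivity)
    (ho ▸ Nat.pow_lt_pow_right one_lt_two n.lt_succ_self)
  by_cases hc : ⁅a, d⁆ = 1
  · have hc' := commutatorElement_eq_one_iff_commute.1 hc
    by_cases ha : a ^ 2 ^ n ∈ Mk y 1
    · exact D.case_two h hn hc' hd1 hd ha
    rcases n with _ | n
    · rw [pow_zero, pow_one] at ha hd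
      have ha2 : a ^ 2 = 1 := by rw [← D.afn_pow_d, hd, afn_eq_one_iff]
      have hp := (D.pw h (M := 1) (N := 1) (by rw [hc, one_pow]) (one_dvd _) dvd_rfl
        (by rw [pow_one, hd])).2.1
      have key : ∀ c ∈ Q, ∀ z ∈ H, Commute c z := fun c hc z hz => conj_eq_iff_commute.1
        (inv_mul_eq_one.1 (by simpa only [pow_one] using hp _ (D.triv c hc z hz))).symm
      refine D.case_one h hn ha (ha2.trans hd.symm) ?_
        fun c hc _ => ⟨(key c hc a D.aH).symm, key c hc d D.dH⟩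
      rw [conj_eq_iff_commute.2 hc', eq_inv_iff_mul_eq_one, ← sq, hd]
    · exact ha (by rw [pow_succ, pow_mul]; exact Mk_le y (one_dvd _) (h.sq_mem _))
  have hca := D.central h D.aH D.dH D.aH
  have hcd := D.central h D.aH D.dH D.dH
  have small : a ^ 2 = d ^ 2 → (d ^ 2) ^ 2 = 1 → ⁅a, d⁆ ^ 2 = 1 ∧ (afn α a) ^ 2 = ⁅a, d⁆ := by
    intro e1 e2
    have h1 : ⁅a, d⁆ ^ 2 = 1 := by
      rw [← comm_pow_left hca, e1, commutatorElement_eq_one_iff_commute]
      exact (Commute.refl d).pow_left 2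
    have h2 : d ^ 2 ∈ omZ 2 H := ⟨pow_mem D.dH 2, e2, fun z hz => D.commute_of
      (e1 ▸ (Commute.refl a).pow_left 2) ((Commute.refl d).pow_left 2) hz⟩
    have h3 : phi 2 H ≤ omZ 2 H := by
      refine (congrArg (phi 2) D.gen).ge.trans (phi_sup_le ?_ (phi_zpowers_le (e1 ▸ h2))
        (phi_zpowers_le h2) fun g hg k hk => ?_)
      · exact fun g hg => mem_normalizer_of_commute fun z hz => (hz.2.2 g (D.gen.le hg)).symm
      · have hg := D.gen.le (mem_sup_left hg)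
        have hk := D.gen.le (mem_sup_right hk)
        exact ⟨comm_mem_of_mem hg hk, pow_eq_one_of_mem_zpowers h1 (D.comm_mem h hg hk),
          fun l hl => D.central h hg hk hl⟩
    refine ⟨h1, ?_⟩
    have h4 := h3 D.φa
    rw [← mul_inv_cancel_left (a * d) (afn α a), (h4.2.2 _ (mul_mem D.aH D.dH)).symm.mul_pow,
      h4.2.1, mul_one]
    calc (a * d) ^ 2 = ⁅a, d⁆ * (d * a ^ 2 * d) := by simp only [sq, commutatorElement_def]; group
      _ = ⁅a, d⁆ * (d ^ 2) ^ 2 := by rw [e1]; simp only [sq, mul_assoc]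
      _ = _ := by rw [e2, mul_one]
  rcases n with _ | _ | n
  · rw [pow_zero, pow_one] at hd
    have ha2 : a ^ 2 = 1 := by rw [← D.afn_pow_d, hd, afn_eq_one_iff]
    have := (small (ha2.trans hd.symm) (by rw [hd, one_pow])).2
    rw [← afn_pow α (D.le D.aH), ha2, eq_comm, (afn_eq_one_iff α).2 rfl] at this
    exact hc this
  · have e1 := D.pow_eq h hn hc hd1 hd
    rw [zero_add, pow_one] at e1 hd
    obtain ⟨h1, h2⟩ := small e1 hd
    have hφ : afn α (d ^ 2) = d ^ 2 := by rw [D.afn_pow_d, e1]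
    rw [← afn_pow α (D.le D.aH), e1, hφ] at h2
    have h3 : a * d * a⁻¹ = d⁻¹ := by
      rw [eq_inv_iff_mul_eq_one, ← hd, sq (d ^ 2)]
      nth_rw 1 [h2]
      simp only [sq, commutatorElement_def]; group
    have hcen : ∀ z ∈ H, Commute (d ^ 2) z := fun z hz => h2 ▸ D.central h D.aH D.dH hz
    have h4 : phi 2 H ≤ zpowers (d ^ 2) := by
      refine (congrArg (phi 2) D.gen).ge.trans (phi_sup_le ?_
        (phi_zpowers_le (e1 ▸ mem_zpowers _)) (phi_zpowers_le (mem_zpowers _)) fun g hg k hk => ?_)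
      · exact fun g hg => mem_normalizer_of_commute
          (commute_zpowers (hcen g (D.gen.le hg)).symm)
      · exact h2 ▸ D.comm_mem h (D.gen.le (mem_sup_left hg)) (D.gen.le (mem_sup_right hk))
    refine D.case_one h hn (fun ha => hc ?_) e1 h3 fun c hc e => ?_
    · exact commutatorElement_eq_one_iff_commute.2 (h.comm_W
        (h.mem_W_of_sq hn ha (e1 ▸ pow_mem_mho D.dW)) D.dW)
    · have key : Commute c d → Commute a c ∧ Commute c d := fun e2 =>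
        ⟨by simpa only [e, D.aa] using afn_commute α (D.le D.dH) hc e2.symm, e2⟩
      by_cases hp : d⁻¹ * (c * d * c⁻¹) = 1
      · exact key (conj_eq_iff_commute.1 (inv_mul_eq_one.1 hp).symm)
      exfalso
      have h5 : c * d * c⁻¹ = d * d ^ 2 := by
        rw [← eq_of_mem_zpowers_two hd (h4 (D.triv c hc d D.dH)) hp, mul_inv_cancel_left]
      have hom := Fus2.homOn_afn α
      have h6 : c * a * c⁻¹ = a * d ^ 2 := by
        have := congrArg (afn α) h5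
        rwa [hom.map_conj hc (D.le D.dH), hom _ (D.le D.dH) _ (D.le (pow_mem D.dH 2)), e, D.aa,
          hφ] at this
      have h7 : c * afn α a * c⁻¹ = afn α a * d ^ 2 := by
        have := congrArg (afn α) h6
        rwa [hom.map_conj hc (D.le D.aH), hom _ (D.le D.aH) _ (D.le (pow_mem D.dH 2)), e,
          hφ] at this
      have h8 : Commute c (d ^ 2) := conj_eq_iff_commute.1 (by
        rw [← conj_pow, h5, ((Commute.refl d).pow_right 2).mul_pow, hd, mul_one])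
      have h9 : Commute c (a * d) := conj_eq_iff_commute.1 (by
        rw [← conj_mul, h5, h6, mul_assoc, ← mul_assoc (d ^ 2), (hcen d D.dH).eq, mul_assoc d,
          ← sq, hd, mul_one])
      have h10 := h9.mul_right (commute_zpowers h8 _ (h4 D.φa))
      rw [mul_inv_cancel_left] at h10
      rw [conj_eq_iff_commute.2 h10] at h7
      exact hd1 (left_eq_mul.1 h7)
  · have e1 := D.pow_eq h hn hc hd1 hd
    have h1 : ⁅a, d⁆ ^ 2 ^ (n + 2) = 1 := by
      rw [← comm_pow_left hca, e1, commutatorElement_eq_one_iff_commute]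
      exact (Commute.refl d).pow_left _
    have h2 : Commute (a ^ 2 ^ (n + 1)) (d ^ 2 ^ (n + 1)) := by
      rw [← commutatorElement_eq_one_iff_commute,
        comm_pow_right (D.central h (pow_mem D.aH _) D.dH D.dH), comm_pow_left hca, ← pow_mul,
        ← pow_add, show n + 1 + (n + 1) = n + 2 + n by ring, pow_add, pow_mul, h1, one_pow]
    have h3 : a ^ 2 ^ (n + 1) * (d ^ 2 ^ (n + 1))⁻¹ ∈ commutator G :=
      h.mem_W_of_sq_eq_one hn (mul_mem (by
        rw [pow_succ, pow_mul]; exact Mk_le y (one_dvd _) (h.sq_mem _))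
        (W_le_Mk y 1 (inv_mem (pow_mem D.dW _)))) (by
        rw [h2.inv_right.mul_pow, inv_pow, ← pow_mul, ← pow_mul, ← pow_succ, e1, mul_inv_cancel])
    have h4 : ⁅a, d⁆ ^ 2 ^ (n + 1) = 1 := by
      rw [← comm_pow_left hca, commutatorElement_eq_one_iff_commute]
      exact h.comm_W (by simpa using mul_mem h3 (pow_mem D.dW (2 ^ (n + 1)))) D.dW
    exact (D.pw h h4 (two_pow_dvd_choose _) (pow_dvd_pow 2 (Nat.le_succ _)) hd).2.2 hd1 e1

end Dat

theorem BC.eq_inner [Finite G] {x y : G} (h : BC x y) (hn : ¬ IsCyclic (commutator G))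
    {F : FusionSystem (⊤ : Subgroup G)} (hF : F.IsSaturated 2) : F = innerFusionSystem ⊤ := by
  have hS : IsPGroup 2 (⊤ : Subgroup G) := h.hG.to_subgroup ⊤
  refine le_inner_of_no_essential hS hF (autGroup_top_eq_Inn_of_isPGroup hS hF ?_).le fun Q hQ => ?_
  · exact ((h.isPGroup_aut.of_equiv topEquiv).of_equiv
      (MulAut.congr (topEquiv (G := G)).symm)).to_subgroup _
  · obtain ⟨H, α, t, d, a, D⟩ := exists_Dat h.hG (h.sr hn) hF hQ
    exact D.false h hn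

end Cfsg.Agent.Bic
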