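import Cfsg.Agent.Lib.Bic.Basic

/-!
The derived subgroup of a metabelian group as a module.
-/

set_option autoImplicit false
set_option linter.style.haveILetI false
set_option linter.unusedVariables false
set_option linter.unusedSectionVars false

namespace Cfsg.Agent.Bic

open Subgroup Cfsg.Agent.Ess
open scoped commutatorElement

universe u

variable {G : Type u} [Group G]

/-- An additive model of the abelian derived subgroup with the conjugation action. -/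
structure Md (G : Type u) [Group G] (A : Type u) [AddCommGroup A] where
  ι : A → G
  act : G → A →+ A
  ι_add : ∀ a b, ι (a + b) = ι a * ι b
  inj : Function.Injective ι
  mem : ∀ g, g ∈ commutator G ↔ ∃ a, ι a = g
  conj : ∀ g a, g * ι a * g⁻¹ = ι (act g a)

theorem exists_md (hc : ∀ a ∈ commutator G, ∀ b ∈ commutator G, Commute a b) :
    ∃ (A : Type u) (_ : AddCommGroup A), Nonempty (Md G A) := by
  letI : CommGroup (commutator G) :=
    { (inferInstance : Group (commutator G)) with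
      mul_comm := fun a b => Subtype.ext (hc a a.2 b b.2).eq }
  refine ⟨Additive (commutator G), inferInstance, ⟨⟨fun a => (a.toMul : commutator G),
    fun g => MonoidHom.toAdditive (MulAut.conjNormal (H := commutator G) g).toMonoidHom,
    fun _ _ => rfl, fun a b e => Additive.toMul.injective (Subtype.ext e),
    fun g => ⟨fun hg => ⟨Additive.ofMul ⟨g, hg⟩, rfl⟩, ?_⟩, fun _ _ => rfl⟩⟩⟩
  rintro ⟨a, rfl⟩
  exact a.toMul.2

namespace Md

variable {A : Type u} [AddCommGroup A] (D : Md G A)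

theorem ι_zero : D.ι 0 = 1 := by
  have := D.ι_add 0 0
  rw [add_zero] at this
  exact left_eq_mul.1 this

/-- The embedding as a homomorphism. -/
def hom : Multiplicative A →* G where
  toFun a := D.ι a.toAdd
  map_one' := D.ι_zero
  map_mul' _ _ := D.ι_add _ _

theorem ι_neg (a : A) : D.ι (-a) = (D.ι a)⁻¹ := map_inv D.hom (Multiplicative.ofAdd a)

theorem ι_sub (a b : A) : D.ι (a - b) = D.ι a * (D.ι b)⁻¹ := by
  rw [sub_eq_add_neg, D.ι_add, D.ι_neg]

theorem ι_zsmul (k : ℤ) (a : A) : D.ι (k • a) = D.ι a ^ k :=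
  map_zpow D.hom (Multiplicative.ofAdd a) k

theorem ι_nsmul (k : ℕ) (a : A) : D.ι (k • a) = D.ι a ^ k :=
  map_pow D.hom (Multiplicative.ofAdd a) k

theorem ι_mem (a : A) : D.ι a ∈ commutator G := (D.mem _).2 ⟨a, rfl⟩

theorem ι_eq_one {a : A} : D.ι a = 1 ↔ a = 0 := by rw [← D.ι_zero, D.inj.eq_iff]

theorem ι_pow_eq_one {a : A} {n : ℕ} : D.ι a ^ n = 1 ↔ n • a = 0 := by
  rw [← D.ι_nsmul, D.ι_eq_one]

theorem mul_ι (g : G) (a : A) : g * D.ι a = D.ι (D.act g a) * g := by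
  rw [← D.conj]; simp

theorem act_mul (g k : G) (a : A) : D.act (g * k) a = D.act g (D.act k a) :=
  D.inj (by rw [← D.conj, ← D.conj, ← D.conj]; group)

theorem act_one (a : A) : D.act 1 a = a := D.inj (by rw [← D.conj]; group)

theorem act_eq_iff {g : G} {a : A} : D.act g a = a ↔ Commute g (D.ι a) := by
  rw [← D.inj.eq_iff, ← D.conj, conj_eq_iff_commute]

theorem act_W {g : G} (hg : g ∈ commutator G) (a : A) : D.act g a = a := by
  obtain ⟨b, rfl⟩ := (D.mem g).1 hg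
  rw [D.act_eq_iff, Commute, SemiconjBy, ← D.ι_add, ← D.ι_add, add_comm]

theorem act_comm (g k : G) (a : A) : D.act g (D.act k a) = D.act k (D.act g a) := by
  rw [← D.act_mul, ← D.act_mul, show g * k = ⁅g, k⁆ * (k * g) by
    simp [commutatorElement_def], D.act_mul, D.act_W (comm_mem_W g k)]

theorem act_sq (g : G) (a : A) : D.act (g ^ 2) a = D.act g (D.act g a) := by
  rw [sq, D.act_mul]

/-- The operator `a ↦ [g, a]`. -/
def N (g : G) : A →+ A := D.act g - AddMonoidHom.id A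

theorem N_apply (g : G) (a : A) : D.N g a = D.act g a - a := rfl

theorem act_eq (g : G) (a : A) : D.act g a = a + D.N g a := by rw [N_apply]; abel

theorem ι_N (g : G) (a : A) : D.ι (D.N g a) = ⁅g, D.ι a⁆ := by
  rw [N_apply, D.ι_sub, ← D.conj, commutatorElement_def]

theorem act_N (g k : G) (a : A) : D.act g (D.N k a) = D.N k (D.act g a) := by
  rw [N_apply, N_apply, map_sub, D.act_comm]

/-- The additive subgroup corresponding to a subgroup of `G`. -/
def sub (K : Subgroup G) : AddSubgroup A where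
  carrier := {a | D.ι a ∈ K}
  zero_mem' := by simp [D.ι_zero]
  add_mem' ha hb := by simpa [D.ι_add] using K.mul_mem ha hb
  neg_mem' ha := by simpa [D.ι_neg] using ha

theorem mem_sub {K : Subgroup G} {a : A} : a ∈ D.sub K ↔ D.ι a ∈ K := Iff.rfl

/-- The subgroup of `G` corresponding to an additive subgroup. -/
def up (U : AddSubgroup A) : Subgroup G := (AddSubgroup.toSubgroup U).map D.hom

theorem ι_mem_up {U : AddSubgroup A} {a : A} : D.ι a ∈ D.up U ↔ a ∈ U :=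
  ⟨fun ⟨b, hb, e⟩ => D.inj e ▸ hb, fun h => ⟨Multiplicative.ofAdd a, h, rfl⟩⟩

theorem exists_of_mem_up {U : AddSubgroup A} {g : G} (h : g ∈ D.up U) : ∃ a ∈ U, D.ι a = g :=
  let ⟨b, hb, e⟩ := h; ⟨b.toAdd, hb, e⟩

theorem act_mem_sub {K : Subgroup G} [hK : K.Normal] {a : A} (ha : a ∈ D.sub K) (g : G) :
    D.act g a ∈ D.sub K := by
  rw [mem_sub, ← D.conj]; exact hK.conj_mem _ ha g

theorem two_mem (a : A) : (2 : ℤ) • a ∈ D.sub (W1 G) := by
  rw [mem_sub, D.ι_zsmul]; exact_mod_cast sq_mem_W1 (D.ι_mem a)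

theorem N_mem (g : G) (a : A) : D.N g a ∈ D.sub (W1 G) := by
  rw [mem_sub, D.ι_N]; exact comm_mem_W1' (D.ι_mem a) g

theorem eq_top_of_gen [Finite G] {a b : G} (h : zpowers a ⊔ zpowers b = ⊤) {U : AddSubgroup A}
    (ha : ∀ z ∈ U, D.act a z ∈ U) (hb : ∀ z ∈ U, D.act b z ∈ U) {c : A} (hc : D.ι c = ⁅a, b⁆)
    (hU : c ∈ U) (z : A) : z ∈ U := by
  have key : ∀ g, (∀ z ∈ U, D.act g z ∈ U) → ∀ x ∈ D.up U, g * x * g⁻¹ ∈ D.up U := fun g hg x hx => by
    obtain ⟨z, hz, rfl⟩ := D.exists_of_mem_up hx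
    rw [D.conj]; exact D.ι_mem_up.2 (hg z hz)
  haveI : (D.up U).Normal := normal_of_gen (B := ⊥) (a := a) (b := b)
    (by rw [sup_bot_eq, sup_comm, h]) (key a ha) (key b hb)
    fun z hz x hx => by simpa [mem_bot.1 hz] using hx
  exact D.ι_mem_up.1 (commutator_le_of_gen (hc ▸ D.ι_mem_up.2 hU) h (D.ι_mem z))

section PGroup

variable [Finite G] (hG : IsPGroup 2 G)
include D hG

theorem mem_of_odd {k : ℤ} (hk : Odd k) {a : A} {U : AddSubgroup A} (h : k • a ∈ U) : a ∈ U := by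
  rw [← D.ι_mem_up] at h ⊢
  exact mem_of_zpow_odd hG hk (by rwa [← D.ι_zsmul])

theorem eq_zero_of_odd {k : ℤ} (hk : Odd k) {a : A} (h : k • a = 0) : a = 0 :=
  AddSubgroup.mem_bot.1 (D.mem_of_odd hG hk (AddSubgroup.mem_bot.2 h))

theorem mem_of_two {U : AddSubgroup A} (h : ∀ a, ∃ b, a - (2 : ℤ) • b ∈ U) (a : A) : a ∈ U := by
  have key : ∀ n : ℕ, ∀ a : A, ∃ b, a - (2 : ℤ) ^ n • b ∈ U := fun n => by
    induction n with
    | zero => exact fun a => ⟨a, by simp⟩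
    | succ n ih =>
      intro a
      obtain ⟨b, hb⟩ := ih a
      obtain ⟨c, hc⟩ := h b
      refine ⟨c, ?_⟩
      have := U.add_mem hb (U.zsmul_mem hc (2 ^ n))
      convert this using 1
      rw [pow_succ, mul_smul, smul_sub]; abel
  obtain ⟨n, hn⟩ := IsPGroup.iff_card.1 hG
  obtain ⟨b, hb⟩ := key n a
  have : (2 : ℤ) ^ n • b = 0 := by
    rw [← D.ι_eq_one, D.ι_zsmul]
    exact_mod_cast hn ▸ pow_card_eq_one'
  rwa [this, sub_zero] at hb

theorem exists_nil (g : G) : ∃ n : ℕ, ∀ a, (D.N g)^[n] a = 0 := by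
  haveI := hG.isNilpotent
  obtain ⟨n, hn⟩ := Subgroup.nilpotent_iff_lowerCentralSeries.1 this
  have key : ∀ (m : ℕ) a, D.ι ((D.N g)^[m] a) ∈ (⊤ : Subgroup G).lowerCentralSeries m := by
    intro m a
    induction m with
    | zero => trivial
    | succ m ih =>
      rw [Function.iterate_succ_apply', D.ι_N, ← commutatorElement_inv]
      exact inv_mem (commutator_mem_commutator ih (mem_top g))
  exact ⟨n, fun a => D.ι_eq_one.1 (mem_bot.1 (hn ▸ key n a))⟩

theorem N_mem_of {g : G} {U : AddSubgroup A} (hU : ∀ a ∈ U, D.N g a ∈ U)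
    (h : ∀ a, ∃ c, D.N g a - D.N g (D.N g c) ∈ U) (a : A) : D.N g a ∈ U := by
  have hU' : ∀ n : ℕ, ∀ a ∈ U, (D.N g)^[n] a ∈ U := fun n a ha =>
    Function.Iterate.rec (fun a => a ∈ U) ha hU n
  have key : ∀ n : ℕ, ∃ c, D.N g a - (D.N g)^[n] (D.N g c) ∈ U := fun n => by
    induction n with
    | zero => exact ⟨a, by simp⟩
    | succ n ih =>
      obtain ⟨b, hb⟩ := ih
      obtain ⟨c, hc⟩ := h b
      refine ⟨c, ?_⟩
      have := U.add_mem hb (hU' n _ hc)
      rwa [iterate_map_sub, sub_add_sub_cancel] at this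
  obtain ⟨n, hn⟩ := D.exists_nil hG g
  obtain ⟨c, hc⟩ := key n
  rwa [hn, sub_zero] at hc

theorem exists_even {g : G} {v : A} {m : ℤ} (h : D.N g v = m • v) :
    ∃ m : ℤ, D.N g v = (2 * m) • v := by
  rcases Int.even_or_odd' m with ⟨k, rfl | rfl⟩
  · exact ⟨k, h⟩
  · obtain ⟨n, hn⟩ := D.exists_nil hG g
    have key : ∀ n : ℕ, (D.N g)^[n] v = (2 * k + 1) ^ n • v := fun n => by
      induction n with
      | zero => simp
      | succ n ih => rw [Function.iterate_succ_apply', ih, map_zsmul, h, pow_succ, mul_smul]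
    have : v = 0 := D.eq_zero_of_odd hG (Odd.pow ⟨k, rfl⟩) (key n ▸ hn v)
    exact ⟨0, by simp [this]⟩

end PGroup

section BC

variable [Finite G] {x y : G} (h : BC x y) {w : A} (hw : D.ι w = x ^ 2 * (y ^ 2)⁻¹)
include h hw

theorem w_not_mem : w ∉ D.sub (W1 G) := fun e => h.wn (hw ▸ e)

theorem exists_wy' (a : A) : ∃ (k : ℤ) (e b c : A), D.ι e ∈ zpowers y ∧
    a = k • w + e + (2 : ℤ) • b + D.N y (D.N y c) := by
  have key : ∀ k : ℕ, ∃ s b c : A, D.ι s = x ^ (2 * k) * (y ^ (2 * k))⁻¹ ∧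
      s = (k : ℤ) • w + (2 : ℤ) • b + D.N y (D.N y c) := fun k => by
    induction k with
    | zero => exact ⟨0, 0, 0, by simp [D.ι_zero], by simp⟩
    | succ k ih =>
      obtain ⟨s, b, c, h1, h2⟩ := ih
      refine ⟨w + D.act (y ^ 2) s, b + D.N y s, c + s, ?_, ?_⟩
      · rw [D.ι_add, ← D.conj, hw, h1]; group
      · simp only [D.act_sq, D.act_eq y, map_add]
        nth_rw 1 [h2]
        push_cast
        module
  obtain ⟨i, j, e⟩ := h.gen (D.ι a)
  obtain ⟨n, hn⟩ := mem_powers_iff_mem_zpowers.2 (zpow_mem_zpowers x i)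
  simp only at hn
  rw [← hn] at e
  have hy : ∀ j : ℤ, y ^ j ∈ Mk y 1 := fun j => zpow_mem (by simpa using pow_mem_Mk y 1) j
  obtain ⟨k, rfl⟩ : ∃ k, n = 2 * k := by
    rcases Nat.even_or_odd' n with ⟨k, rfl | rfl⟩
    · exact ⟨k, rfl⟩
    · refine absurd (mem_of_zpow_odd h.hG (i := (2 * k + 1 : ℕ)) ⟨k, by push_cast; rfl⟩ ?_)
        h.x_not_mem
      rw [zpow_natCast, ← mul_inv_cancel_right (x ^ (2 * k + 1)) (y ^ j), ← e]
      exact mul_mem (W_le_Mk y 1 (D.ι_mem a)) (inv_mem (hy j))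
  obtain ⟨s, b, c, h1, h2⟩ := key k
  refine ⟨k, -s + a, b, c, ?_, by rw [h2]; abel⟩
  rw [D.ι_add, D.ι_neg, h1, e]
  simpa [mul_assoc] using mul_mem (pow_mem (mem_zpowers y) (2 * k)) (zpow_mem_zpowers y j)

omit hw in
theorem N_eq_zero {e : A} (he : D.ι e ∈ zpowers y) : D.N y e = 0 := by
  obtain ⟨k, hk⟩ := he
  rw [N_apply, sub_eq_zero, D.act_eq_iff, ← hk]
  exact (Commute.refl y).zpow_right k

theorem exists_wy (a : A) : ∃ (k : ℤ) (e : A), D.ι e ∈ zpowers y ∧ a = k • w + e := by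
  let U : AddSubgroup A := D.sub (zpowers y) ⊔ (zsmulAddGroupHom 2).range
  have hU : ∀ e b, D.ι e ∈ zpowers y → e + (2 : ℤ) • b ∈ U := fun e b he =>
    AddSubgroup.add_mem_sup he ⟨b, rfl⟩
  have hN : ∀ a ∈ U, D.N y a ∈ U := fun a ha => by
    obtain ⟨e, he, _, ⟨b, rfl⟩, rfl⟩ := AddSubgroup.mem_sup.1 ha
    rw [map_add, D.N_eq_zero h he, zsmulAddGroupHom_apply, map_zsmul]
    exact hU 0 _ (D.ι_zero ▸ one_mem _)
  obtain ⟨k, e, b, c, he, e1⟩ := D.exists_wy' h hw (D.N y w)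
  obtain ⟨k, rfl⟩ : ∃ l, k = 2 * l := by
    rcases Int.even_or_odd' k with ⟨l, rfl | rfl⟩
    · exact ⟨l, rfl⟩
    · refine absurd (D.mem_of_odd h.hG ⟨l, rfl⟩ ?_) (D.w_not_mem h hw)
      have : (2 * l + 1) • w = D.N y w - e - (2 : ℤ) • b - D.N y (D.N y c) := by rw [e1]; abel
      rw [this]
      exact sub_mem (sub_mem (sub_mem (D.N_mem _ _) (h.mem_W1_y he (D.ι_mem e))) (D.two_mem b))
        (D.N_mem _ _)
  have key := D.N_mem_of h.hG hN fun a => by
    obtain ⟨k', e', b', c', he', e2⟩ := D.exists_wy' h hw a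
    refine ⟨k' • c + D.N y c', ?_⟩
    have := U.add_mem (U.zsmul_mem (hU e (k • w + b) he) k') (hU 0 (D.N y b') (D.ι_zero ▸ one_mem _))
    convert this using 1
    rw [e2]
    simp only [map_add, map_zsmul, D.N_eq_zero h he']
    rw [e1]
    module
  have h2 : a ∈ AddSubgroup.zmultiples w ⊔ D.sub (zpowers y) := D.mem_of_two h.hG (fun a => by
    obtain ⟨k', e', b', c', he', e2⟩ := D.exists_wy' h hw a
    obtain ⟨e, he, _, ⟨b, rfl⟩, e3⟩ := AddSubgroup.mem_sup.1 (key (D.N y c'))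
    refine ⟨b' + b, ?_⟩
    have := AddSubgroup.add_mem_sup (AddSubgroup.zsmul_mem_zmultiples w k') (add_mem he' he)
    convert this using 1
    rw [e2, ← e3, zsmulAddGroupHom_apply]
    module) a
  obtain ⟨_, ⟨k, rfl⟩, e, he, rfl⟩ := AddSubgroup.mem_sup.1 h2
  exact ⟨k, e, he, rfl⟩

theorem exists_N (a : A) : ∃ k : ℤ, D.N y a = k • D.N y w := by
  obtain ⟨k, e, he, rfl⟩ := D.exists_wy h hw a
  exact ⟨k, by rw [map_add, map_zsmul, D.N_eq_zero h he, add_zero]⟩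

theorem exists_NN : ∃ m : ℤ, ∀ a, D.N y (D.N y a) = (2 * m) • D.N y a := by
  obtain ⟨m, hm⟩ := D.exists_N h hw (D.N y w)
  obtain ⟨m, hm⟩ := D.exists_even h.hG hm
  refine ⟨m, fun a => ?_⟩
  obtain ⟨k, hk⟩ := D.exists_N h hw a
  rw [hk, map_zsmul, hm, smul_comm]

omit hw in
theorem exists_phi {a : G} (ha : a ∉ Mk y 1) (ha2 : a ^ 2 ∈ commutator G) (z : A) :
    ∃ b ∈ D.sub (W1 G), D.act a z + z = D.N y b ∧ (Commute (a ^ 2) y → D.act a z + z = 0) := by
  obtain ⟨c, hc⟩ := (D.mem _).1 (comm_mem_W a y)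
  obtain ⟨s, hs⟩ := (D.mem _).1 ha2
  have hs1 : s ∈ D.sub (W1 G) := by rw [mem_sub, hs]; exact h.sq_mem_W1' ha ha2
  have e : D.act a c + c = D.N y (-s) := D.inj (by
    rw [D.ι_add, ← D.conj, D.ι_N, D.ι_neg, hc, hs, commutatorElement_def, commutatorElement_def,
      inv_inv, (h.comm_W (normal_of_commutator_le' le_rfl |>.conj_mem _ (inv_mem ha2) y) ha2).eq]
    simp only [sq]; group)
  let U : AddSubgroup A :=
    { carrier := {z | ∃ b ∈ D.sub (W1 G), D.act a z + z = D.N y b ∧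
        (Commute (a ^ 2) y → D.act a z + z = 0)}
      zero_mem' := ⟨0, zero_mem _, by simp, by simp⟩
      add_mem' := by
        rintro z z' ⟨b, hb, e1, e2⟩ ⟨b', hb', e1', e2'⟩
        refine ⟨b + b', add_mem hb hb', by rw [map_add, map_add, ← e1, ← e1']; abel, fun hc => ?_⟩
        rw [map_add, add_add_add_comm, e2 hc, e2' hc, add_zero]
      neg_mem' := by
        rintro z ⟨b, hb, e1, e2⟩
        exact ⟨-b, neg_mem hb, by rw [map_neg, map_neg, ← e1, neg_add],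
          fun hc => by rw [map_neg, ← neg_add, e2 hc, neg_zero]⟩ }
  have key : ∀ g, ∀ z ∈ U, D.act g z ∈ U := by
    rintro g z ⟨b, hb, e1, e2⟩
    exact ⟨D.act g b, D.act_mem_sub hb g, by rw [D.act_comm, ← map_add, e1, D.act_N],
      fun hc => by rw [D.act_comm, ← map_add, e2 hc, map_zero]⟩
  refine D.eq_top_of_gen (h.gen_of_not_mem ha) (U := U) (key a) (key y) hc
    ⟨-s, neg_mem hs1, e, fun hc => ?_⟩ z
  rw [e, map_neg, N_apply, D.act_eq_iff.2 (hs ▸ hc.symm), sub_self, neg_zero]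

theorem mem_W1_iff {a : A} :
    a ∈ D.sub (W1 G) ↔ ∃ (b : A) (k : ℤ), a = (2 : ℤ) • b + k • D.N y w := by
  refine ⟨fun ha => ?_, ?_⟩
  swap
  · rintro ⟨b, k, rfl⟩
    exact add_mem (D.two_mem b) (AddSubgroup.zsmul_mem _ (D.N_mem _ _) k)
  let U : AddSubgroup A := (zsmulAddGroupHom 2).range ⊔ AddSubgroup.zmultiples (D.N y w)
  have hU : ∀ b a, (2 : ℤ) • b + D.N y a ∈ U := fun b a => by
    obtain ⟨k, hk⟩ := D.exists_N h hw a
    exact AddSubgroup.add_mem_sup ⟨b, rfl⟩ ⟨k, hk.symm⟩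
  let K : Subgroup G :=
    { carrier := {g | ∀ z, D.N g z ∈ U}
      one_mem' := fun z => by simp [N_apply, D.act_one]
      mul_mem' := fun {g k} hg hk z => by
        have := add_mem (hg (D.act k z)) (hk z)
        rwa [N_apply, N_apply, sub_add_sub_cancel, ← D.act_mul] at this
      inv_mem' := fun {g} hg z => by
        have := neg_mem (hg (D.act g⁻¹ z))
        rwa [N_apply, ← D.act_mul, mul_inv_cancel, D.act_one, neg_sub] at this }
  have hK : ∀ g, g ∈ K := fun g => (h.gen_of_not_mem h.u_not_mem).ge.trans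
    (sup_le (zpowers_le.2 fun z => by
      obtain ⟨b, -, e, -⟩ := D.exists_phi h h.u_not_mem h.u_sq_mem z
      convert hU (-z) b using 1
      rw [← e, N_apply]; module) (zpowers_le.2 fun z => by simpa using hU 0 z)) (mem_top g)
  have h1 : W1 G ≤ D.up U := sup_le (mho_le_iff.2 fun g hg => by
      obtain ⟨b, rfl⟩ := (D.mem g).1 hg
      rw [← D.ι_nsmul, D.ι_mem_up]
      simpa [two_smul] using hU b 0)
    (commutator_le.2 fun g hg k _ => by
      obtain ⟨b, rfl⟩ := (D.mem g).1 hg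
      rw [← commutatorElement_inv, ← D.ι_N]
      exact inv_mem (D.ι_mem_up.2 (hK k b)))
  obtain ⟨_, ⟨b, rfl⟩, _, ⟨k, rfl⟩, e⟩ := AddSubgroup.mem_sup.1 (D.ι_mem_up.1 (h1 ha))
  exact ⟨b, k, e.symm⟩

omit hw in
theorem sub_mem_W1 {a b : A} (ha : a ∉ D.sub (W1 G)) (hb : b ∉ D.sub (W1 G)) :
    a - b ∈ D.sub (W1 G) := by
  have := inv_mul_mem_W1 h.top (D.ι_mem b) (D.ι_mem a) hb ha
  rwa [← D.ι_neg, ← D.ι_add, neg_add_eq_sub] at this

theorem N_of_mem {b : A} (hb : b ∈ D.sub (W1 G)) : ∃ k : ℤ, D.N y b = (2 * k) • D.N y w := by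
  obtain ⟨b, k, rfl⟩ := (D.mem_W1_iff h hw).1 hb
  obtain ⟨l, hl⟩ := D.exists_N h hw b
  obtain ⟨m, hm⟩ := D.exists_NN h hw
  exact ⟨l + k * m, by rw [map_add, map_zsmul, map_zsmul, hl, hm]; module⟩

theorem N_of_not_mem {b : A} (hb : b ∉ D.sub (W1 G)) :
    ∃ k : ℤ, D.N y b = (2 * k + 1) • D.N y w := by
  obtain ⟨k, hk⟩ := D.N_of_mem h hw (D.sub_mem_W1 h hb (D.w_not_mem h hw))
  exact ⟨k, by rw [map_sub, sub_eq_iff_eq_add] at hk; rw [hk]; module⟩

section Inv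

variable {a : G} (ha : a ∉ Mk y 1) (ha2 : a ^ 2 ∈ commutator G)
include ha ha2

theorem exists_phi' (z : A) : ∃ k : ℤ, D.act a z + z = (2 * k) • D.N y w := by
  obtain ⟨b, hb, e, -⟩ := D.exists_phi h ha ha2 z
  exact e ▸ D.N_of_mem h hw hb

theorem two_phi (z : A) : (2 : ℤ) • (D.act a z + z) = 0 := by
  obtain ⟨k, hk⟩ := D.exists_phi' h hw ha ha2 w
  obtain ⟨l, hl⟩ := D.exists_phi' h hw ha ha2 z
  obtain ⟨m, hm⟩ := D.exists_NN h hw
  have h1 : D.act a (D.N y w) = (4 * k * m - 1) • D.N y w := by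
    have := congrArg (D.N y) hk
    rw [map_add, ← D.act_N, map_zsmul, hm, ← eq_sub_iff_add_eq] at this
    rw [this]; module
  have h2 : D.act a (D.act a z + z) = D.act a z + z := by
    rw [map_add, ← D.act_sq, D.act_W ha2, add_comm]
  rw [hl, map_zsmul, h1] at h2
  refine D.eq_zero_of_odd h.hG (k := 2 * (k * m) - 1) ⟨k * m - 1, by ring⟩ ?_
  rw [hl, ← sub_eq_zero.2 h2]
  module

theorem act_of_mem {z : A} (hz : z ∈ D.sub (W1 G)) : D.act a z = -z := by
  obtain ⟨b, k, rfl⟩ := (D.mem_W1_iff h hw).1 hz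
  obtain ⟨l, hl⟩ := D.exists_phi' h hw ha ha2 w
  obtain ⟨m, hm⟩ := D.exists_NN h hw
  have h1 : D.act a (D.N y w) + D.N y w = m • (2 : ℤ) • (D.act a w + w) := by
    rw [D.act_N, ← map_add, hl, map_zsmul, hm]; module
  rw [D.two_phi h hw ha ha2, smul_zero] at h1
  have h2 := D.two_phi h hw ha ha2 b
  rw [← add_eq_zero_iff_eq_neg, map_add, map_zsmul, map_zsmul, ← zero_add 0]
  nth_rw 1 [← h2]
  rw [← smul_zero k, ← h1]
  module

omit ha ha2 in
theorem two_v_eq_zero {e : A} (he : e ∉ D.sub (W1 G)) (he2 : (2 : ℤ) • e = 0) :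
    (2 : ℤ) • D.N y w = 0 := by
  obtain ⟨k, hk⟩ := D.N_of_not_mem h hw he
  refine D.eq_zero_of_odd h.hG (k := 2 * k + 1) ⟨k, rfl⟩ ?_
  rw [smul_comm, ← hk, ← map_zsmul, he2, map_zero]

theorem act_eq_iff_two {z : A} : D.act a z = z ↔ (2 : ℤ) • z = 0 := by
  obtain ⟨k, hk⟩ := D.exists_phi' h hw ha ha2 z
  by_cases hz : z ∈ D.sub (W1 G)
  · rw [D.act_of_mem h hw ha ha2 hz, two_smul, neg_eq_iff_add_eq_zero]
  refine ⟨fun e => ?_, fun e => ?_⟩
  · rw [e] at hk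
    have h1 : (2 : ℤ) • (z - k • D.N y w) = 0 := by rw [smul_sub, two_smul, hk]; module
    have h2 := D.two_v_eq_zero h hw (fun e => hz (by
      simpa using add_mem e (AddSubgroup.zsmul_mem _ (D.N_mem y w) k))) h1
    rw [two_smul, hk, mul_comm, mul_smul, h2, smul_zero]
  · rw [mul_comm, mul_smul, D.two_v_eq_zero h hw hz e, smul_zero, ← e, two_smul] at hk
    exact add_right_cancel hk

theorem exists_sub_act (b : A) : ∃ z, z - D.act a z = (2 : ℤ) • b := by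
  obtain ⟨k, hk⟩ := D.exists_phi' h hw ha ha2 b
  refine ⟨b + k • D.N y w, ?_⟩
  rw [map_add, D.act_of_mem h hw ha ha2 (AddSubgroup.zsmul_mem _ (D.N_mem y w) k),
    eq_sub_of_add_eq hk]
  module

theorem exists_conj (z : A) : ∃ s, s * a * s⁻¹ = D.ι z * a := by
  obtain ⟨c, hc⟩ := (D.mem _).1 (comm_mem_W a y)
  have hc1 : c ∉ D.sub (W1 G) := by
    rw [mem_sub, hc]; exact comm_not_mem_W1 h.hG h.nm (h.gen_of_not_mem ha)
  have h1 : ∀ z b, (∃ s, s * a * s⁻¹ = D.ι z * a) →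
      ∃ s, s * a * s⁻¹ = D.ι (z + (2 : ℤ) • b) * a := by
    rintro z b ⟨s, hs⟩
    obtain ⟨t, ht⟩ := D.exists_sub_act h hw ha ha2 b
    refine ⟨D.ι t * s, ?_⟩
    calc D.ι t * s * a * (D.ι t * s)⁻¹ = D.ι t * (s * a * s⁻¹) * (D.ι t)⁻¹ := by group
      _ = D.ι t * D.ι z * (a * D.ι (-t)) := by rw [hs, D.ι_neg]; group
      _ = _ := by
        rw [D.mul_ι a, ← mul_assoc, ← D.ι_add, ← D.ι_add, ← ht, map_neg]; congr 2; abel
  have h2 : ∀ z, (∃ s, s * a * s⁻¹ = D.ι z * a) →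
      ∃ s, s * a * s⁻¹ = D.ι (D.act y z - c) * a := by
    rintro z ⟨s, hs⟩
    refine ⟨y * s, ?_⟩
    calc y * s * a * (y * s)⁻¹ = y * (s * a * s⁻¹) * y⁻¹ := by group
      _ = _ := by rw [hs, D.ι_sub, ← D.conj, hc, commutatorElement_def]; group
  have h3 := h2 0 ⟨1, by simp [D.ι_zero]⟩
  rw [map_zero, zero_sub] at h3
  have h4 := h2 _ h3
  have h5 := h2 _ h4
  obtain ⟨j, hj⟩ := D.N_of_not_mem h hw hc1
  obtain ⟨m, hm⟩ := D.exists_NN h hw
  simp only [D.act_eq y, map_sub, map_add, map_neg, hj, map_zsmul, hm] at h4 h5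
  by_cases hz : z ∈ D.sub (W1 G)
  · obtain ⟨b, k, rfl⟩ := (D.mem_W1_iff h hw).1 hz
    rcases Int.even_or_odd' k with ⟨k, rfl | rfl⟩
    · convert h1 0 (b + k • D.N y w) ⟨1, by simp [D.ι_zero]⟩ using 5
      module
    · convert h1 _ (b + c + (k + j + 1) • D.N y w) h4 using 5
      module
  · obtain ⟨b, k, e⟩ := (D.mem_W1_iff h hw).1 (D.sub_mem_W1 h hz hc1)
    rw [sub_eq_iff_eq_add] at e
    rcases Int.even_or_odd' k with ⟨k, rfl | rfl⟩
    · convert h1 _ (b + c + k • D.N y w) h3 using 5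
      rw [e]; module
    · convert h1 _ (b + (2 : ℤ) • c + (k + 3 * j + 2 + (2 * j + 1) * m) • D.N y w) h5 using 5
      rw [e]; module

end Inv

theorem act_sq_of_two {e : A} (he : (2 : ℤ) • e = 0) : D.act (y ^ 2) e = e := by
  obtain ⟨m, hm⟩ := D.exists_NN h hw
  have : D.act (y ^ 2) e = e + (m + 1) • D.N y ((2 : ℤ) • e) := by
    simp only [D.act_sq, D.act_eq y, map_add, hm, map_zsmul]; module
  rw [this, he, map_zero, smul_zero, add_zero]

theorem act_four_of_four {d : A} (hd : (4 : ℤ) • d = 0) : D.act (y ^ 4) d = d := by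
  obtain ⟨m, hm⟩ := D.exists_NN h hw
  have : D.act (y ^ 4) d = d + ((m + 1) * (1 + 2 * m + 2 * m ^ 2)) • D.N y ((4 : ℤ) • d) := by
    rw [show y ^ 4 = (y ^ 2) ^ 2 by rw [← pow_mul]]
    simp only [D.act_sq, D.act_eq y, map_add, hm, map_zsmul]; module
  rw [this, hd, map_zero, smul_zero, add_zero]

theorem exists_act_sq (z : A) : ∃ b, D.act (y ^ 2) z = z + (2 : ℤ) • b := by
  obtain ⟨m, hm⟩ := D.exists_NN h hw
  exact ⟨(m + 1) • D.N y z, by simp only [D.act_sq, D.act_eq y, map_add, hm]; module⟩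

end BC

end Md

end Cfsg.Agent.Bic
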