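import Cfsg.Agent.Lib.Bic.Mod

/-!
Structure of non-metacyclic bicyclic `2`-groups.
-/

set_option autoImplicit false
set_option linter.style.haveILetI false
set_option linter.unusedVariables false
set_option linter.unusedSectionVars false

namespace Cfsg.Agent.Bic

open Subgroup Cfsg.Agent.Ess
open Cfsg.Agent.Fus2 (HomOn img)
open scoped commutatorElement

universe u

variable {G : Type u} [Group G]

theorem relIndex_ne_zero' [Finite G] {H K : Subgroup G} : H.relIndex K ≠ 0 :=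
  index_ne_zero_of_finite

theorem card_omZ_eq [Finite G] {K : Subgroup G} (hc : ∀ a ∈ K, ∀ b ∈ K, Commute a b) :
    Nat.card (omZ 2 K) = (mho 2 K).relIndex K := by
  have hf : HomOn K fun a => a ^ 2 := fun a ha b hb => (hc a ha b hb).mul_pow 2
  have h1 : (omZ 2 K).relIndex K = Nat.card (mho 2 K) := by
    have : img K (fun a => a ^ 2) = mho 2 K := by
      ext g; rw [hf.mem_img, mem_mho_iff_of_comm hc]
    rw [← this, hf.img_eq_range, ← index_ker, Subgroup.relIndex]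
    congr 1
    ext b
    exact ⟨fun h => h.2.1, fun h => ⟨b.2, h, hc b b.2⟩⟩
  have h2 := Fit.card_mul_relIndex (omZ_le : omZ 2 K ≤ K)
  rw [h1, ← Fit.card_mul_relIndex (mho_le : mho 2 K ≤ K), mul_comm] at h2
  exact Nat.eq_of_mul_eq_mul_left Nat.card_pos h2

namespace BC

variable [Finite G] {x y : G} (h : BC x y)
include h

theorem exists_D : ∃ (A : Type u) (_ : AddCommGroup A) (D : Md G A) (w : A),
    D.ι w = x ^ 2 * (y ^ 2)⁻¹ := by
  obtain ⟨A, _, ⟨D⟩⟩ := exists_md (G := G) fun a ha b hb => h.comm_W ha hb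
  obtain ⟨w, hw⟩ := (D.mem _).1 h.wW
  exact ⟨A, _, D, w, hw⟩

theorem mem_E {e : G} : e ∈ omZ 2 (commutator G) ↔ e ∈ commutator G ∧ e ^ 2 = 1 :=
  ⟨fun he => ⟨he.1, he.2.1⟩, fun he => ⟨he.1, he.2, fun _ hb => h.comm_W he.1 hb⟩⟩

theorem commute_of_Mk {n : ℤ} {g d : G} (hg : g ∈ Mk y n) (hd : d ∈ commutator G)
    (e : Commute (y ^ n) d) : Commute g d := by
  obtain ⟨k, w, hw, rfl⟩ := mem_Mk'.1 hg
  rw [zpow_mul]
  exact (h.comm_W hw hd).mul_left (e.zpow_left k)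

theorem commute_E {g e : G} (hg : g ∈ Mk y 2) (he : e ∈ commutator G) (he2 : e ^ 2 = 1) :
    Commute g e := by
  obtain ⟨A, _, D, w, hw⟩ := h.exists_D
  refine h.commute_of_Mk hg he ?_
  obtain ⟨e, rfl⟩ := (D.mem _).1 he
  rw [zpow_ofNat, ← D.act_eq_iff]
  exact D.act_sq_of_two h hw (by exact_mod_cast D.ι_pow_eq_one.1 he2)

theorem commute_four {g d : G} (hg : g ∈ Mk y 4) (hd : d ∈ commutator G) (hd4 : d ^ 4 = 1) :
    Commute g d := by
  obtain ⟨A, _, D, w, hw⟩ := h.exists_D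
  refine h.commute_of_Mk hg hd ?_
  obtain ⟨e, rfl⟩ := (D.mem _).1 hd
  rw [zpow_ofNat, ← D.act_eq_iff]
  exact D.act_four_of_four h hw (by exact_mod_cast D.ι_pow_eq_one.1 hd4)

section Inv

variable {a : G} (ha : a ∉ Mk y 1) (ha2 : a ^ 2 ∈ commutator G)
include ha ha2

theorem inv_W1 {z : G} (hz : z ∈ W1 G) : a * z * a⁻¹ = z⁻¹ := by
  obtain ⟨A, _, D, w, hw⟩ := h.exists_D
  obtain ⟨z, rfl⟩ := (D.mem _).1 (W1_le hz)
  rw [D.conj, D.act_of_mem h hw ha ha2 hz, D.ι_neg]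

theorem sq_sq : (a ^ 2) ^ 2 = 1 := by
  have := h.inv_W1 ha ha2 (h.sq_mem_W1' ha ha2)
  rw [((Commute.refl a).pow_right 2).eq, mul_inv_cancel_right] at this
  rw [sq (a ^ 2)]
  exact mul_eq_one_iff_eq_inv.2 this

theorem inv_W (hc : Commute (a ^ 2) y) {z : G} (hz : z ∈ commutator G) : a * z * a⁻¹ = z⁻¹ := by
  obtain ⟨A, _, D, w, hw⟩ := h.exists_D
  obtain ⟨z, rfl⟩ := (D.mem _).1 hz
  obtain ⟨-, -, -, e⟩ := D.exists_phi h ha ha2 z
  rw [D.conj, eq_neg_of_add_eq_zero_left (e hc), D.ι_neg]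

theorem commute_iff {z : G} (hz : z ∈ commutator G) : Commute a z ↔ z ^ 2 = 1 := by
  obtain ⟨A, _, D, w, hw⟩ := h.exists_D
  obtain ⟨z, rfl⟩ := (D.mem _).1 hz
  rw [← D.act_eq_iff, D.act_eq_iff_two h hw ha ha2, D.ι_pow_eq_one, two_smul, two_smul]

theorem exists_conj {z : G} (hz : z ∈ commutator G) : ∃ s, s * a * s⁻¹ = z * a := by
  obtain ⟨A, _, D, w, hw⟩ := h.exists_D
  obtain ⟨z, rfl⟩ := (D.mem _).1 hz
  exact D.exists_conj h hw ha ha2 z

theorem exists_genB : ∃ g ∈ Mk y 2, Commute a g ∧ ∀ b ∈ Mk y 1, Commute a b →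
    ∃ (n : ℤ) (e : G), e ∈ commutator G ∧ e ^ 2 = 1 ∧ b = e * g ^ n := by
  obtain ⟨g, hg, H⟩ := exists_gen (y := y) (K := centralizer {a} ⊓ Mk y 1) inf_le_right
  have hag : Commute a g := (mem_centralizer_singleton_iff.1 hg.1).symm
  refine ⟨g, h.mem_two_of_commute ha hg.2 hag, hag, fun b hb e => ?_⟩
  obtain ⟨n, hn⟩ := H b ⟨mem_centralizer_singleton_iff.2 e.symm.eq, hb⟩
  exact ⟨n, _, hn, (h.commute_iff ha ha2 hn).1 (e.mul_right (hag.zpow_right n).inv_right),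
    by simp⟩

theorem comm_B {b c : G} (hb : Commute a b) (hc : Commute a c) : Commute b c := by
  obtain ⟨g, hg, hag, H⟩ := h.exists_genB ha ha2
  have key : ∀ b ∈ Mk y 1, ∀ c ∈ Mk y 1, Commute a b → Commute a c → Commute b c := by
    intro b hb c hc e e'
    obtain ⟨n, k, hk, hk2, rfl⟩ := H b hb e
    obtain ⟨m, l, hl, hl2, rfl⟩ := H c hc e'
    exact ((h.comm_W hk hl).mul_right ((h.commute_E hg hk hk2).symm.zpow_right m)).mul_left
      (((h.commute_E hg hl hl2).zpow_left n).mul_right ((Commute.refl g).zpow_zpow n m))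
  have key2 : ∀ b, ∀ c ∈ Mk y 1, Commute a b → Commute a c → Commute b c := by
    intro b c hc e e'
    by_cases hb : b ∈ Mk y 1
    · exact key b hb c hc e e'
    · have := e'.mul_left (key _ (h.inv_mul_mem_of_not_mem ha hb) c hc
        ((Commute.refl a).inv_right.mul_right e) e')
      rwa [mul_inv_cancel_left] at this
  by_cases hc' : c ∈ Mk y 1
  · exact key2 b c hc' hb hc
  · have := hb.symm.mul_right (key2 b _ (h.inv_mul_mem_of_not_mem ha hc') hb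
      ((Commute.refl a).inv_right.mul_right hc))
    rwa [mul_inv_cancel_left] at this

end Inv

theorem isCyclic_of {A : Type u} [AddCommGroup A] (D : Md G A) {w : A}
    (H : ∀ a, ∃ (k : ℤ) (b : A), a = k • w + (2 : ℤ) • b) : IsCyclic (commutator G) := by
  refine ⟨⟨⟨D.ι w, D.ι_mem w⟩, fun g => ?_⟩⟩
  obtain ⟨a, ha⟩ := (D.mem _).1 g.2
  obtain ⟨k, hk⟩ := D.mem_of_two h.hG (U := AddSubgroup.zmultiples w) (fun a => by
    obtain ⟨k, b, rfl⟩ := H a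
    exact ⟨b, k, by simp⟩) a
  exact ⟨k, Subtype.ext (by simp [← ha, ← hk, D.ι_zsmul])⟩

theorem mem_mho {A : Type u} [AddCommGroup A] (D : Md G A) {a : A} :
    D.ι a ∈ mho 2 (commutator G) ↔ ∃ b, a = (2 : ℤ) • b := by
  rw [mem_mho_iff_of_comm fun a ha b hb => h.comm_W ha hb]
  constructor
  · rintro ⟨g, hg, e⟩
    obtain ⟨b, rfl⟩ := (D.mem _).1 hg
    exact ⟨b, D.inj (by rw [← e, D.ι_zsmul]; simp)⟩
  · rintro ⟨b, rfl⟩
    exact ⟨_, D.ι_mem b, by rw [D.ι_zsmul]; simp⟩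

section NonCyclic

variable (hn : ¬ IsCyclic (commutator G))
include hn

theorem exists_eta : ∃ e ∈ zpowers y, e ∈ commutator G ∧ e ∉ mho 2 (commutator G) := by
  obtain ⟨A, _, D, w, hw⟩ := h.exists_D
  by_contra hc
  push Not at hc
  refine hn (h.isCyclic_of D (w := w) fun a => ?_)
  obtain ⟨k, e, he, rfl⟩ := D.exists_wy h hw a
  obtain ⟨b, rfl⟩ := (h.mem_mho D).1 (hc _ he (D.ι_mem e))
  exact ⟨k, b, rfl⟩

theorem v_not_two {A : Type u} [AddCommGroup A] (D : Md G A) {w : A}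
    (hw : D.ι w = x ^ 2 * (y ^ 2)⁻¹) {k : ℤ} (hk : Odd k) (b : A) :
    k • D.N y w ≠ (2 : ℤ) • b := fun e => by
  obtain ⟨c, hc⟩ := D.mem_of_odd h.hG hk (U := (zsmulAddGroupHom 2).range) ⟨b, e.symm⟩
  obtain ⟨g, hg, hgW, hg'⟩ := h.exists_eta hn
  obtain ⟨g, rfl⟩ := (D.mem _).1 hgW
  obtain ⟨b, l, rfl⟩ := (D.mem_W1_iff h hw).1 (h.mem_W1_y hg hgW)
  exact hg' ((h.mem_mho D).2 ⟨b + l • c, by rw [← hc, zsmulAddGroupHom_apply]; module⟩)

theorem mem_W_of_sq {g : G} (hg : g ∈ Mk y 1) (hg2 : g ^ 2 ∈ mho 2 (commutator G)) :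
    g ∈ commutator G := by
  obtain ⟨A, _, D, w, hw⟩ := h.exists_D
  obtain ⟨j, z, hz, rfl⟩ := mem_Mk'.1 hg
  obtain ⟨z, rfl⟩ := (D.mem _).1 hz
  rw [one_mul] at hg hg2 ⊢
  by_contra hc
  have hj : y ^ j ∉ commutator G := fun e => hc (mul_mem hz e)
  have e1 : (D.ι z * y ^ j) ^ 2 = D.ι (z + D.act (y ^ j) z) * y ^ (2 * j) := by
    rw [D.ι_add, ← D.conj, sq]; group
  have hj2 : y ^ (2 * j) ∈ commutator G := by
    simpa [e1] using mul_mem (inv_mem (D.ι_mem (z + D.act (y ^ j) z))) (mho_le hg2)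
  obtain ⟨l, rfl⟩ : ∃ l, j = 2 * l := by
    rcases Int.even_or_odd' j with ⟨l, rfl | rfl⟩
    · exact ⟨l, rfl⟩
    · refine absurd (mem_of_zpow_odd h.hG ⟨l, rfl⟩ ?_) h.y_sq_not_mem
      rwa [← zpow_natCast, ← zpow_mul]
  let K : Subgroup G :=
    { carrier := {g | ∀ z, ∃ b, D.act g z = z + (2 : ℤ) • b}
      one_mem' := fun z => ⟨0, by simp [D.act_one]⟩
      mul_mem' := fun {g k} hg hk z => by
        obtain ⟨b, hb⟩ := hk z
        obtain ⟨c, hc⟩ := hg (D.act k z)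
        exact ⟨b + c, by rw [D.act_mul, hc, hb]; module⟩
      inv_mem' := fun {g} hg z => by
        obtain ⟨b, hb⟩ := hg (D.act g⁻¹ z)
        rw [← D.act_mul, mul_inv_cancel, D.act_one] at hb
        exact ⟨-b, by rw [smul_neg, ← sub_eq_add_neg, eq_sub_iff_add_eq, ← hb]⟩ }
  obtain ⟨b, hb⟩ : ∃ b, D.act (y ^ (2 * l)) z = z + (2 : ℤ) • b := by
    rw [zpow_mul]
    exact K.zpow_mem (x := y ^ (2 : ℤ)) (by rw [zpow_ofNat]; exact D.exists_act_sq h hw) l z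
  have h1 : y ^ (2 * (2 * l)) ∈ mho 2 (commutator G) := by
    have := (h.mem_mho D).2 ⟨z + b, (by rw [hb]; module : z + D.act (y ^ (2 * l)) z = _)⟩
    simpa [e1] using mul_mem (inv_mem this) hg2
  obtain ⟨r, hr⟩ := IsPGroup.iff_orderOf.1 (h.hG.of_surjective ab QuotientGroup.mk_surjective)
    (ab y)
  have hd : ∀ i : ℤ, y ^ i ∈ commutator G ↔ ((2 ^ r : ℕ) : ℤ) ∣ i := fun i => by
    rw [← ab_eq_one, map_zpow, ← hr, orderOf_dvd_iff_zpow_eq_one]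
  obtain ⟨k, hk⟩ := (hd _).1 hj2
  have hk' : Odd k := by
    by_contra hk'
    obtain ⟨m, rfl⟩ := (Int.not_odd_iff_even.1 hk').two_dvd
    exact hj ((hd _).2 ⟨m, by linarith⟩)
  obtain ⟨_, ⟨m, rfl⟩, hgW, hg'⟩ := h.exists_eta hn
  obtain ⟨m, rfl⟩ := (hd _).1 hgW
  refine hg' ?_
  simp only
  rw [zpow_mul]
  exact zpow_mem (mem_of_zpow_odd h.hG hk' (by rwa [← zpow_mul, ← hk])) m

theorem mem_W_of_sq_eq_one {g : G} (hg : g ∈ Mk y 1) (hg2 : g ^ 2 = 1) : g ∈ commutator G :=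
  h.mem_W_of_sq hn hg (hg2 ▸ one_mem _)

theorem mem_four_of_commute {a : G} (ha : a ∉ Mk y 1) (ha2 : a ^ 2 ∈ commutator G) {b : G}
    (hb : b ∈ Mk y 1) (e : Commute a b) : b ∈ Mk y 4 := by
  obtain ⟨A, _, D, w, hw⟩ := h.exists_D
  by_contra hb'
  have h1 : y ^ (2 : ℤ) ∈ zpowers b ⊔ commutator G :=
    mem_of_mem_Mk h.hG (h.mem_two_of_commute ha hb e) hb' le_sup_right
      (mem_sup_left (mem_zpowers b))
  obtain ⟨k, z, hz, e1⟩ := (mem_zpowers_sup_iff (by rw [normalizer_eq_top]; trivial)).1 h1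
  obtain ⟨z, rfl⟩ := (D.mem _).1 hz
  obtain ⟨c, hc⟩ := (D.mem _).1 (comm_mem_W a y)
  have hc1 : c ∉ D.sub (W1 G) := by
    rw [Md.mem_sub, hc]; exact comm_not_mem_W1 h.hG h.nm (h.gen_of_not_mem ha)
  have e2 : D.act a z - z = D.act y⁻¹ (D.act y⁻¹ (c + D.act y c)) := D.inj (by
    have e3 : b ^ k = y ^ (2 : ℤ) * (D.ι z)⁻¹ := by rw [← e1]; simp
    have e4 := (e.zpow_right k).eq
    rw [e3] at e4
    have e5 : a * D.ι z * a⁻¹ * (D.ι z)⁻¹ =
        (D.ι z)⁻¹ * (a * D.ι z * a⁻¹) := by rw [D.conj, ← D.ι_neg, ← D.ι_add, ← D.ι_add, add_comm]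
    rw [D.ι_sub, ← D.conj, ← D.conj, ← D.conj, D.ι_add, ← D.conj, hc, e5]
    calc (D.ι z)⁻¹ * (a * D.ι z * a⁻¹)
        = (y ^ (2 : ℤ))⁻¹ * (y ^ (2 : ℤ) * (D.ι z)⁻¹ * a) * D.ι z * a⁻¹ := by group
      _ = _ := by rw [← e4, commutatorElement_def, zpow_two]; group)
  obtain ⟨j, hj⟩ := D.N_of_not_mem h hw hc1
  obtain ⟨l, hl⟩ := D.exists_phi' h hw ha ha2 z
  have e6 := congrArg (fun t => D.act y (D.act y t)) e2
  simp only [← D.act_mul, mul_inv_cancel_left, mul_inv_cancel, D.act_one] at e6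
  rw [D.act_eq y c, hj, eq_sub_of_add_eq hl] at e6
  refine h.v_not_two hn D hw ⟨j, rfl⟩ (D.act (y * y) (l • D.N y w - z) - c) ?_
  rw [smul_sub, ← map_zsmul (D.act (y * y)),
    show (2 : ℤ) • (l • D.N y w - z) = (2 * l) • D.N y w - z - z by module, e6]
  module

theorem W1_le_phi : W1 G ≤ phi 2 (Mk y 2) := fun g hg => by
  obtain ⟨A, _, D, w, hw⟩ := h.exists_D
  have h1 : mho 2 (commutator G) ≤ phi 2 (Mk y 2) := (mho_mono (W_le_Mk y 2)).trans le_sup_left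
  have h2 : ∀ b, (2 : ℤ) • b ∈ D.sub (phi 2 (Mk y 2)) := fun b => h1 ((h.mem_mho D).2 ⟨b, rfl⟩)
  obtain ⟨g, rfl⟩ := (D.mem _).1 (W1_le hg)
  obtain ⟨b, k, rfl⟩ := (D.mem_W1_iff h hw).1 hg
  refine add_mem (h2 b) (AddSubgroup.zsmul_mem _ ?_ k)
  obtain ⟨e, he, heW, he'⟩ := h.exists_eta hn
  have he2 : e ∈ phi 2 (Mk y 2) := by
    obtain ⟨m, rfl⟩ := he
    simp only at heW ⊢
    rcases Int.even_or_odd' m with ⟨l, rfl | rfl⟩
    · rcases Int.even_or_odd' l with ⟨i, rfl | rfl⟩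
      · rw [mul_comm, zpow_mul, zpow_ofNat]
        exact pow_mem_phi (by rw [zpow_mul]; exact zpow_mem (pow_mem_Mk y 2) i)
      · refine absurd (mem_of_zpow_odd h.hG ⟨i, rfl⟩ ?_) h.y_sq_not_mem
        rwa [← zpow_natCast, ← zpow_mul]
    · exact absurd (mem_of_zpow_odd h.hG ⟨l, rfl⟩ heW) h.y_not_mem_W
  obtain ⟨e, rfl⟩ := (D.mem _).1 heW
  obtain ⟨c, l, rfl⟩ := (D.mem_W1_iff h hw).1 (h.mem_W1_y he heW)
  refine D.mem_of_odd h.hG (k := l) ?_ (by simpa using sub_mem (show _ ∈ D.sub _ from he2) (h2 c))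
  by_contra hl
  obtain ⟨i, rfl⟩ := (Int.not_odd_iff_even.1 hl).two_dvd
  exact he' ((h.mem_mho D).2 ⟨c + i • D.N y w, by module⟩)

theorem card_E : Nat.card (omZ 2 (commutator G)) = 4 := by
  obtain ⟨A, _, D, w, hw⟩ := h.exists_D
  haveI : (mho 2 (commutator G)).Normal := normal_mho 2
  have e1 : zpowers (D.ι (D.N y w)) ⊔ mho 2 (commutator G) = W1 G := by
    refine le_antisymm (sup_le (zpowers_le.2 (D.N_mem y w)) le_sup_left) fun g hg => ?_
    obtain ⟨g, rfl⟩ := (D.mem _).1 (W1_le hg)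
    obtain ⟨b, k, rfl⟩ := (D.mem_W1_iff h hw).1 hg
    rw [add_comm, D.ι_add, D.ι_zsmul]
    exact mul_mem_sup ⟨k, rfl⟩ ((h.mem_mho D).2 ⟨b, rfl⟩)
  have e2 : zpowers (D.ι w) ⊔ W1 G = commutator G := by
    refine le_antisymm (sup_le (zpowers_le.2 (D.ι_mem w)) W1_le) fun g hg => ?_
    by_cases hg' : g ∈ W1 G
    · exact mem_sup_right hg'
    · simpa using mul_mem_sup (mem_zpowers (D.ι w))
        (inv_mul_mem_W1 h.top (D.ι_mem w) hg (D.w_not_mem h hw) hg')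
  have h1 := relIndex_zpowers_sup (p := 2) (N := mho 2 (commutator G)) (g := D.ι (D.N y w))
    (by rw [normalizer_eq_top]; trivial) (pow_mem_mho (D.ι_mem _)) fun e => by
      obtain ⟨b, hb⟩ := (h.mem_mho D).1 e
      exact h.v_not_two hn D hw odd_one b (by rw [one_smul, hb])
  have h2 := relIndex_zpowers_sup (p := 2) (N := W1 G) (g := D.ι w)
    (by rw [normalizer_eq_top]; trivial) (sq_mem_W1 (D.ι_mem _)) (D.w_not_mem h hw)
  rw [e1] at h1
  rw [e2] at h2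
  rw [card_omZ_eq fun a ha b hb => h.comm_W ha hb,
    ← relIndex_mul_relIndex _ (W1 G) _ le_sup_left W1_le, h1, h2]

theorem E_eq {e f : G} (he : e ∈ omZ 2 (commutator G)) (hf : f ∈ omZ 2 (commutator G))
    (he1 : e ≠ 1) (hf1 : f ≠ 1) (hef : f ≠ e) :
    zpowers f ⊔ zpowers e = omZ 2 (commutator G) := by
  refine eq_of_le_of_card_ge (sup_le (zpowers_le.2 hf) (zpowers_le.2 he)) ?_
  rw [h.card_E hn, card_zpowers_sup (p := 2) (mem_normalizer_of_commute fun _ hb =>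
    commute_zpowers (hf.2.2 e he.1) _ hb) (hf.2.1 ▸ one_mem _)
    (fun hc => hef (eq_of_mem_zpowers_two he.2.1 hc hf1)), card_zpowers_eq he.2.1 he1]

theorem not_E_le (d : G) : ¬ omZ 2 (commutator G) ≤ zpowers d := fun hc => by
  haveI := isCyclic_of_le hc
  obtain ⟨g, hg⟩ := IsCyclic.exists_generator (α := omZ 2 (commutator G))
  have h1 := orderOf_eq_card_of_forall_mem_zpowers hg
  have h2 : orderOf g ∣ 2 := orderOf_dvd_of_pow_eq_one (Subtype.ext g.2.2.1)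
  rw [h1, h.card_E hn] at h2
  omega

theorem relIndex_mho_le {K : Subgroup G} (hK : K ≤ commutator G) : (mho 2 K).relIndex K ≤ 4 := by
  rw [← card_omZ_eq fun a ha b hb => h.comm_W (hK ha) (hK hb), ← h.card_E hn]
  exact card_le_of_le fun e he => h.mem_E.2 ⟨hK he.1, he.2.1⟩

theorem relIndex_phi_le {K : Subgroup G} (hK : K ≤ Mk y 1) : (phi 2 K).relIndex K ≤ 4 := by
  by_cases hKW : K ≤ commutator G
  · exact (relIndex_le_of_le_left le_sup_left relIndex_ne_zero').trans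
      (h.relIndex_mho_le hn hKW)
  obtain ⟨g, hg, hg'⟩ := SetLike.not_le_iff_exists.1 hKW
  obtain ⟨k, hk, hk1, hk2⟩ := exists_sq_mem h.hG hg'
  have hkK : k ∈ K := zpowers_le.2 hg hk
  set L := K ⊓ commutator G
  have h1 : (phi 2 K ⊓ L).relIndex L ≤ 2 := by
    have h2 := h.relIndex_mho_le hn (inf_le_right : L ≤ _)
    have hle : mho 2 L ≤ phi 2 K ⊓ L := le_inf ((mho_mono inf_le_left).trans le_sup_left) mho_le
    rw [← relIndex_mul_relIndex _ _ _ hle inf_le_right] at h2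
    have h3 : (mho 2 L).relIndex (phi 2 K ⊓ L) ≠ 1 := fun e => hk1 (h.mem_W_of_sq hn (hK hkK)
      (mho_mono inf_le_right (relIndex_eq_one.1 e ⟨pow_mem_phi hkK, pow_mem hkK 2, hk2⟩)))
    have h4 : (mho 2 L).relIndex (phi 2 K ⊓ L) ≠ 0 := relIndex_ne_zero'
    have h5 : 2 ≤ (mho 2 L).relIndex (phi 2 K ⊓ L) := by omega
    nlinarith
  obtain ⟨a, ha, H⟩ := relIndex_dvd_two_iff.1
    (relIndex_dvd_of_le' (h.hG.to_subgroup L) h1)
  have h2 : (phi 2 K).relIndex (phi 2 K ⊔ L) ∣ 2 := relIndex_dvd_two_iff.2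
    ⟨a, mem_sup_right ha, fun b hb => by
      obtain ⟨r, hr, t, ht, rfl⟩ := (Fus2.mem_sup_iff_of_le_normalizer fun g hg =>
        mem_normalizer_inf (le_normalizer (phi_le hg)) (by rw [normalizer_eq_top]; trivial)).1 hb
      exact (H t ht).imp (fun e => by rw [mul_assoc]; exact mul_mem hr e.1) fun e => mul_mem hr e.1⟩
  obtain ⟨c, hc, H'⟩ := exists_gen hK
  have h3 : (phi 2 K ⊔ L).relIndex K ∣ 2 := relIndex_dvd_two_iff.2 ⟨c, hc, fun b hb => by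
    obtain ⟨n, hn⟩ := H' b hb
    have h4 : b * (c ^ n)⁻¹ ∈ phi 2 K ⊔ L :=
      mem_sup_right ⟨K.mul_mem hb (K.inv_mem (K.zpow_mem hc n)), hn⟩
    have h5 : ∀ m : ℤ, c ^ (2 * m) ∈ phi 2 K ⊔ L := fun m => by
      rw [zpow_mul]; exact zpow_mem (mem_sup_left (by exact_mod_cast pow_mem_phi hc)) m
    rcases Int.even_or_odd' n with ⟨m, rfl | rfl⟩
    · right; simpa using mul_mem h4 (h5 m)
    · left
      convert mul_mem h4 (h5 (m + 1)) using 1
      group⟩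
  rw [← relIndex_mul_relIndex _ (phi 2 K ⊔ L) _ le_sup_left (sup_le phi_le inf_le_left)]
  exact Nat.mul_le_mul (Nat.le_of_dvd two_pos h2) (Nat.le_of_dvd two_pos h3)

theorem sr : SR 2 G := fun H D hD => by
  have h1 : (H ⊓ Mk y 1).relIndex H ∣ 2 := by
    rw [relIndex_dvd_two_iff]
    by_cases hH : H ≤ Mk y 1
    · exact ⟨1, one_mem _, fun b hb => Or.inr ⟨hb, hH hb⟩⟩
    · obtain ⟨a, ha, ha'⟩ := SetLike.not_le_iff_exists.1 hH
      refine ⟨a, ha, fun b hb => ?_⟩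
      by_cases hb' : b ∈ Mk y 1
      · exact Or.inr ⟨hb, hb'⟩
      · exact Or.inl ⟨mul_mem hb ha, h.mul_mem_of_not_mem hb' ha'⟩
  refine (relIndex_le_of_le_left ((phi_mono (inf_le_left : H ⊓ Mk y 1 ≤ H)).trans hD)
    relIndex_ne_zero').trans ?_
  rw [← relIndex_mul_relIndex _ (H ⊓ Mk y 1) _ phi_le inf_le_left]
  exact Nat.mul_le_mul (h.relIndex_phi_le hn inf_le_right) (Nat.le_of_dvd two_pos h1)

end NonCyclic

end BC

end Cfsg.Agent.Bic
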